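import Mathlib
import Cfsg.Prelude.Def_Characters
import Cfsg.Agent.Characters.Core
import Cfsg.Agent.Characters.Linear
import Cfsg.Agent.MTwelve.SmallDegree

/-!
# Splitting off irreducible constituents

`φ - χ` is a character if the irreducible `χ` occurs in the character `φ`; inner products of products.
-/

set_option autoImplicit false
set_option linter.unusedSectionVars false
set_option linter.style.haveILetI false
open scoped ComplexConjugate
open Cfsg Cfsg.Agent.Characters.Core

namespace Cfsg.Agent.H668.CharPeel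

universe u
variable {G : Type u} [Group G] [Fintype G]

/-- The complex conjugate function. -/
noncomputable def cj (χ : G → ℂ) : G → ℂ := fun g => conj (χ g)

theorem cj_apply (χ : G → ℂ) (g : G) : cj χ g = conj (χ g) := rfl

theorem cj_cj (χ : G → ℂ) : cj (cj χ) = χ := by
  funext g; simp [cj]

theorem isIrr_cj {χ : G → ℂ} (h : IsIrrCharacter G χ) : IsIrrCharacter G (cj χ) := isIrr_conj h

theorem isChar_cj {χ : G → ℂ} (h : IsCharacter G χ) : IsCharacter G (cj χ) := isCharacter_conj h

theorem ip_mul_left (a b c : G → ℂ) : classInner (a * b) c = classInner a (c * cj b) := by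
  rw [classInner_def, classInner_def]
  congr 1
  apply Finset.sum_congr rfl
  intro g _
  simp only [Pi.mul_apply, cj_apply, map_mul, Complex.conj_conj]
  ring

theorem ip_mul_right (a b c : G → ℂ) : classInner a (b * c) = classInner (a * cj c) b := by
  rw [ip_mul_left, cj_cj]

theorem ip_comm_real {a b : G → ℂ} (ha : IsCharacter G a) (hb : IsCharacter G b) :
    classInner a b = classInner b a := by
  obtain ⟨n, hn⟩ := classInner_isNat ha hb
  have h := classInner_conj_symm a b
  rw [hn] at h ⊢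
  rw [← h]; simp

/-- `χ` occurs in `φ` iff `φ - χ` is a character. -/
theorem isCharacter_sub {φ χ : G → ℂ} (hφ : IsCharacter G φ) (hχ : IsIrrCharacter G χ)
    (h : classInner φ χ ≠ 0) : IsCharacter G (φ - χ) := by
  classical
  haveI : Fintype (IrrCharacter G) := by
    haveI := finite_irr (G := G)
    exact Fintype.ofFinite _
  obtain ⟨m, hm⟩ := isCharacter_iff.1 hφ
  have h1 : classInner φ χ = m ⟨χ, hχ⟩ := by
    rw [hm]
    exact classInner_sum_nsmul_irr m ⟨χ, hχ⟩
  have h2 : m ⟨χ, hχ⟩ ≠ 0 := by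
    intro h0
    rw [h0] at h1
    exact h (by simpa using h1)
  rw [isCharacter_iff]
  refine ⟨fun ψ => if ψ = ⟨χ, hχ⟩ then m ψ - 1 else m ψ, ?_⟩
  have h3 : φ = χ + ∑ ψ : IrrCharacter G,
      (if ψ = ⟨χ, hχ⟩ then m ψ - 1 else m ψ) • (ψ : G → ℂ) := by
    rw [hm, ← Finset.add_sum_erase _ _ (Finset.mem_univ (⟨χ, hχ⟩ : IrrCharacter G)),
      ← Finset.add_sum_erase _ (fun ψ : IrrCharacter G =>
        (if ψ = ⟨χ, hχ⟩ then m ψ - 1 else m ψ) • (ψ : G → ℂ))
        (Finset.mem_univ (⟨χ, hχ⟩ : IrrCharacter G)), ← add_assoc]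
    congr 1
    · simp only [if_true]
      obtain ⟨k, hk⟩ := Nat.exists_eq_succ_of_ne_zero h2
      rw [hk]
      simp only [Nat.succ_eq_add_one, Nat.add_sub_cancel]
      rw [add_smul, one_smul, add_comm]
    · apply Finset.sum_congr rfl
      intro ψ hψ
      rw [if_neg (Finset.ne_of_mem_erase hψ)]
  nth_rewrite 1 [h3]
  rw [add_sub_cancel_left]

/-- A nonzero character has a constituent. -/
theorem exists_constituent {φ : G → ℂ} (hφ : IsCharacter G φ) (h : φ ≠ 0) :
    ∃ χ : G → ℂ, IsIrrCharacter G χ ∧ classInner φ χ ≠ 0 := by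
  by_contra hcon
  push Not at hcon
  apply h
  exact classFunction_eq_zero (isCharacter_isClassFunction hφ) hcon

/-- A character of degree zero is zero. -/
theorem eq_zero_of_apply_one {φ : G → ℂ} (hφ : IsCharacter G φ) (h : φ 1 = 0) : φ = 0 := by
  by_contra hne
  obtain ⟨χ, hχ, h1⟩ := exists_constituent hφ hne
  have h2 := isCharacter_sub hφ hχ h1
  obtain ⟨n, hn⟩ := isCharacter_apply_one h2
  obtain ⟨m, hm0, hm⟩ := isIrr_apply_one hχ
  rw [Pi.sub_apply, h, hm, zero_sub] at hn
  have h3 : ((n + m : ℕ) : ℂ) = 0 := by push_cast; rw [← hn]; ring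
  have h4 : n + m = 0 := by exact_mod_cast h3
  omega

/-- Two characters with a common constituent have a nonzero inner product. -/
theorem ip_ne_zero_of_common {φ ψ χ : G → ℂ} (hφ : IsCharacter G φ) (hψ : IsCharacter G ψ)
    (hχ : IsIrrCharacter G χ) (h1 : classInner φ χ ≠ 0) (h2 : classInner ψ χ ≠ 0) :
    classInner φ ψ ≠ 0 := by
  have e1 : φ = χ + (φ - χ) := by ring
  have e2 : ψ = χ + (ψ - χ) := by ring
  have c1 := isCharacter_sub hφ hχ h1
  have c2 := isCharacter_sub hψ hχ h2
  have hχ' := isIrr_isCharacter hχ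
  obtain ⟨a, ha⟩ := classInner_isNat hχ' c2
  obtain ⟨b, hb⟩ := classInner_isNat c1 hχ'
  obtain ⟨c, hc⟩ := classInner_isNat c1 c2
  rw [e1, e2, classInner_add_left, classInner_add_right, classInner_add_right,
    classInner_irr_self hχ, ha, hb, hc]
  have : ((1 + a + (b + c) : ℕ) : ℂ) ≠ 0 := by
    rw [Nat.cast_ne_zero]; omega
  intro h
  apply this
  push_cast
  exact h

/-- The multiplicity of an irreducible in a product of an irreducible with a character. -/
theorem ip_one_le {φ : G → ℂ} (hφ : IsIrrCharacter G φ) {ψ : G → ℂ} (hψ : IsIrrCharacter G ψ) :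
    classInner (φ * ψ) 1 = if φ = cj ψ then 1 else 0 := by
  rw [ip_mul_left, one_mul, classInner_irr hφ (isIrr_cj hψ)]

theorem one_ne_of_deg {χ : G → ℂ} {n : ℕ} (h : χ 1 = n) (hn : n ≠ 1) : χ ≠ 1 := by
  rintro rfl
  rw [Pi.one_apply] at h
  exact hn (by exact_mod_cast h.symm)

end Cfsg.Agent.H668.CharPeel
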