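import Mathlib
import Cfsg.Prelude.Def_Characters
import Cfsg.Agent.Characters.Core

/-!
# Groups of central type with centre of order two, and lifts of automorphisms

`E` is a finite group with a central involution `z`, commutators in `{1, z}` and centre `{1, z}`;
`ρ : E →* GL(M)` with `ρ z = -1` and `|E| = 2 (dim M)²`.
-/

set_option autoImplicit false
set_option linter.unusedSectionVars false
set_option linter.style.haveILetI false
open scoped ComplexConjugate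
open Cfsg Cfsg.Agent.Characters.Core Module

namespace Cfsg.Agent.H668.DadeA

/-- Groups of central type with centre `{1, z}`. -/
structure CT (E : Type*) [Group E] (z : E) : Prop where
  ne : z ≠ 1
  sq : z * z = 1
  comm : ∀ x y : E, x * y = y * x ∨ x * y = z * (y * x)
  zcomm : ∀ x : E, x * z = z * x
  cen : ∀ x : E, (∀ y : E, x * y = y * x) → x = 1 ∨ x = z

section rep

variable {E : Type*} [Group E] {M : Type*} [AddCommGroup M] [Module ℂ M]

/-- A homomorphism to `GL(M)` as a representation. -/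
noncomputable def rep (ρ : E →* (M ≃ₗ[ℂ] M)) : Representation ℂ E M :=
  (LinearEquiv.automorphismGroup.toLinearMapMonoidHom).comp ρ

theorem rep_apply (ρ : E →* (M ≃ₗ[ℂ] M)) (e : E) : rep ρ e = (ρ e : M →ₗ[ℂ] M) := rfl

/-- Scalars. -/
noncomputable def sc (M : Type*) [AddCommGroup M] [Module ℂ M] : ℂˣ →* (M ≃ₗ[ℂ] M) where
  toFun c := LinearEquiv.smulOfUnit c
  map_one' := by ext v; simp [LinearEquiv.smulOfUnit]
  map_mul' a b := by
    ext v
    simp [LinearEquiv.smulOfUnit, mul_smul, Units.smul_def]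
    rw [smul_comm]

theorem sc_apply (c : ℂˣ) (v : M) : sc M c v = (c : ℂ) • v := rfl

theorem sc_coe (c : ℂˣ) : ((sc M c : M ≃ₗ[ℂ] M) : M →ₗ[ℂ] M) = (c : ℂ) • LinearMap.id := by
  ext v; rfl

theorem sc_comm (c : ℂˣ) (A : M ≃ₗ[ℂ] M) : sc M c * A = A * sc M c := by
  ext v
  simp only [LinearEquiv.mul_apply, sc_apply, map_smul]

/-- The spin representations. -/
structure Spin (z : E) (ρ : E →* (M ≃ₗ[ℂ] M)) : Prop where
  neg : ρ z = sc M (-1)
  card : Nat.card E = 2 * finrank ℂ M ^ 2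

variable {z : E} {ρ : E →* (M ≃ₗ[ℂ] M)}

theorem trace_conj (A B : M ≃ₗ[ℂ] M) :
    LinearMap.trace ℂ M ((A * B * A⁻¹ : M ≃ₗ[ℂ] M) : M →ₗ[ℂ] M) = LinearMap.trace ℂ M (B : M →ₗ[ℂ] M) := by
  have h1 : ((A * B * A⁻¹ : M ≃ₗ[ℂ] M) : M →ₗ[ℂ] M) =
      (A : M →ₗ[ℂ] M) * ((B : M →ₗ[ℂ] M) * ((A⁻¹ : M ≃ₗ[ℂ] M) : M →ₗ[ℂ] M)) := by
    ext v; rfl
  rw [h1, LinearMap.trace_mul_comm, mul_assoc]
  have h2 : ((A⁻¹ : M ≃ₗ[ℂ] M) : M →ₗ[ℂ] M) * (A : M →ₗ[ℂ] M) = 1 := by
    ext v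
    exact A.symm_apply_apply v
  rw [h2, mul_one]

theorem Spin.trace_zero (hE : CT E z) (h : Spin z ρ) {x : E} (hx1 : x ≠ 1) (hxz : x ≠ z) :
    LinearMap.trace ℂ M (ρ x : M →ₗ[ℂ] M) = 0 := by
  obtain ⟨y, hy⟩ : ∃ y, x * y ≠ y * x := by
    by_contra hcon
    push Not at hcon
    rcases hE.cen x hcon with h1 | h1
    · exact hx1 h1
    · exact hxz h1
  have h1 : x * y = z * (y * x) := (hE.comm x y).resolve_left hy
  have h2 : y * x * y⁻¹ = z * x := by
    have h3 : y * x = z * (x * y) := by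
      rw [h1, ← mul_assoc, hE.sq, one_mul]
    rw [h3]; group
  have h4 : LinearMap.trace ℂ M (ρ (y * x * y⁻¹) : M →ₗ[ℂ] M) = LinearMap.trace ℂ M (ρ x : M →ₗ[ℂ] M) := by
    rw [map_mul, map_mul, map_inv]
    exact trace_conj _ _
  have h5 : ((ρ (z * x) : M ≃ₗ[ℂ] M) : M →ₗ[ℂ] M) = -(ρ x : M →ₗ[ℂ] M) := by
    rw [map_mul, h.neg]
    ext v
    simp [sc_apply]
  rw [h2, h5, map_neg] at h4
  have : (2 : ℂ) * LinearMap.trace ℂ M (ρ x : M →ₗ[ℂ] M) = 0 := by linear_combination -h4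
  simpa using this

theorem Spin.trace_z (h : Spin z ρ) [FiniteDimensional ℂ M] :
    LinearMap.trace ℂ M (ρ z : M →ₗ[ℂ] M) = -finrank ℂ M := by
  rw [h.neg, sc_coe, map_smul]
  simp

theorem trace_one' [FiniteDimensional ℂ M] :
    LinearMap.trace ℂ M (ρ 1 : M →ₗ[ℂ] M) = finrank ℂ M := by
  rw [map_one]
  exact LinearMap.trace_one ℂ M

theorem Spin.finrank_pos [Finite E] (h : Spin z ρ) : 0 < finrank ℂ M := by
  have h1 := h.card
  have h2 : 0 < Nat.card E := Nat.card_pos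
  by_contra h3
  have : finrank ℂ M = 0 := by omega
  rw [this] at h1
  omega

variable [Finite E] [FiniteDimensional ℂ M]

/-- The character of a spin representation is determined. -/
theorem Spin.char_eq (hE : CT E z) (h : Spin z ρ) (x : E) [Decidable (x = 1)] [Decidable (x = z)] :
    LinearMap.trace ℂ M (ρ x : M →ₗ[ℂ] M) =
      if x = 1 then (finrank ℂ M : ℂ) else if x = z then -(finrank ℂ M : ℂ) else 0 := by
  split_ifs with h1 h2
  · rw [h1]; exact trace_one'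
  · rw [h2]; exact h.trace_z
  · exact h.trace_zero hE h1 h2

theorem Spin.isIrr (hE : CT E z) (h : Spin z ρ) : (rep ρ).IsIrreducible := by
  classical
  haveI := Fintype.ofFinite E
  rw [isIrreducible_iff_isIrrCharacter]
  apply isIrr_of_classInner_self (isCharacter_of_rep _)
  rw [classInner_def]
  have hval : ∀ x : E, (rep ρ).character x =
      if x = 1 then (finrank ℂ M : ℂ) else if x = z then -(finrank ℂ M : ℂ) else 0 :=
    fun x => h.char_eq hE x
  have h1 : ∑ g : E, (rep ρ).character g * conj ((rep ρ).character g) = 2 * (finrank ℂ M : ℂ) ^ 2 := by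
    have h2 : ∀ g : E, (rep ρ).character g * conj ((rep ρ).character g) =
        (if g = 1 then (finrank ℂ M : ℂ) ^ 2 else 0) + (if g = z then (finrank ℂ M : ℂ) ^ 2 else 0) := by
      intro g
      rw [hval]
      by_cases h3 : g = 1
      · have h4 : g ≠ z := by rw [h3]; exact fun h5 => hE.ne h5.symm
        rw [if_pos h3, if_pos h3, if_neg h4]
        simp [sq]
      · by_cases h4 : g = z
        · rw [if_neg h3, if_pos h4, if_neg h3, if_pos h4]
          simp [sq]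
        · rw [if_neg h3, if_neg h4, if_neg h3, if_neg h4]
          simp
    rw [Finset.sum_congr rfl fun g _ => h2 g, Finset.sum_add_distrib]
    simp
    ring
  rw [h1, h.card]
  have h3 : (finrank ℂ M : ℂ) ≠ 0 := by
    rw [Nat.cast_ne_zero]; exact h.finrank_pos.ne'
  push_cast
  field_simp

/-- Schur's lemma. -/
theorem Spin.scalar (hE : CT E z) (h : Spin z ρ) (f : M →ₗ[ℂ] M)
    (hf : ∀ e, f * (ρ e : M →ₗ[ℂ] M) = (ρ e : M →ₗ[ℂ] M) * f) : ∃ c : ℂ, f = c • LinearMap.id := by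
  have hI := h.isIrr hE
  obtain ⟨c, hc⟩ := (Representation.IsIrreducible.algebraMap_intertwiningMap_bijective_of_isAlgClosed
    (ρ := rep ρ)).2 (⟨f, fun g => hf g⟩ : Representation.IntertwiningMap (rep ρ) (rep ρ))
  exact ⟨c, (congrArg Representation.IntertwiningMap.toLinearMap hc).symm⟩

theorem Spin.scalar_unit (hE : CT E z) (h : Spin z ρ) (A : M ≃ₗ[ℂ] M)
    (hA : ∀ e, A * ρ e = ρ e * A) : ∃ c : ℂˣ, A = sc M c := by
  obtain ⟨c, hc⟩ := h.scalar hE (A : M →ₗ[ℂ] M) (by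
    intro e
    ext v
    exact congrArg (fun B : M ≃ₗ[ℂ] M => B v) (hA e))
  have hM : 0 < finrank ℂ M := h.finrank_pos
  have hnt : Nontrivial M := Module.nontrivial_of_finrank_pos hM
  have hc0 : c ≠ 0 := by
    rintro rfl
    obtain ⟨v, hv⟩ := exists_ne (0 : M)
    have h1 := congrArg (fun B : M →ₗ[ℂ] M => B v) hc
    simp only [zero_smul, LinearMap.zero_apply] at h1
    exact hv (A.map_eq_zero_iff.1 h1)
  refine ⟨Units.mk0 c hc0, ?_⟩
  ext v
  exact congrArg (fun B : M →ₗ[ℂ] M => B v) hc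

theorem mul_coe (A B : M ≃ₗ[ℂ] M) :
    ((A * B : M ≃ₗ[ℂ] M) : M →ₗ[ℂ] M) = (A : M →ₗ[ℂ] M) * (B : M →ₗ[ℂ] M) := by
  ext v; rfl

/-- Two spin representations are equivalent. -/
theorem Spin.equiv (hE : CT E z) (h : Spin z ρ) {M' : Type*} [AddCommGroup M'] [Module ℂ M']
    [FiniteDimensional ℂ M'] {ρ' : E →* (M' ≃ₗ[ℂ] M')} (h' : Spin z ρ') :
    ∃ e : M ≃ₗ[ℂ] M', ∀ (x : E) (v : M), e (ρ x v) = ρ' x (e v) := by
  classical
  have hd : finrank ℂ M = finrank ℂ M' := by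
    have h1 := h.card
    rw [h'.card] at h1
    have : finrank ℂ M' ^ 2 = finrank ℂ M ^ 2 := by omega
    exact (Nat.pow_left_injective (n := 2) (by norm_num) this).symm
  obtain ⟨e⟩ := nonempty_equiv_of_character_eq (rep ρ) (rep ρ') (by
    funext x
    have a := h.char_eq hE x
    have b := h'.char_eq hE x
    rw [hd] at a
    exact a.trans b.symm)
  exact ⟨e.toLinearEquiv, fun x v =>
    Representation.IntertwiningMap.isIntertwining _ _ e.toIntertwiningMap x v⟩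

/-- Automorphisms fix `z`. -/
theorem CT.map_z (hE : CT E z) (τ : MulAut E) : τ z = z := by
  rcases hE.cen (τ z) (by
    intro y
    have := hE.zcomm (τ.symm y)
    have h1 := congrArg τ this
    rw [map_mul, map_mul] at h1
    simpa using h1.symm) with h | h
  · exfalso
    apply hE.ne
    have : τ z = τ 1 := by rw [h, map_one]
    exact τ.injective this
  · exact h

/-- Every automorphism is implemented. -/
theorem Spin.exists_impl (hE : CT E z) (h : Spin z ρ) (τ : MulAut E) :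
    ∃ A : M ≃ₗ[ℂ] M, ∀ e, A * ρ e = ρ (τ e) * A := by
  have h' : Spin z (ρ.comp τ.toMonoidHom) := by
    refine ⟨?_, h.card⟩
    show ρ (τ z) = _
    rw [hE.map_z]; exact h.neg
  obtain ⟨A, hA⟩ := h.equiv hE h'
  refine ⟨A, fun e => ?_⟩
  ext v
  exact hA e v

/-! ### The group of pairs and lifts -/

variable {Y : Type*} [Group Y]

/-- Pairs `(y, A)` with `A` implementing the automorphism of `y`. -/
def Gam (φ : Y →* MulAut E) (ρ : E →* (M ≃ₗ[ℂ] M)) : Subgroup (Y × (M ≃ₗ[ℂ] M)) where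
  carrier := {p | ∀ e, p.2 * ρ e = ρ (φ p.1 e) * p.2}
  one_mem' := by intro e; simp
  mul_mem' := by
    rintro ⟨a, A⟩ ⟨b, B⟩ ha hb e
    have ha' : ∀ e, A * ρ e = ρ (φ a e) * A := ha
    have hb' : ∀ e, B * ρ e = ρ (φ b e) * B := hb
    show (A * B) * ρ e = ρ (φ (a * b) e) * (A * B)
    rw [mul_assoc, hb', ← mul_assoc, ha', map_mul, MulAut.mul_apply, mul_assoc]
  inv_mem' := by
    rintro ⟨a, A⟩ ha e
    have ha' : ∀ e, A * ρ e = ρ (φ a e) * A := ha
    show A⁻¹ * ρ e = ρ (φ a⁻¹ e) * A⁻¹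
    rw [inv_mul_eq_iff_eq_mul, ← mul_assoc, ha', mul_assoc, mul_inv_cancel, mul_one, map_inv,
      MulAut.apply_inv_self]

theorem mem_Gam {φ : Y →* MulAut E} {p : Y × (M ≃ₗ[ℂ] M)} :
    p ∈ Gam φ ρ ↔ ∀ e, p.2 * ρ e = ρ (φ p.1 e) * p.2 := Iff.rfl

theorem sc_mem (φ : Y →* MulAut E) (c : ℂˣ) : ((1 : Y), sc M c) ∈ Gam φ ρ := by
  intro e
  show sc M c * ρ e = ρ (φ 1 e) * sc M c
  rw [map_one, MulAut.one_apply, sc_comm]

/-- Scalars in the group of pairs. -/
noncomputable def scG (φ : Y →* MulAut E) (ρ : E →* (M ≃ₗ[ℂ] M)) : ℂˣ →* Gam φ ρ where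
  toFun c := ⟨(1, sc M c), sc_mem φ c⟩
  map_one' := by apply Subtype.ext; simp
  map_mul' a b := by apply Subtype.ext; simp

theorem exists_scG (hE : CT E z) (h : Spin z ρ) (φ : Y →* MulAut E) (p : Gam φ ρ)
    (hp : p.1.1 = 1) : ∃ c : ℂˣ, p = scG φ ρ c := by
  obtain ⟨c, hc⟩ := h.scalar_unit hE p.1.2 (by
    intro e
    have := p.2 e
    rw [hp, map_one, MulAut.one_apply] at this
    exact this)
  refine ⟨c, ?_⟩
  apply Subtype.ext
  exact Prod.ext hp hc

/-- The existence of a lift. -/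
def HasLift (φ : Y →* MulAut E) (ρ : E →* (M ≃ₗ[ℂ] M)) : Prop :=
  ∃ L : Y →* (M ≃ₗ[ℂ] M), ∀ y e, L y * ρ e = ρ (φ y e) * L y

/-- A homomorphism of the group of pairs which is the identity on scalars gives a lift. -/
theorem hasLift_of_hom (hE : CT E z) (h : Spin z ρ) (φ : Y →* MulAut E) (F : Gam φ ρ →* ℂˣ)
    (hF : ∀ c, F (scG φ ρ c) = c) : HasLift φ ρ := by
  let π : F.ker →* Y := ((MonoidHom.fst Y (M ≃ₗ[ℂ] M)).comp (Gam φ ρ).subtype).comp F.ker.subtype
  have hπ : ∀ x : F.ker, π x = x.1.1.1 := fun _ => rfl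
  have hinj : Function.Injective π := by
    rw [injective_iff_map_eq_one]
    intro x hx
    rw [hπ] at hx
    obtain ⟨c, hc⟩ := exists_scG hE h φ x.1 hx
    have h1 := x.2
    rw [MonoidHom.mem_ker, hc, hF] at h1
    apply Subtype.ext
    rw [hc, h1, map_one]; rfl
  have hsurj : Function.Surjective π := by
    intro y
    obtain ⟨A, hA⟩ := h.exists_impl hE (φ y)
    set p : Gam φ ρ := ⟨(y, A), hA⟩ with hp
    refine ⟨⟨p * scG φ ρ (F p)⁻¹, ?_⟩, ?_⟩
    · rw [MonoidHom.mem_ker, map_mul, hF, mul_inv_cancel]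
    · rw [hπ]
      show y * 1 = y
      rw [mul_one]
  let e : F.ker ≃* Y := MulEquiv.ofBijective π ⟨hinj, hsurj⟩
  have he : ∀ y, (e.symm y).1.1.1 = y := by
    intro y
    have := e.apply_symm_apply y
    exact this
  refine ⟨((MonoidHom.snd Y (M ≃ₗ[ℂ] M)).comp (Gam φ ρ).subtype).comp
    (F.ker.subtype.comp e.symm.toMonoidHom), ?_⟩
  intro y x
  show (e.symm y).1.1.2 * ρ x = ρ (φ y x) * (e.symm y).1.1.2
  have := (e.symm y).1.2 x
  rw [he] at this
  exact this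

/-- The determinant on the group of pairs. -/
noncomputable def detG (φ : Y →* MulAut E) (ρ : E →* (M ≃ₗ[ℂ] M)) : Gam φ ρ →* ℂˣ :=
  (LinearEquiv.det : (M ≃ₗ[ℂ] M) →* ℂˣ).comp ((MonoidHom.snd Y (M ≃ₗ[ℂ] M)).comp (Gam φ ρ).subtype)

theorem detG_sc (φ : Y →* MulAut E) (c : ℂˣ) : detG φ ρ (scG φ ρ c) = c ^ finrank ℂ M := by
  apply Units.ext
  show ((LinearEquiv.det (sc M c) : ℂˣ) : ℂ) = _
  rw [LinearEquiv.coe_det, sc_coe, LinearMap.det_smul]
  simp

/-- A homomorphism of the group of pairs of exponent prime to the degree gives a lift. -/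
theorem hasLift_of_exponent (hE : CT E z) (h : Spin z ρ) (φ : Y →* MulAut E) (F : Gam φ ρ →* ℂˣ)
    (N : ℕ) (hN : Nat.Coprime N (finrank ℂ M)) (hF : ∀ c, F (scG φ ρ c) = c ^ N) :
    HasLift φ ρ := by
  obtain ⟨a, b, hab⟩ : ∃ a b : ℤ, a * N + b * finrank ℂ M = 1 := by
    have := Nat.gcd_eq_gcd_ab N (finrank ℂ M)
    rw [hN] at this
    refine ⟨Nat.gcdA N (finrank ℂ M), Nat.gcdB N (finrank ℂ M), ?_⟩
    rw [mul_comm _ (N : ℤ), mul_comm _ (finrank ℂ M : ℤ)]
    exact_mod_cast this.symm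
  apply hasLift_of_hom hE h φ (F ^ a * detG φ ρ ^ b)
  intro c
  have h1 : (F ^ a * detG φ ρ ^ b) (scG φ ρ c) = F (scG φ ρ c) ^ a * detG φ ρ (scG φ ρ c) ^ b := rfl
  rw [h1, hF, detG_sc, ← zpow_natCast, ← zpow_natCast, ← zpow_mul, ← zpow_mul, ← zpow_add,
    mul_comm (N : ℤ), mul_comm (finrank ℂ M : ℤ), hab, zpow_one]

theorem HasLift.comp {Y' : Type*} [Group Y'] {φ : Y →* MulAut E} (h : HasLift φ ρ) (f : Y' →* Y) :
    HasLift (φ.comp f) ρ := by
  obtain ⟨L, hL⟩ := h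
  exact ⟨L.comp f, fun y e => hL (f y) e⟩

end rep

end Cfsg.Agent.H668.DadeA
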