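import Mathlib
import Cfsg.Prelude.Def_Characters
import Cfsg.Agent.Characters.Core
import Cfsg.Agent.Characters.Linear
import Cfsg.Agent.CharactersDeep.InvRep
import Cfsg.Agent.OddOrderCharacters.NormTwo
import Cfsg.Agent.H668.DadeA

/-!
# Automorphisms without fixed points: traces
-/

set_option autoImplicit false
set_option linter.unusedSectionVars false
set_option linter.style.haveILetI false
open scoped ComplexConjugate
open Cfsg Cfsg.Agent.Characters.Core Module

namespace Cfsg.Agent.H668.DadeB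

open Cfsg.Agent.H668.DadeA

section one

variable {E : Type*} [Group E] [Finite E] {M : Type*} [AddCommGroup M] [Module ℂ M]
  [FiniteDimensional ℂ M] {z : E} {ρ : E →* (M ≃ₗ[ℂ] M)}

theorem trace_mul_trace_inv (hE : CT E z) (h : Spin z ρ) (τ : MulAut E) (A : M ≃ₗ[ℂ] M)
    (hA : ∀ e, A * ρ e = ρ (τ e) * A)
    (hτ : ∀ e, (τ e = e ∨ τ e = z * e) → e = 1 ∨ e = z) :
    LinearMap.trace ℂ M (A : M →ₗ[ℂ] M) * LinearMap.trace ℂ M ((A⁻¹ : M ≃ₗ[ℂ] M) : M →ₗ[ℂ] M) = 1 := by
  classical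
  haveI := Fintype.ofFinite E
  set d : ℂ := (finrank ℂ M : ℂ) with hd
  have hd0 : d ≠ 0 := by
    rw [hd, Nat.cast_ne_zero]; exact h.finrank_pos.ne'
  set T : M →ₗ[ℂ] M := ∑ e : E, ((ρ e * A * (ρ e)⁻¹ : M ≃ₗ[ℂ] M) : M →ₗ[ℂ] M) with hT
  have hTc : ∀ g, T * (ρ g : M →ₗ[ℂ] M) = (ρ g : M →ₗ[ℂ] M) * T := by
    intro g
    rw [hT, Finset.sum_mul, Finset.mul_sum]
    rw [← Equiv.sum_comp (Equiv.mulLeft g)]
    apply Finset.sum_congr rfl
    intro e _
    rw [← mul_coe, ← mul_coe]
    congr 1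
    show ρ (g * e) * A * (ρ (g * e))⁻¹ * ρ g = ρ g * (ρ e * A * (ρ e)⁻¹)
    rw [map_mul]; group
  obtain ⟨c, hc⟩ := h.scalar hE T hTc
  -- first trace
  have h1 : c * d = 2 * d ^ 2 * LinearMap.trace ℂ M (A : M →ₗ[ℂ] M) := by
    have a1 : LinearMap.trace ℂ M T = c * d := by
      rw [hc, map_smul]
      simp [hd]
    have a2 : LinearMap.trace ℂ M T = 2 * d ^ 2 * LinearMap.trace ℂ M (A : M →ₗ[ℂ] M) := by
      rw [hT, map_sum, Finset.sum_congr rfl fun e _ => trace_conj (ρ e) A]
      rw [Finset.sum_const, Finset.card_univ, ← Nat.card_eq_fintype_card, h.card, nsmul_eq_mul]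
      push_cast
      rfl
    rw [← a1, a2]
  have hc2 : c = 2 * d * LinearMap.trace ℂ M (A : M →ₗ[ℂ] M) := by
    apply mul_right_cancel₀ hd0
    rw [h1]; ring
  -- second trace
  have h3 : c • ((A⁻¹ : M ≃ₗ[ℂ] M) : M →ₗ[ℂ] M) = ∑ e : E, (ρ (e * (τ e)⁻¹) : M →ₗ[ℂ] M) := by
    have a1 : T * ((A⁻¹ : M ≃ₗ[ℂ] M) : M →ₗ[ℂ] M) = c • ((A⁻¹ : M ≃ₗ[ℂ] M) : M →ₗ[ℂ] M) := by
      rw [hc]
      ext v; rfl
    rw [← a1, hT, Finset.sum_mul]
    apply Finset.sum_congr rfl
    intro e _
    rw [← mul_coe]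
    congr 1
    have := hA e⁻¹
    rw [map_inv] at this
    rw [mul_assoc (ρ e), this, map_mul, map_inv]
    group
  have hz1 : τ z = z := hE.map_z τ
  have hval : ∀ e : E, LinearMap.trace ℂ M (ρ (e * (τ e)⁻¹) : M →ₗ[ℂ] M) =
      (if e = 1 then d else 0) + (if e = z then d else 0) := by
    intro e
    rw [h.char_eq hE]
    by_cases e1 : e = 1
    · subst e1
      rw [map_one]
      have : (1 : E) ≠ z := fun hh => hE.ne hh.symm
      simp [this, hd]
    · by_cases e2 : e = z
      · rw [e2, hz1]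
        have : z ≠ 1 := hE.ne
        simp [this, hd]
      · rw [if_neg e1, if_neg e2]
        have b1 : e * (τ e)⁻¹ ≠ 1 := by
          intro hh
          rw [mul_inv_eq_one] at hh
          rcases hτ e (Or.inl hh.symm) with hh | hh
          · exact e1 hh
          · exact e2 hh
        have b2 : e * (τ e)⁻¹ ≠ z := by
          intro hh
          rw [mul_inv_eq_iff_eq_mul] at hh
          have : τ e = z * e := by
            rw [hh, ← mul_assoc, hE.sq, one_mul]
            rw [← hh]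
          rcases hτ e (Or.inr this) with hh | hh
          · exact e1 hh
          · exact e2 hh
        rw [if_neg b1, if_neg b2]; simp
  have h4 : c * LinearMap.trace ℂ M ((A⁻¹ : M ≃ₗ[ℂ] M) : M →ₗ[ℂ] M) = 2 * d := by
    have a1 := congrArg (LinearMap.trace ℂ M) h3
    rw [map_smul, map_sum, Finset.sum_congr rfl fun e _ => hval e, Finset.sum_add_distrib] at a1
    simp only [Finset.sum_ite_eq', Finset.mem_univ, if_true, smul_eq_mul] at a1
    rw [a1]; ring
  rw [hc2] at h4
  have h5 : (2 * d) * (LinearMap.trace ℂ M (A : M →ₗ[ℂ] M) * LinearMap.trace ℂ M ((A⁻¹ : M ≃ₗ[ℂ] M) : M →ₗ[ℂ] M)) = (2 * d) * 1 := by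
    linear_combination h4
  exact mul_left_cancel₀ (mul_ne_zero two_ne_zero hd0) h5

end one

/-! ### Extension of homomorphisms -/

theorem ext_hom {G : Type*} [Group G] {N : Subgroup G} [hN : N.Normal] [Finite (G ⧸ N)] (g : G)
    (hg : ∀ x : G ⧸ N, x ∈ Subgroup.zpowers (g : G ⧸ N)) (F : N →* ℂˣ)
    (hF : ∀ n : N, F (MulAut.conjNormal g n) = F n) :
    ∃ F' : G →* ℂˣ, ∀ n : N, F' n = F n := by
  let r : Representation ℂ N ℂ :=
    ((algebraMap ℂ (Module.End ℂ ℂ)) : ℂ →* Module.End ℂ ℂ).comp ((Units.coeHom ℂ).comp F)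
  have hr : ∀ n, r n = algebraMap ℂ (Module.End ℂ ℂ) (F n : ℂ) := fun n => rfl
  obtain ⟨σ, hσ⟩ := CharactersDeep.InvRep.exists_extension_of_cyclic r
    (Characters.Linear.isIrreducible_of_finrank_eq_one r (by simp)) g hg 1 (by
      intro n
      rw [Units.val_one, one_mul, mul_one, hr, hr, hF])
  refine ⟨(LinearMap.det.comp σ).toHomUnits, fun n => ?_⟩
  apply Units.ext
  rw [MonoidHom.coe_toHomUnits]
  show LinearMap.det (σ n) = _
  rw [hσ, hr, Algebra.algebraMap_eq_smul_one, LinearMap.det_smul]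
  simp

/-! ### The trace of commuting elements -/

section two

/-- Sum of the squared absolute values of the difference of two characters. -/
theorem sum_normSq_sub {C : Type*} [Group C] [Fintype C] (β β' : C →* ℂˣ) (h : β ≠ β') :
    ∑ c : C, ((β c : ℂ) - β' c) * conj ((β c : ℂ) - β' c) = 2 * Nat.card C := by
  classical
  have hinv : ∀ (γ : C →* ℂˣ) c, conj (γ c : ℂ) = ((γ c)⁻¹ : ℂˣ) := by
    intro γ c
    have h1 := isCharacter_apply_inv (Characters.Linear.isCharacter_hom γ) c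
    rw [← h1, map_inv]
  have hs : ∀ γ : C →* ℂˣ, γ ≠ 1 → ∑ c : C, (γ c : ℂ) = 0 := by
    intro γ hγ
    have := sum_hom_units_eq_zero ((Units.coeHom ℂ).comp γ) (by
      intro hh
      apply hγ
      ext c
      exact DFunLike.congr_fun hh c)
    exact this
  have h1 : ∀ c : C, ((β c : ℂ) - β' c) * conj ((β c : ℂ) - β' c) =
      2 - ((β / β') c : ℂ) - ((β' / β) c : ℂ) := by
    intro c
    rw [map_sub, hinv, hinv, MonoidHom.div_apply, MonoidHom.div_apply, div_eq_mul_inv,
      div_eq_mul_inv, Units.val_mul, Units.val_mul, Units.val_inv_eq_inv_val,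
      Units.val_inv_eq_inv_val]
    have a1 : (β c : ℂ) ≠ 0 := (β c).ne_zero
    have a2 : (β' c : ℂ) ≠ 0 := (β' c).ne_zero
    field_simp
    ring
  rw [Finset.sum_congr rfl fun c _ => h1 c, Finset.sum_sub_distrib, Finset.sum_sub_distrib,
    hs _ (fun hh => h (div_eq_one.1 hh)), hs _ (fun hh => h (div_eq_one.1 hh).symm)]
  simp [mul_comm]

theorem central_part {P C : Type*} [Group P] [Group C]
    (hC : ∀ a b : C, a * b = b * a) {μ : P × C → ℂ} (hμ : IsIrrCharacter (P × C) μ) :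
    ∃ β : C →* ℂˣ, ∀ p c, μ (p, c) = μ (p, 1) * β c := by
  obtain ⟨n, r, hr, rfl⟩ := hμ
  have hV : Nontrivial (Fin n → ℂ) := ((CharactersDeep.InvRep.isIrreducible_iff r).1 hr).1
  obtain ⟨v, hv⟩ := exists_ne (0 : Fin n → ℂ)
  have h1 : ∀ c : C, ∃ b : ℂ, r (1, c) = b • 1 := fun c =>
    CharactersDeep.InvRep.exists_smul_of_comm r hr (r (1, c)) (by
      rintro ⟨p, c'⟩
      rw [← map_mul, ← map_mul]
      congr 1
      simp [hC c c'])
  choose b hb using h1
  have hinj : ∀ x y : ℂ, x • v = y • v → x = y := fun x y hxy => smul_left_injective ℂ hv hxy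
  let b' : C →* ℂ :=
    { toFun := b
      map_one' := by
        apply hinj
        have := hb 1
        have h2 : r (1, 1) = 1 := map_one r
        rw [h2] at this
        have := congrArg (fun g : Module.End ℂ (Fin n → ℂ) => g v) this
        simpa using this.symm
      map_mul' := by
        intro c c'
        apply hinj
        have h2 : r (1, c * c') = r (1, c) * r (1, c') := by
          rw [← map_mul]; congr 1; simp
        rw [hb, hb, hb] at h2
        have := congrArg (fun g : Module.End ℂ (Fin n → ℂ) => g v) h2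
        rw [mul_smul, smul_comm]
        simpa [mul_smul] using this }
  refine ⟨b'.toHomUnits, fun p c => ?_⟩
  rw [MonoidHom.coe_toHomUnits]
  have h2 : r (p, c) = b c • r (p, 1) := by
    have h3 : ((p, c) : P × C) = (1, c) * (p, 1) := by simp
    rw [h3, map_mul, hb, smul_mul_assoc, one_mul]
  show LinearMap.trace ℂ _ (r (p, c)) = LinearMap.trace ℂ _ (r (p, 1)) * b c
  rw [h2, map_smul, smul_eq_mul, mul_comm]

theorem linear_of_trace {P C : Type*} [Group P] [Finite P] [Group C] [Finite C]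
    {M : Type*} [AddCommGroup M] [Module ℂ M] [FiniteDimensional ℂ M]
    (hC : ∀ a b : C, a * b = b * a) (σ : Representation ℂ (P × C) M)
    (hχ : ∀ p c, c ≠ 1 → σ.character (p, c) * conj (σ.character (p, c)) = 1)
    (η : C →* ℂˣ) (hη : ∀ c, c ≠ 1 → η c ≠ 1) (hη1 : η ≠ 1) :
    ∃ α : P →* ℂˣ, ∀ p c, c ≠ 1 → σ.character (p, c) = α p * σ.character (1, c) := by
  classical
  haveI := Fintype.ofFinite P
  haveI := Fintype.ofFinite C
  set χ := σ.character with hχdef
  set f : P × C → ℂ := χ - (fun x => ((η.comp (MonoidHom.snd P C)) x : ℂ)) * χ with hf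
  have hfv : ∀ p c, f (p, c) = (1 - (η c : ℂ)) * χ (p, c) := by
    intro p c
    show χ (p, c) - (η c : ℂ) * χ (p, c) = _
    ring
  have hgen : IsGeneralizedCharacter (P × C) f :=
    ⟨χ, _, isCharacter_of_rep σ, isCharacter_mul (Characters.Linear.isCharacter_hom _)
      (isCharacter_of_rep σ), rfl⟩
  have hff : ∀ p c, f (p, c) * conj (f (p, c)) =
      (((1 : C →* ℂˣ) c : ℂ) - η c) * conj (((1 : C →* ℂˣ) c : ℂ) - η c) := by
    intro p c
    rw [hfv, MonoidHom.one_apply, Units.val_one]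
    by_cases hc : c = 1
    · subst hc; simp
    · rw [map_mul]
      have := hχ p c hc
      linear_combination ((1 - (η c : ℂ)) * conj (1 - (η c : ℂ))) * this
  have hsum : ∑ c : C, (((1 : C →* ℂˣ) c : ℂ) - η c) * conj (((1 : C →* ℂˣ) c : ℂ) - η c) =
      2 * Nat.card C := sum_normSq_sub 1 η (fun hh => hη1 hh.symm)
  have hC0 : (Nat.card C : ℂ) ≠ 0 := Nat.cast_ne_zero.2 Nat.card_pos.ne'
  have hP0 : (Nat.card P : ℂ) ≠ 0 := Nat.cast_ne_zero.2 Nat.card_pos.ne'
  have hnorm : classInner f f = 2 := by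
    rw [classInner_def, Fintype.sum_prod_type]
    rw [Finset.sum_congr rfl fun p _ => Finset.sum_congr rfl fun c _ => hff p c]
    rw [hsum, Finset.sum_const, Finset.card_univ, ← Nat.card_eq_fintype_card, Nat.card_prod,
      nsmul_eq_mul]
    push_cast
    field_simp
  have hf1 : f 1 = 0 := by
    show f (1, 1) = 0
    rw [hfv, map_one, Units.val_one]; ring
  obtain ⟨μ, ν, hμ, hν, hne, hfe⟩ :=
    OddOrderCharacters.NormTwo.exists_sub_of_norm_two hgen hnorm hf1
  obtain ⟨β, hβ⟩ := central_part hC hμ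
  obtain ⟨β', hβ'⟩ := central_part hC hν
  have h1 : ∀ p, ν (p, 1) = μ (p, 1) := by
    intro p
    have h2 := hfv p 1
    rw [map_one, Units.val_one, sub_self, zero_mul, hfe] at h2
    exact (sub_eq_zero.1 h2).symm
  have hf2 : ∀ p c, f (p, c) = μ (p, 1) * ((β c : ℂ) - β' c) := by
    intro p c
    have h2 : f (p, c) = μ (p, c) - ν (p, c) := congrFun hfe (p, c)
    rw [h2, hβ, hβ' p c, h1]
    ring
  have hββ : β ≠ β' := by
    intro hh
    apply hne
    funext x
    obtain ⟨p, c⟩ := x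
    rw [hβ, hβ' p c, h1, hh]
  obtain ⟨n, hn0, hn⟩ := isIrr_apply_one hμ
  have hμ1 : μ 1 = 1 := by
    have h2 : ∑ c : C, f (1, c) * conj (f (1, c)) = 2 * Nat.card C := by
      rw [Finset.sum_congr rfl fun c _ => hff 1 c, hsum]
    have h3 : ∑ c : C, f (1, c) * conj (f (1, c)) = (n : ℂ) ^ 2 * (2 * Nat.card C) := by
      rw [← sum_normSq_sub β β' hββ, Finset.mul_sum]
      apply Finset.sum_congr rfl
      intro c _
      have h4 : μ (1, 1) = n := hn
      rw [hf2, h4, map_mul, map_natCast]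
      ring
    rw [h3] at h2
    have h5 : ((n : ℂ) ^ 2 - 1) * (2 * Nat.card C) = 0 := by linear_combination h2
    have h6 : (n : ℂ) ^ 2 - 1 = 0 := by
      rcases mul_eq_zero.1 h5 with h7 | h7
      · exact h7
      · exact absurd h7 (mul_ne_zero two_ne_zero hC0)
    have h7 : n ^ 2 = 1 := by
      have : (n : ℂ) ^ 2 = 1 := by linear_combination h6
      exact_mod_cast this
    have h8 : n = 1 := by
      rcases Nat.pow_eq_one.1 h7 with h9 | h9
      · exact h9
      · omega
    rw [hn, h8]; simp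
  obtain ⟨F, hF⟩ := Characters.Linear.exists_hom_of_isIrrCharacter hμ hμ1
  refine ⟨F.comp (MonoidHom.inl P C), fun p c hc => ?_⟩
  have h2 : μ (p, 1) = (F.comp (MonoidHom.inl P C)) p := by rw [hF]; rfl
  have h3 : μ (1, 1) = 1 := hμ1
  have h4 := hf2 p c
  have h5 := hf2 1 c
  rw [hfv, h2] at h4
  rw [hfv, h3] at h5
  have h6 : (1 - (η c : ℂ)) ≠ 0 := by
    intro hh
    apply hη c hc
    apply Units.ext
    rw [Units.val_one]
    linear_combination -hh
  apply mul_left_cancel₀ h6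
  linear_combination h4 - ((F.comp (MonoidHom.inl P C)) p : ℂ) * h5

end two

end Cfsg.Agent.H668.DadeB
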