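import Mathlib
import Cfsg.Prelude.Def_Characters
import Cfsg.Agent.H668.DadeB

/-!
# Lifts in the presence of an automorphism of prime order without fixed points
-/

set_option autoImplicit false
set_option linter.unusedSectionVars false
set_option linter.style.haveILetI false
open scoped ComplexConjugate
open Cfsg Cfsg.Agent.Characters.Core Module

namespace Cfsg.Agent.H668.DadeC

open Cfsg.Agent.H668.DadeA Cfsg.Agent.H668.DadeB

variable {E : Type*} [Group E] [Finite E] {M : Type*} [AddCommGroup M] [Module ℂ M]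
  [FiniteDimensional ℂ M] {z : E} {ρ : E →* (M ≃ₗ[ℂ] M)}

theorem fix_pow (hE : CT E z) (y : MulAut E) {e : E} (h : y e = e ∨ y e = z * e) (m : ℕ) :
    (y ^ m) e = e ∨ (y ^ m) e = z * e := by
  induction m with
  | zero => left; simp
  | succ m ih =>
    rw [pow_succ', MulAut.mul_apply]
    rcases ih with ih | ih
    · rw [ih]; exact h
    · rw [ih, map_mul, hE.map_z]
      rcases h with h | h
      · rw [h]; exact Or.inr rfl
      · rw [h, ← mul_assoc, hE.sq, one_mul]; exact Or.inl rfl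

theorem sc_inj [Nontrivial M] : Function.Injective (sc M) := by
  intro a b hab
  obtain ⟨v, hv⟩ := exists_ne (0 : M)
  have h1 := congrArg (fun A : M ≃ₗ[ℂ] M => A v) hab
  simp only [sc_apply] at h1
  exact Units.ext (smul_left_injective ℂ hv h1)

theorem nontriv (h : Spin z ρ) : Nontrivial M := Module.nontrivial_of_finrank_pos h.finrank_pos

theorem spin_inj (hE : CT E z) (h : Spin z ρ) {e e' : E} (hee : ρ e = ρ e') : e = e' := by
  classical
  haveI := nontriv h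
  have h1 : ρ (e * e'⁻¹) = 1 := by rw [map_mul, hee, map_inv, mul_inv_cancel]
  have h2 := h.char_eq hE (e * e'⁻¹)
  rw [h1] at h2
  have hd0 : (finrank ℂ M : ℂ) ≠ 0 := by rw [Nat.cast_ne_zero]; exact h.finrank_pos.ne'
  have h3 : LinearMap.trace ℂ M ((1 : M ≃ₗ[ℂ] M) : M →ₗ[ℂ] M) = finrank ℂ M :=
    LinearMap.trace_one ℂ M
  rw [h3] at h2
  split_ifs at h2 with a1 a2
  · rwa [mul_inv_eq_one] at a1
  · exfalso
    have : (2 : ℂ) * (finrank ℂ M : ℂ) = 0 := by linear_combination h2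
    exact (mul_ne_zero two_ne_zero hd0) this
  · exact absurd h2 hd0

theorem imp_mul {τ τ' : MulAut E} {A B : M ≃ₗ[ℂ] M} (h : ∀ e, A * ρ e = ρ (τ e) * A)
    (h' : ∀ e, B * ρ e = ρ (τ' e) * B) : ∀ e, (A * B) * ρ e = ρ ((τ * τ') e) * (A * B) :=
  (Gam (MonoidHom.id (MulAut E)) ρ).mul_mem (x := (τ, A)) (y := (τ', B)) h h'

theorem imp_inv {τ : MulAut E} {A : M ≃ₗ[ℂ] M} (h : ∀ e, A * ρ e = ρ (τ e) * A) :
    ∀ e, A⁻¹ * ρ e = ρ (τ⁻¹ e) * A⁻¹ :=
  (Gam (MonoidHom.id (MulAut E)) ρ).inv_mem (x := (τ, A)) h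

theorem imp_pow {τ : MulAut E} {A : M ≃ₗ[ℂ] M} (h : ∀ e, A * ρ e = ρ (τ e) * A) (n : ℕ) :
    ∀ e, A ^ n * ρ e = ρ ((τ ^ n) e) * A ^ n :=
  (Gam (MonoidHom.id (MulAut E)) ρ).pow_mem (x := (τ, A)) h n

theorem imp_sc {τ : MulAut E} {A : M ≃ₗ[ℂ] M} (h : ∀ e, A * ρ e = ρ (τ e) * A) (c : ℂˣ) :
    ∀ e, (sc M c * A) * ρ e = ρ (τ e) * (sc M c * A) := by
  intro e
  rw [mul_assoc, h, ← mul_assoc, ← mul_assoc, sc_comm]

/-- Two operators implementing the same automorphism. -/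
theorem imp_unique (hE : CT E z) (h : Spin z ρ) {τ : MulAut E} {A B : M ≃ₗ[ℂ] M}
    (hA : ∀ e, A * ρ e = ρ (τ e) * A) (hB : ∀ e, B * ρ e = ρ (τ e) * B) :
    ∃ c : ℂˣ, A = sc M c * B := by
  have h1 := imp_mul hA (imp_inv hB)
  rw [mul_inv_cancel] at h1
  obtain ⟨c, hc⟩ := h.scalar_unit hE (A * B⁻¹) h1
  exact ⟨c, by rw [← hc, inv_mul_cancel_right]⟩

/-- An implementing operator of exact order. -/
theorem exists_R (hE : CT E z) (h : Spin z ρ) {q : ℕ} [hq : Fact q.Prime] (x : MulAut E)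
    (hxq : x ^ q = 1) : ∃ R : M ≃ₗ[ℂ] M, (∀ e, R * ρ e = ρ (x e) * R) ∧ R ^ q = 1 := by
  obtain ⟨A, hA⟩ := h.exists_impl hE x
  have h1 := imp_pow hA q
  rw [hxq] at h1
  obtain ⟨c, hc⟩ := h.scalar_unit hE (A ^ q) h1
  obtain ⟨b, hb⟩ := IsAlgClosed.exists_pow_nat_eq ((c⁻¹ : ℂˣ) : ℂ) hq.out.pos
  have hb0 : b ≠ 0 := by
    rintro rfl
    rw [zero_pow hq.out.ne_zero] at hb
    exact (c⁻¹).ne_zero hb.symm
  refine ⟨sc M (Units.mk0 b hb0) * A, imp_sc hA _, ?_⟩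
  have h2 : (sc M (Units.mk0 b hb0) * A) ^ q = sc M (Units.mk0 b hb0) ^ q * A ^ q :=
    (Commute.mul_pow (show Commute _ _ from sc_comm _ _) q)
  rw [h2, hc, ← map_pow, ← map_mul]
  have h3 : (Units.mk0 b hb0) ^ q * c = 1 := by
    apply Units.ext
    rw [Units.val_mul, Units.val_pow_eq_pow_val, Units.val_mk0, hb]
    rw [← Units.val_mul, inv_mul_cancel, Units.val_one]
  rw [h3, map_one]

/-- The fixed point free elements. -/
theorem fpf_pow (hE : CT E z) {q : ℕ} [hq : Fact q.Prime] (x : MulAut E) (hxq : x ^ q = 1)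
    (hx : ∀ e, (x e = e ∨ x e = z * e) → e = 1 ∨ e = z) {n : ℕ} (hn : n.Coprime q) {σ : MulAut E}
    (hσ : σ ^ n = 1) (hσx : σ * x = x * σ) {j : ℕ} (hj : ¬ q ∣ j) :
    ∀ e, ((σ * x ^ j) e = e ∨ (σ * x ^ j) e = z * e) → e = 1 ∨ e = z := by
  intro e he
  have hjq : j.Coprime q := ((Nat.Prime.coprime_iff_not_dvd hq.out).2 hj).symm
  -- a common exponent
  obtain ⟨m, hm1, hm2⟩ := Nat.chineseRemainder hn 0 1
  obtain ⟨a, ha⟩ : ∃ a, j * a ≡ 1 [MOD q] := by
    obtain ⟨a, ha⟩ := Nat.exists_mul_mod_eq_one_of_coprime hjq hq.out.one_lt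
    exact ⟨a, by rw [Nat.ModEq, ha.2, Nat.mod_eq_of_lt hq.out.one_lt]⟩
  have h1 := fix_pow hE (σ * x ^ j) he (m * a)
  have h2 : (σ * x ^ j) ^ (m * a) = x := by
    have hc : Commute σ (x ^ j) := (show Commute σ x from hσx).pow_right j
    rw [hc.mul_pow, ← pow_mul]
    obtain ⟨k, hk⟩ := (Nat.modEq_zero_iff_dvd.1 hm1)
    have h3 : σ ^ (m * a) = 1 := by
      rw [hk, mul_assoc, pow_mul, hσ, one_pow]
    rw [h3, one_mul]
    have h4 : j * (m * a) ≡ 1 [MOD q] := by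
      have h5 : j * (m * a) = m * (j * a) := by ring
      rw [h5]
      exact (hm2.mul ha).trans (by simp; rfl)
    have h6 := pow_mod_orderOf x (j * (m * a))
    have h7 : orderOf x ∣ q := orderOf_dvd_of_pow_eq_one hxq
    have h8 : x ^ (j * (m * a)) = x ^ 1 := by
      rw [pow_eq_pow_iff_modEq]
      exact h4.of_dvd h7
    rw [h8, pow_one]
  rw [h2] at h1
  exact hx e h1

/-- An operator over a centralizing coprime automorphism commutes with `R`. -/
theorem comm_R (hE : CT E z) (h : Spin z ρ) {q : ℕ} {x : MulAut E}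
    {R : M ≃ₗ[ℂ] M} (hR : ∀ e, R * ρ e = ρ (x e) * R) (hRq : R ^ q = 1)
    {n : ℕ} (hn : n.Coprime q) {σ : MulAut E} (hσ : σ ^ n = 1) (hσx : σ * x = x * σ)
    {A : M ≃ₗ[ℂ] M} (hA : ∀ e, A * ρ e = ρ (σ e) * A) : A * R = R * A := by
  haveI := nontriv h
  have h1 := imp_mul (imp_mul hA hR) (imp_inv hA)
  have h2 : σ * x * σ⁻¹ = x := by rw [hσx, mul_inv_cancel_right]
  rw [h2] at h1
  obtain ⟨c, hc⟩ := imp_unique hE h h1 hR
  -- `c ^ q = 1`
  have h3 : c ^ q = 1 := by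
    have h4 : (A * R * A⁻¹) ^ q = 1 := by rw [conj_pow, hRq, mul_one, mul_inv_cancel]
    rw [hc, (show Commute (sc M c) R from sc_comm _ _).mul_pow, hRq, mul_one, ← map_pow] at h4
    exact sc_inj (by rw [h4, map_one])
  -- `c ^ n = 1`
  have h5 : c ^ n = 1 := by
    have h6 : ∀ k : ℕ, A ^ k * R * (A ^ k)⁻¹ = sc M (c ^ k) * R := by
      intro k
      induction k with
      | zero => simp
      | succ k ih =>
        have h7 : A ^ (k + 1) * R * (A ^ (k + 1))⁻¹ = A ^ k * (A * R * A⁻¹) * (A ^ k)⁻¹ := by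
          rw [pow_succ]; group
        rw [h7, hc, ← mul_assoc, ← sc_comm, mul_assoc (sc M c), mul_assoc (sc M c), ih, ← mul_assoc,
          ← map_mul, pow_succ']
    have h8 := imp_pow hA n
    rw [hσ] at h8
    obtain ⟨b, hb⟩ := h.scalar_unit hE (A ^ n) h8
    have h9 := h6 n
    rw [hb, sc_comm, mul_inv_cancel_right] at h9
    have h10 : sc M (c ^ n) = 1 := by
      have : sc M (c ^ n) * R = 1 * R := by rw [← h9, one_mul]
      exact mul_right_cancel this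
    exact sc_inj (by rw [h10, map_one])
  have h11 : c = 1 := by
    have h12 : orderOf c ∣ Nat.gcd n q :=
      Nat.dvd_gcd (orderOf_dvd_of_pow_eq_one h5) (orderOf_dvd_of_pow_eq_one h3)
    rw [hn] at h12
    exact orderOf_eq_one_iff.1 (Nat.dvd_one.1 h12)
  rw [h11, map_one, one_mul, mul_inv_eq_iff_eq_mul] at hc
  exact hc

/-! ### The finite group of pairs with determinant one -/

theorem finite_detOne (hE : CT E z) (h : Spin z ρ) {Y : Type*} [Group Y] [Finite Y]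
    (φ : Y →* MulAut E) : ({p : Gam φ ρ | detG φ ρ p = 1}).Finite := by
  have hd : finrank ℂ M ≠ 0 := h.finrank_pos.ne'
  haveI : NeZero (finrank ℂ M) := ⟨hd⟩
  apply Set.Finite.of_finite_fibers (fun p : Gam φ ρ => p.1.1)
  · exact Set.toFinite _
  · rintro y ⟨p0, hp0, rfl⟩
    have hfin : (rootsOfUnity (finrank ℂ M) ℂ : Set ℂˣ).Finite :=
      Set.finite_coe_iff.1 (inferInstanceAs (Finite (rootsOfUnity (finrank ℂ M) ℂ)))
    apply (hfin.image (fun c => scG φ ρ c * p0)).subset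
    rintro p ⟨hp, hpy⟩
    have h1 : p.1.1 = p0.1.1 := hpy
    obtain ⟨c, hc⟩ := exists_scG hE h φ (p * p0⁻¹) (by
      show p.1.1 * p0.1.1⁻¹ = 1
      rw [h1, mul_inv_cancel])
    refine ⟨c, ?_, ?_⟩
    · rw [SetLike.mem_coe, mem_rootsOfUnity, ← detG_sc φ c, ← hc, map_mul, map_inv]
      have a1 : detG φ ρ p = 1 := hp
      have a2 : detG φ ρ p0 = 1 := hp0
      rw [a1, a2, inv_one, mul_one]
    · show scG φ ρ c * p0 = p
      rw [← hc, inv_mul_cancel_right]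

theorem scG_comm {Y : Type*} [Group Y] (φ : Y →* MulAut E) (c : ℂˣ) (p : Gam φ ρ) :
    scG φ ρ c * p = p * scG φ ρ c := by
  apply Subtype.ext
  refine Prod.ext ?_ ?_
  · show 1 * p.1.1 = p.1.1 * 1
    rw [one_mul, mul_one]
  · exact sc_comm c p.1.2

theorem mem_norm {S : Type*} [Group S] [Finite S] {φ : S →* MulAut E} {x : MulAut E}
    (hn : ∀ s, ∃ k : ℕ, φ s * x * (φ s)⁻¹ = x ^ k) (s : S) :
    φ s ∈ Subgroup.normalizer (Subgroup.zpowers x : Set (MulAut E)) := by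
  have h1 : ∀ s : S, ∀ y ∈ Subgroup.zpowers x, φ s * y * (φ s)⁻¹ ∈ Subgroup.zpowers x := by
    intro s y hy
    obtain ⟨m, rfl⟩ := Subgroup.mem_zpowers_iff.1 hy
    obtain ⟨k, hk⟩ := hn s
    rw [← conj_zpow, hk]
    exact Subgroup.zpow_mem _ (Subgroup.pow_mem _ (Subgroup.mem_zpowers x) k) m
  rw [Subgroup.mem_normalizer_iff]
  intro y
  refine ⟨h1 s y, fun hy => ?_⟩
  have h2 := h1 s⁻¹ _ hy
  rw [map_inv] at h2
  have h3 : (φ s)⁻¹ * (φ s * y * (φ s)⁻¹) * ((φ s)⁻¹)⁻¹ = y := by group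
  rwa [h3] at h2

theorem isCyclic_mulAut_zpowers {G : Type*} [Group G] {q : ℕ} [hq : Fact q.Prime] {x : G}
    (hx : orderOf x = q) : IsCyclic (MulAut (Subgroup.zpowers x)) := by
  have e := IsCyclic.mulAutMulEquiv (Subgroup.zpowers x)
  rw [Nat.card_zpowers, hx] at e
  exact isCyclic_of_injective e.toMonoidHom e.injective

/-- The trace. -/
noncomputable def tr (A : M ≃ₗ[ℂ] M) : ℂ := LinearMap.trace ℂ M (A : M →ₗ[ℂ] M)

theorem tr_conj (A B : M ≃ₗ[ℂ] M) : tr (A * B * A⁻¹) = tr B := trace_conj A B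

theorem tr_sc (c : ℂˣ) (A : M ≃ₗ[ℂ] M) : tr (sc M c * A) = c * tr A := by
  unfold tr
  rw [mul_coe, sc_coe, smul_mul_assoc, map_smul, smul_eq_mul]
  rfl

theorem R_pow_ne {q : ℕ} [hq : Fact q.Prime] {R : M ≃ₗ[ℂ] M} (hRq : R ^ q = 1) (hR1 : R ≠ 1)
    {j : ℕ} : R ^ j = 1 ↔ q ∣ j := by
  rw [← orderOf_dvd_iff_pow_eq_one, orderOf_eq_prime hRq hR1]

theorem exists_alpha (hE : CT E z) (h : Spin z ρ) {q : ℕ} [hq : Fact q.Prime] {x : MulAut E}
    (hxq : x ^ q = 1) (hx1 : x ≠ 1) (hx : ∀ e, (x e = e ∨ x e = z * e) → e = 1 ∨ e = z)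
    {R : M ≃ₗ[ℂ] M} (hR : ∀ e, R * ρ e = ρ (x e) * R) (hRq : R ^ q = 1)
    {n : ℕ} (hn : n.Coprime q) {P : Type*} [Group P] [Finite P] (a : P →* (M ≃ₗ[ℂ] M))
    (τ : P → MulAut E) (ha : ∀ p e, a p * ρ e = ρ (τ p e) * a p)
    (hτn : ∀ p, τ p ^ n = 1) (hτx : ∀ p, τ p * x = x * τ p) :
    ∃ α : P →* ℂˣ, ∀ p (j : ℕ), ¬ q ∣ j → tr (a p * R ^ j) = α p * tr (R ^ j) := by
  classical
  have hR1 : R ≠ 1 := by
    intro hh
    apply hx1
    ext e
    have := hR e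
    rw [hh, one_mul, mul_one] at this
    exact (spin_inj hE h this).symm
  have hRfin : IsOfFinOrder R := isOfFinOrder_iff_pow_eq_one.2 ⟨q, hq.out.pos, hRq⟩
  haveI : Finite (Subgroup.zpowers R) := (finite_zpowers.2 hRfin).to_subtype
  have hcomm : ∀ (p : P) (c : Subgroup.zpowers R), Commute (a p) ((Subgroup.zpowers R).subtype c) := by
    intro p c
    obtain ⟨m, hm⟩ := Subgroup.mem_zpowers_iff.1 c.2
    have h1 : Commute (a p) R := comm_R hE h hR hRq hn (hτn p) (hτx p) (ha p)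
    show Commute (a p) (c : M ≃ₗ[ℂ] M)
    rw [← hm]
    exact h1.zpow_right m
  set σ0 : P × Subgroup.zpowers R →* (M ≃ₗ[ℂ] M) :=
    MonoidHom.noncommCoprod a (Subgroup.zpowers R).subtype hcomm with hσ0
  have hσv : ∀ (p : P) (c : Subgroup.zpowers R), (rep σ0).character (p, c) = tr (a p * (c : M ≃ₗ[ℂ] M)) := by
    intro p c
    rfl
  have hpow : ∀ c : Subgroup.zpowers R, ∃ j : ℕ, (c : M ≃ₗ[ℂ] M) = R ^ j := by
    intro c
    obtain ⟨j, hj⟩ := (hRfin.mem_powers_iff_mem_zpowers).2 c.2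
    exact ⟨j, hj.symm⟩
  -- the character `η`
  obtain ⟨ζ, hζ⟩ : ∃ ζ : ℂˣ, IsPrimitiveRoot ζ q := by
    have h1 := Complex.isPrimitiveRoot_exp q hq.out.ne_zero
    exact ⟨_, h1.isUnit_unit hq.out.ne_zero⟩
  set g : Subgroup.zpowers R := ⟨R, Subgroup.mem_zpowers R⟩ with hg
  have hgen : ∀ c : Subgroup.zpowers R, c ∈ Subgroup.zpowers g := by
    intro c
    obtain ⟨m, hm⟩ := Subgroup.mem_zpowers_iff.1 c.2
    exact Subgroup.mem_zpowers_iff.2 ⟨m, Subtype.ext hm⟩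
  have hgo : orderOf g = q := by
    rw [← orderOf_eq_prime hRq hR1]
    exact Subgroup.orderOf_mk R _
  let η : Subgroup.zpowers R →* ℂˣ :=
    monoidHomOfForallMemZpowers hgen (g' := ζ) (by rw [hgo, ← hζ.eq_orderOf])
  have hηg : η g = ζ := monoidHomOfForallMemZpowers_apply_gen hgen _
  have hη : ∀ c, c ≠ 1 → η c ≠ 1 := by
    intro c hc hh
    apply hc
    obtain ⟨j, hj⟩ := hpow c
    have h1 : c = g ^ j := Subtype.ext hj
    rw [h1, map_pow, hηg, hζ.pow_eq_one_iff_dvd] at hh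
    apply Subtype.ext
    rw [hj, Subgroup.coe_one]
    exact (R_pow_ne hRq hR1).2 hh
  have hη1 : η ≠ 1 := by
    intro hh
    have h1 : ζ = 1 := by rw [← hηg, hh]; rfl
    rw [h1] at hζ
    have := hζ.eq_orderOf
    rw [orderOf_one] at this
    exact hq.out.one_lt.ne' this
  obtain ⟨α, hα⟩ := linear_of_trace (P := P) (C := Subgroup.zpowers R) (by
      intro c c'
      obtain ⟨j, hj⟩ := hpow c
      obtain ⟨k, hk⟩ := hpow c'
      apply Subtype.ext
      rw [Subgroup.coe_mul, Subgroup.coe_mul, hj, hk, ← pow_add, ← pow_add, add_comm])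
    (rep σ0) (by
      intro p c hc
      obtain ⟨j, hj⟩ := hpow c
      have hqj : ¬ q ∣ j := by
        intro hh
        apply hc
        apply Subtype.ext
        rw [hj]
        exact (R_pow_ne hRq hR1).2 hh
      have h1 := trace_mul_trace_inv hE h (τ p * x ^ j) (a p * R ^ j) (imp_mul (ha p) (imp_pow hR j))
        (fpf_pow hE x hxq hx hn (hτn p) (hτx p) hqj)
      have h2 := isCharacter_apply_inv (isCharacter_of_rep (rep σ0)) (p, c)
      rw [← h2, hσv, hj]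
      have h3 : (rep σ0).character (p, c)⁻¹ =
          LinearMap.trace ℂ M (((a p * R ^ j)⁻¹ : M ≃ₗ[ℂ] M) : M →ₗ[ℂ] M) := by
        rw [← hj]
        have h4 : σ0 (p, c)⁻¹ = (a p * (c : M ≃ₗ[ℂ] M))⁻¹ := by
          rw [map_inv]; rfl
        rw [← h4]
        rfl
      rw [h3]
      exact h1) η hη hη1
  refine ⟨α, fun p j hj => ?_⟩
  have h1 := hα p ⟨R ^ j, Subgroup.pow_mem _ (Subgroup.mem_zpowers R) j⟩ (by
    intro hh
    exact hj ((R_pow_ne hRq hR1).1 (congrArg Subtype.val hh)))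
  rw [hσv, hσv, map_one, one_mul] at h1
  exact h1

/-- The trivial case. -/
theorem hasLift_of_small (hE : CT E z) (hsmall : ∀ e : E, e = 1 ∨ e = z) {S : Type*} [Group S]
    (φ : S →* MulAut E) : HasLift φ ρ := by
  refine ⟨1, fun s e => ?_⟩
  have h1 : φ s e = e := by
    rcases hsmall e with h | h
    · rw [h, map_one]
    · rw [h, hE.map_z]
  rw [h1, MonoidHom.one_apply, one_mul, mul_one]

/-- **The basic case.** -/
theorem base (hE : CT E z) (h : Spin z ρ) {q : ℕ} [hq : Fact q.Prime] {x : MulAut E}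
    (hxq : x ^ q = 1) (hx : ∀ e, (x e = e ∨ x e = z * e) → e = 1 ∨ e = z)
    {S : Type*} [Group S] [Finite S] (hS : (Nat.card S).Coprime q) (φ : S →* MulAut E)
    (hn : ∀ s, ∃ k : ℕ, φ s * x * (φ s)⁻¹ = x ^ k) : HasLift φ ρ := by
  classical
  by_cases hx1 : x = 1
  · apply hasLift_of_small hE
    intro e
    exact hx e (Or.inl (by rw [hx1]; rfl))
  haveI := nontriv h
  obtain ⟨R, hR, hRq⟩ := exists_R hE h x hxq
  have hox : orderOf x = q := orderOf_eq_prime hxq hx1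
  -- the map to the automorphisms of `⟨x⟩`
  let κ0 : Gam φ ρ →* (Subgroup.normalizer (Subgroup.zpowers x : Set (MulAut E)) : Subgroup (MulAut E)) :=
    (φ.comp ((MonoidHom.fst S (M ≃ₗ[ℂ] M)).comp (Gam φ ρ).subtype)).codRestrict _
      (fun p => mem_norm hn p.1.1)
  let κ : Gam φ ρ →* MulAut (Subgroup.zpowers x) := (Subgroup.zpowers x).normalizerMonoidHom.comp κ0
  have hκ : ∀ p : Gam φ ρ, p ∈ κ.ker ↔ φ p.1.1 * x = x * φ p.1.1 := by
    intro p
    have h1 : p ∈ κ.ker ↔ κ0 p ∈ (Subgroup.zpowers x).normalizerMonoidHom.ker := Iff.rfl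
    rw [h1, Subgroup.normalizerMonoidHom_ker, Subgroup.mem_subgroupOf]
    show φ p.1.1 ∈ Subgroup.centralizer (Subgroup.zpowers x : Set (MulAut E)) ↔ _
    rw [Subgroup.mem_centralizer_iff]
    constructor
    · intro h2
      exact (h2 x (Subgroup.mem_zpowers x)).symm
    · intro h2 y hy
      obtain ⟨m, rfl⟩ := Subgroup.mem_zpowers_iff.1 hy
      exact ((show Commute (φ p.1.1) x from h2).zpow_right m).symm
  haveI : Finite (MulAut (Subgroup.zpowers x)) := Finite.of_injective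
    (fun f : MulAut (Subgroup.zpowers x) => (f : Subgroup.zpowers x → Subgroup.zpowers x))
    DFunLike.coe_injective
  haveI : Finite (Gam φ ρ ⧸ κ.ker) :=
    Finite.of_injective _ (QuotientGroup.kerLift_injective κ)
  haveI := isCyclic_mulAut_zpowers hox
  haveI hcyc : IsCyclic (Gam φ ρ ⧸ κ.ker) :=
    isCyclic_of_injective (QuotientGroup.kerLift κ) (QuotientGroup.kerLift_injective κ)
  -- the finite subgroup
  let N := κ.ker
  let P : Subgroup N := ((detG φ ρ).comp N.subtype).ker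
  haveI : Finite P := by
    have h1 := finite_detOne hE h φ
    haveI := h1.to_subtype
    refine Finite.of_injective
      (fun p : P => (⟨p.1.1, p.2⟩ : {p : Gam φ ρ | detG φ ρ p = 1})) ?_
    intro p p' hpp
    apply Subtype.ext
    apply Subtype.ext
    exact Subtype.mk.inj hpp
  obtain ⟨α, hα⟩ := exists_alpha hE h hxq hx1 hx hR hRq hS (P := P)
    (((MonoidHom.snd S (M ≃ₗ[ℂ] M)).comp (Gam φ ρ).subtype).comp (N.subtype.comp P.subtype))
    (fun p => φ p.1.1.1.1) (fun p e => p.1.1.2 e)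
    (fun p => by rw [← map_pow, pow_card_eq_one', map_one])
    (fun p => (hκ p.1.1).1 p.1.2)
  have hα' : ∀ (p : P) (j : ℕ), ¬ q ∣ j → tr (p.1.1.1.2 * R ^ j) = α p * tr (R ^ j) := hα
  -- scalars
  have hscN : ∀ c, scG φ ρ c ∈ N := by
    intro c
    rw [hκ]
    show φ 1 * x = x * φ 1
    rw [map_one, one_mul, mul_one]
  have hdec : ∀ p : N, ∃ (c : ℂˣ) (p1 : P), p = ⟨scG φ ρ c, hscN c⟩ * p1.1 := by
    intro p
    obtain ⟨b, hb⟩ := IsAlgClosed.exists_pow_nat_eq ((detG φ ρ p.1 : ℂˣ) : ℂ) h.finrank_pos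
    have hb0 : b ≠ 0 := by
      rintro rfl
      rw [zero_pow h.finrank_pos.ne'] at hb
      exact (detG φ ρ p.1).ne_zero hb.symm
    refine ⟨Units.mk0 b hb0, ⟨⟨scG φ ρ (Units.mk0 b hb0), hscN _⟩⁻¹ * p, ?_⟩, ?_⟩
    · show detG φ ρ ((scG φ ρ (Units.mk0 b hb0))⁻¹ * p.1) = 1
      rw [map_mul, map_inv, detG_sc, inv_mul_eq_one]
      apply Units.ext
      rw [Units.val_pow_eq_pow_val, Units.val_mk0, hb]
    · rw [mul_inv_cancel_left]
  have htrR : ∀ j : ℕ, ¬ q ∣ j → tr (R ^ j) ≠ 0 := by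
    intro j hj h0
    have h1 := trace_mul_trace_inv hE h (x ^ j) (R ^ j) (imp_pow hR j) (by
      have := fpf_pow hE x hxq hx hS (σ := 1) (one_pow _) (by rw [one_mul, mul_one]) hj
      simpa using this)
    have h2 : LinearMap.trace ℂ M ((R ^ j : M ≃ₗ[ℂ] M) : M →ₗ[ℂ] M) = 0 := h0
    rw [h2, zero_mul] at h1
    exact zero_ne_one h1
  have hq1 : ¬ q ∣ 1 := by
    rw [Nat.dvd_one]; exact hq.out.ne_one
  have hR0 : tr R ≠ 0 := by
    have := htrR 1 hq1
    rwa [pow_one] at this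
  set val : N → ℂ := fun p => tr (p.1.1.2 * R) / tr R with hval
  have hval1 : ∀ (c : ℂˣ) (p1 : P) (j : ℕ), ¬ q ∣ j →
      tr ((⟨scG φ ρ c, hscN c⟩ * p1.1 : N).1.1.2 * R ^ j) = (c * α p1) * tr (R ^ j) := by
    intro c p1 j hj
    show tr ((sc M c * p1.1.1.1.2) * R ^ j) = _
    rw [mul_assoc (sc M c), tr_sc, hα' p1 j hj]; ring
  have hval2 : ∀ (c : ℂˣ) (p1 : P), val (⟨scG φ ρ c, hscN c⟩ * p1.1) = c * α p1 := by
    intro c p1
    have := hval1 c p1 1 hq1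
    rw [pow_one] at this
    rw [hval]
    show tr _ / tr R = _
    rw [this, mul_div_cancel_right₀ _ hR0]
  have hval3 : ∀ (p : N) (j : ℕ), ¬ q ∣ j → tr (p.1.1.2 * R ^ j) = val p * tr (R ^ j) := by
    intro p j hj
    obtain ⟨c, p1, rfl⟩ := hdec p
    rw [hval1 c p1 j hj, hval2]
  let F0 : N →* ℂ :=
    { toFun := val
      map_one' := by
        show tr ((1 : M ≃ₗ[ℂ] M) * R) / tr R = 1
        rw [one_mul, div_self hR0]
      map_mul' := by
        intro p p'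
        obtain ⟨c, p1, rfl⟩ := hdec p
        obtain ⟨c', p1', rfl⟩ := hdec p'
        have h1 : (⟨scG φ ρ c, hscN c⟩ * p1.1 : N) * (⟨scG φ ρ c', hscN c'⟩ * p1'.1) =
            ⟨scG φ ρ (c * c'), hscN _⟩ * (p1 * p1' : P).1 := by
          apply Subtype.ext
          show scG φ ρ c * p1.1.1 * (scG φ ρ c' * p1'.1.1) = scG φ ρ (c * c') * (p1.1.1 * p1'.1.1)
          rw [map_mul, mul_assoc, ← mul_assoc p1.1.1, ← scG_comm, mul_assoc, mul_assoc]
        rw [h1, hval2, hval2, hval2, map_mul]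
        push_cast
        ring }
  obtain ⟨g, hg⟩ := hcyc.exists_generator
  obtain ⟨g, rfl⟩ := QuotientGroup.mk_surjective g
  obtain ⟨F', hF'⟩ := ext_hom (N := N) g hg F0.toHomUnits (by
    intro p
    apply Units.ext
    rw [MonoidHom.coe_toHomUnits, MonoidHom.coe_toHomUnits]
    show tr ((g.1.2 * p.1.1.2 * g.1.2⁻¹) * R) / tr R = val p
    set T := g.1.2 with hT
    set A := p.1.1.2 with hA
    -- `T⁻¹ R T`
    obtain ⟨k, hk⟩ := hn g.1.1⁻¹
    have hTi : ∀ e, T⁻¹ * ρ e = ρ ((φ g.1.1⁻¹) e) * T⁻¹ := by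
      have := imp_inv (show ∀ e, T * ρ e = ρ (φ g.1.1 e) * T from g.2)
      rw [map_inv]; exact this
    have h1 := imp_mul (imp_mul hTi hR) (imp_inv hTi)
    rw [hk] at h1
    obtain ⟨c, hc⟩ := imp_unique hE h h1 (imp_pow hR k)
    have hqk : ¬ q ∣ k := by
      intro hh
      apply hx1
      have h2 : x ^ k = 1 := by
        rw [← orderOf_dvd_iff_pow_eq_one, hox]; exact hh
      rw [h2] at hk
      have h3 : φ g.1.1⁻¹ * x = φ g.1.1⁻¹ * 1 := by
        rw [mul_one]; exact mul_inv_eq_one.1 hk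
      exact mul_left_cancel h3
    have h4 : tr ((T * A * T⁻¹) * R) = c * (val p * tr (R ^ k)) := by
      have h5 : (T * A * T⁻¹) * R = T * (A * (T⁻¹ * R * (T⁻¹)⁻¹)) * T⁻¹ := by group
      rw [h5, tr_conj, hc, ← mul_assoc, ← sc_comm, mul_assoc, tr_sc, hval3 p k hqk]
    have h6 : tr R = c * tr (R ^ k) := by
      have h7 : tr (T⁻¹ * R * (T⁻¹)⁻¹) = tr R := tr_conj _ _
      rw [← h7, hc, tr_sc]
    rw [h4, h6]
    have h8 : (c : ℂ) * tr (R ^ k) ≠ 0 := by rw [← h6]; exact hR0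
    rw [div_eq_iff h8]; ring)
  apply hasLift_of_hom hE h φ F'
  intro c
  have h1 := hF' ⟨scG φ ρ c, hscN c⟩
  show F' (scG φ ρ c) = c
  rw [h1]
  apply Units.ext
  rw [MonoidHom.coe_toHomUnits]
  show tr (sc M c * R) / tr R = c
  rw [tr_sc, mul_div_cancel_right₀ _ hR0]

end Cfsg.Agent.H668.DadeC
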