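import Mathlib
import Cfsg.Agent.PLocal.ElemAbSup
import Cfsg.Agent.H668.DadeC

/-!
# Lifts on central products
-/

set_option autoImplicit false
set_option linter.unusedSectionVars false
set_option linter.style.haveILetI false
open scoped ComplexConjugate TensorProduct
open Cfsg Module

namespace Cfsg.Agent.H668.DadeD

open Cfsg.Agent.H668.DadeA Cfsg.Agent.H668.DadeB Cfsg.Agent.H668.DadeC

/-- Lift data on a subgroup `F`. -/
structure LD {E : Type*} [Group E] (z : E) (F : Subgroup E) {Y : Type*} [Group Y]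
    (φ : Y →* MulAut E) (M : Type) [AddCommGroup M] [Module ℂ M] (r : E → (M ≃ₗ[ℂ] M))
    (L : Y →* (M ≃ₗ[ℂ] M)) : Prop where
  mul : ∀ a ∈ F, ∀ b ∈ F, r (a * b) = r a * r b
  mem : z ∈ F
  neg : r z = sc M (-1)
  card : Nat.card F = 2 * finrank ℂ M ^ 2
  imp : ∀ y, ∀ e ∈ F, φ y e ∈ F → L y * r e = r (φ y e) * L y

/-- The existence of lift data. -/
def HL {E : Type*} [Group E] (z : E) (F : Subgroup E) {Y : Type*} [Group Y]
    (φ : Y →* MulAut E) : Prop :=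
  ∃ (M : Type) (_ : AddCommGroup M) (_ : Module ℂ M) (_ : FiniteDimensional ℂ M)
    (r : E → (M ≃ₗ[ℂ] M)) (L : Y →* (M ≃ₗ[ℂ] M)), LD z F φ M r L

section tensor

variable {M₁ M₂ : Type} [AddCommGroup M₁] [Module ℂ M₁] [AddCommGroup M₂] [Module ℂ M₂]

/-- The tensor product of operators. -/
noncomputable def tp (A : M₁ ≃ₗ[ℂ] M₁) (B : M₂ ≃ₗ[ℂ] M₂) : (M₁ ⊗[ℂ] M₂) ≃ₗ[ℂ] (M₁ ⊗[ℂ] M₂) :=
  TensorProduct.congr A B

theorem tp_mul (A A' : M₁ ≃ₗ[ℂ] M₁) (B B' : M₂ ≃ₗ[ℂ] M₂) :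
    tp (A * A') (B * B') = tp A B * tp A' B' := TensorProduct.congr_mul _ _ _ _

theorem tp_one : tp (1 : M₁ ≃ₗ[ℂ] M₁) (1 : M₂ ≃ₗ[ℂ] M₂) = 1 := by
  apply LinearEquiv.toLinearMap_injective
  exact TensorProduct.map_one

theorem tp_tmul (A : M₁ ≃ₗ[ℂ] M₁) (B : M₂ ≃ₗ[ℂ] M₂) (v : M₁) (w : M₂) :
    tp A B (v ⊗ₜ w) = A v ⊗ₜ B w := TensorProduct.congr_tmul _ _ _ _

theorem tp_sc (a b : ℂˣ) : tp (sc M₁ a) (sc M₂ b) = sc (M₁ ⊗[ℂ] M₂) (a * b) := by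
  apply LinearEquiv.toLinearMap_injective
  apply TensorProduct.ext'
  intro v w
  show tp (sc M₁ a) (sc M₂ b) (v ⊗ₜ w) = sc (M₁ ⊗[ℂ] M₂) (a * b) (v ⊗ₜ w)
  rw [tp_tmul, sc_apply, sc_apply, sc_apply, TensorProduct.smul_tmul_smul, Units.val_mul]

/-- The swap. -/
noncomputable def sw (M₁ : Type) [AddCommGroup M₁] [Module ℂ M₁] :
    (M₁ ⊗[ℂ] M₁) ≃ₗ[ℂ] (M₁ ⊗[ℂ] M₁) := TensorProduct.comm ℂ M₁ M₁

theorem sw_mul : sw M₁ * sw M₁ = 1 := by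
  apply LinearEquiv.toLinearMap_injective
  apply TensorProduct.ext'
  intro v w
  rfl

theorem sw_tp (A B : M₁ ≃ₗ[ℂ] M₁) : sw M₁ * tp A B = tp B A * sw M₁ := by
  apply LinearEquiv.toLinearMap_injective
  apply TensorProduct.ext'
  intro v w
  rfl

theorem sw0 (A B C D : M₁ ≃ₗ[ℂ] M₁) :
    tp A B * (tp C D * sw M₁) = tp (A * C) (B * D) * sw M₁ := by
  rw [← mul_assoc, ← tp_mul]

theorem sw1 (A B C D : M₁ ≃ₗ[ℂ] M₁) :
    (tp A B * sw M₁) * tp C D = tp (A * D) (B * C) * sw M₁ := by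
  rw [mul_assoc, sw_tp, ← mul_assoc, ← tp_mul]

theorem sw2 (A B C D : M₁ ≃ₗ[ℂ] M₁) :
    (tp A B * sw M₁) * (tp C D * sw M₁) = tp (A * D) (B * C) := by
  rw [← mul_assoc, sw1, mul_assoc, sw_mul, mul_one]

end tensor

section glue

variable {E : Type*} [Group E] [Finite E] {z : E}

/-- Gluing of representations on a central product. -/
theorem glue {F₁ F₂ : Subgroup E} {M₁ M₂ : Type} [AddCommGroup M₁] [Module ℂ M₁]
    [AddCommGroup M₂] [Module ℂ M₂]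
    (hi : ∀ a ∈ F₁, a ∈ F₂ → a = 1 ∨ a = z) (hz1 : z ∈ F₁) (hz2 : z ∈ F₂)
    {r₁ : E → (M₁ ≃ₗ[ℂ] M₁)} {r₂ : E → (M₂ ≃ₗ[ℂ] M₂)}
    (h1 : ∀ a ∈ F₁, ∀ b ∈ F₁, r₁ (a * b) = r₁ a * r₁ b)
    (h2 : ∀ a ∈ F₂, ∀ b ∈ F₂, r₂ (a * b) = r₂ a * r₂ b)
    (hn1 : r₁ z = sc M₁ (-1)) (hn2 : r₂ z = sc M₂ (-1)) :
    ∃ r : E → ((M₁ ⊗[ℂ] M₂) ≃ₗ[ℂ] (M₁ ⊗[ℂ] M₂)),
      ∀ a ∈ F₁, ∀ b ∈ F₂, r (a * b) = tp (r₁ a) (r₂ b) := by
  classical
  have hwd : ∀ a ∈ F₁, ∀ b ∈ F₂, ∀ a' ∈ F₁, ∀ b' ∈ F₂, a * b = a' * b' →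
      tp (r₁ a) (r₂ b) = tp (r₁ a') (r₂ b') := by
    intro a ha b hb a' ha' b' hb' hab
    have e1 : a'⁻¹ * a = b' * b⁻¹ := by
      rw [inv_mul_eq_iff_eq_mul, ← mul_assoc, ← hab, mul_inv_cancel_right]
    have e2 : a'⁻¹ * a ∈ F₁ := F₁.mul_mem (F₁.inv_mem ha') ha
    have e3 : a'⁻¹ * a ∈ F₂ := by rw [e1]; exact F₂.mul_mem hb' (F₂.inv_mem hb)
    rcases hi _ e2 e3 with e4 | e4
    · have e5 : a = a' := by rw [inv_mul_eq_one] at e4; exact e4.symm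
      subst e5
      have e6 : b = b' := mul_left_cancel hab
      rw [e6]
    · have e5 : a = a' * z := by rw [← e4, mul_inv_cancel_left]
      have e6 : b' = z * b := by rw [← e4, e1, inv_mul_cancel_right]
      rw [e5, e6, h1 _ ha' _ hz1, h2 _ hz2 _ hb, hn1, hn2]
      have e7 : tp (r₁ a' * sc M₁ (-1)) (r₂ b) = tp (r₁ a') (r₂ b) * tp (sc M₁ (-1)) 1 := by
        rw [← tp_mul, mul_one]
      have e8 : tp (r₁ a') (sc M₂ (-1) * r₂ b) = tp 1 (sc M₂ (-1)) * tp (r₁ a') (r₂ b) := by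
        rw [← tp_mul, one_mul]
      have e9 : tp (sc M₁ (-1)) (1 : M₂ ≃ₗ[ℂ] M₂) = sc _ (-1) := by
        have := tp_sc (M₁ := M₁) (M₂ := M₂) (-1) 1
        rwa [map_one, mul_one] at this
      have e10 : tp (1 : M₁ ≃ₗ[ℂ] M₁) (sc M₂ (-1)) = sc _ (-1) := by
        have := tp_sc (M₁ := M₁) (M₂ := M₂) 1 (-1)
        rwa [map_one, one_mul] at this
      rw [e7, e8, e9, e10, sc_comm]
  refine ⟨fun e => if h : ∃ p : E × E, p.1 ∈ F₁ ∧ p.2 ∈ F₂ ∧ e = p.1 * p.2 then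
    tp (r₁ h.choose.1) (r₂ h.choose.2) else 1, fun a ha b hb => ?_⟩
  have hex : ∃ p : E × E, p.1 ∈ F₁ ∧ p.2 ∈ F₂ ∧ a * b = p.1 * p.2 := ⟨(a, b), ha, hb, rfl⟩
  show (if h : _ then _ else _) = _
  rw [dif_pos hex]
  have hs := hex.choose_spec
  exact hwd _ hs.1 _ hs.2.1 _ ha _ hb hs.2.2.symm

theorem card_glue {F₁ F₂ : Subgroup E} (hc : ∀ a ∈ F₁, ∀ b ∈ F₂, a * b = b * a)
    (hi : ∀ a ∈ F₁, a ∈ F₂ → a = 1 ∨ a = z) (hz0 : z ≠ 1) (hz1 : z ∈ F₁) (hz2 : z ∈ F₂)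
    {d₁ d₂ : ℕ} (h1 : Nat.card F₁ = 2 * d₁ ^ 2) (h2 : Nat.card F₂ = 2 * d₂ ^ 2) :
    Nat.card (F₁ ⊔ F₂ : Subgroup E) = 2 * (d₁ * d₂) ^ 2 := by
  have e1 := PLocal.ElemAbSup.card_sup_mul_card_inf (A := F₁) (B := F₂) (by
    intro b hb
    rw [Subgroup.mem_centralizer_iff]
    intro a ha
    exact hc a ha b hb)
  have e2 : Nat.card (F₁ ⊓ F₂ : Subgroup E) = 2 := by
    have e3 : ((F₁ ⊓ F₂ : Subgroup E) : Set E) = {1, z} := by
      ext a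
      rw [SetLike.mem_coe, Subgroup.mem_inf, Set.mem_insert_iff, Set.mem_singleton_iff]
      constructor
      · rintro ⟨h3, h4⟩; exact hi a h3 h4
      · rintro (rfl | rfl)
        · exact ⟨F₁.one_mem, F₂.one_mem⟩
        · exact ⟨hz1, hz2⟩
    have e4 : Nat.card (F₁ ⊓ F₂ : Subgroup E) = Set.ncard ((F₁ ⊓ F₂ : Subgroup E) : Set E) := rfl
    rw [e4, e3, Set.ncard_pair hz0.symm]
  rw [e2, h1, h2] at e1
  have e5 : Nat.card (F₁ ⊔ F₂ : Subgroup E) * 2 = (2 * (d₁ * d₂) ^ 2) * 2 := by rw [e1]; ring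
  exact Nat.eq_of_mul_eq_mul_right two_pos e5

theorem mem_sup_of_comm {F₁ F₂ : Subgroup E} (hc : ∀ a ∈ F₁, ∀ b ∈ F₂, a * b = b * a) {e : E} :
    e ∈ F₁ ⊔ F₂ ↔ ∃ a ∈ F₁, ∃ b ∈ F₂, e = a * b := by
  constructor
  · intro he
    let K : Subgroup E :=
      { carrier := {e | ∃ a ∈ F₁, ∃ b ∈ F₂, e = a * b}
        one_mem' := ⟨1, F₁.one_mem, 1, F₂.one_mem, by rw [one_mul]⟩
        mul_mem' := by
          rintro _ _ ⟨a, ha, b, hb, rfl⟩ ⟨a', ha', b', hb', rfl⟩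
          refine ⟨a * a', F₁.mul_mem ha ha', b * b', F₂.mul_mem hb hb', ?_⟩
          rw [mul_assoc, ← mul_assoc b, ← hc a' ha' b hb, mul_assoc, mul_assoc]
        inv_mem' := by
          rintro _ ⟨a, ha, b, hb, rfl⟩
          refine ⟨a⁻¹, F₁.inv_mem ha, b⁻¹, F₂.inv_mem hb, ?_⟩
          rw [mul_inv_rev]
          exact (hc _ (F₁.inv_mem ha) _ (F₂.inv_mem hb)).symm }
    have h1 : F₁ ⊔ F₂ ≤ K := by
      apply sup_le
      · intro a ha; exact ⟨a, ha, 1, F₂.one_mem, by rw [mul_one]⟩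
      · intro b hb; exact ⟨1, F₁.one_mem, b, hb, by rw [one_mul]⟩
    exact h1 he
  · rintro ⟨a, ha, b, hb, rfl⟩
    exact Subgroup.mul_mem _ (le_sup_left (a := F₁) ha) (le_sup_right (b := F₂) hb)

variable {Y : Type*} [Group Y] {φ : Y →* MulAut E}

theorem HL.sup {F₁ F₂ : Subgroup E} (hz0 : z ≠ 1)
    (hc : ∀ a ∈ F₁, ∀ b ∈ F₂, a * b = b * a) (hi : ∀ a ∈ F₁, a ∈ F₂ → a = 1 ∨ a = z)
    (hv1 : ∀ y, ∀ e ∈ F₁, φ y e ∈ F₁) (hv2 : ∀ y, ∀ e ∈ F₂, φ y e ∈ F₂)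
    (h1 : HL z F₁ φ) (h2 : HL z F₂ φ) : HL z (F₁ ⊔ F₂) φ := by
  obtain ⟨M₁, i1, i2, i3, r₁, L₁, H1⟩ := h1
  obtain ⟨M₂, j1, j2, j3, r₂, L₂, H2⟩ := h2
  obtain ⟨r, hr⟩ := glue hi H1.mem H2.mem H1.mul H2.mul H1.neg H2.neg
  refine ⟨M₁ ⊗[ℂ] M₂, inferInstance, inferInstance, inferInstance, r,
    { toFun := fun y => tp (L₁ y) (L₂ y)
      map_one' := by rw [map_one, map_one, tp_one]
      map_mul' := fun a b => by rw [map_mul, map_mul, tp_mul] }, ?_⟩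
  refine ⟨?_, ?_, ?_, ?_, ?_⟩
  · intro e he e' he'
    obtain ⟨a, ha, b, hb, rfl⟩ := (mem_sup_of_comm hc).1 he
    obtain ⟨a', ha', b', hb', rfl⟩ := (mem_sup_of_comm hc).1 he'
    have h3 : a * b * (a' * b') = (a * a') * (b * b') := by
      rw [mul_assoc, ← mul_assoc b, ← hc a' ha' b hb, mul_assoc, mul_assoc]
    rw [h3, hr _ (F₁.mul_mem ha ha') _ (F₂.mul_mem hb hb'), hr a ha b hb, hr a' ha' b' hb',
      H1.mul a ha a' ha', H2.mul b hb b' hb', tp_mul]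
  · exact le_sup_left (a := F₁) H1.mem
  · have h3 := hr z H1.mem 1 F₂.one_mem
    rw [mul_one] at h3
    have h4 : r₂ 1 = 1 := by
      have := H2.mul 1 F₂.one_mem 1 F₂.one_mem
      rw [mul_one] at this
      exact (left_eq_mul.1 this)
    rw [h3, H1.neg, h4]
    have := tp_sc (M₁ := M₁) (M₂ := M₂) (-1) 1
    rwa [map_one, mul_one] at this
  · rw [Module.finrank_tensorProduct]
    exact card_glue hc hi hz0 H1.mem H2.mem H1.card H2.card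
  · intro y e he _
    obtain ⟨a, ha, b, hb, rfl⟩ := (mem_sup_of_comm hc).1 he
    show tp (L₁ y) (L₂ y) * _ = _ * tp (L₁ y) (L₂ y)
    rw [map_mul, hr a ha b hb, hr _ (hv1 y a ha) _ (hv2 y b hb), ← tp_mul, ← tp_mul,
      H1.imp y a ha (hv1 y a ha), H2.imp y b hb (hv2 y b hb)]

theorem LD.one_r {M : Type} [AddCommGroup M] [Module ℂ M] {F : Subgroup E} {r : E → (M ≃ₗ[ℂ] M)}
    {L : Y →* (M ≃ₗ[ℂ] M)} (H : LD z F φ M r L) : r 1 = 1 := by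
  have := H.mul 1 F.one_mem 1 F.one_mem
  rw [mul_one] at this
  exact (left_eq_mul.1 this)

/-- The swap lemma. -/
theorem HL.swap {F₁ F₂ : Subgroup E} (hz0 : z ≠ 1)
    (hc : ∀ a ∈ F₁, ∀ b ∈ F₂, a * b = b * a) (hi : ∀ a ∈ F₁, a ∈ F₂ → a = 1 ∨ a = z)
    (S₁ : Subgroup Y) (hS₁ : S₁.index = 2) (t : Y) (ht : t ∉ S₁)
    (hv1 : ∀ y ∈ S₁, ∀ e ∈ F₁, φ y e ∈ F₁) (hF₂ : ∀ e, φ t e ∈ F₂ ↔ e ∈ F₁)
    (hzt : φ t z = z) (h1 : HL z F₁ (φ.comp S₁.subtype)) : HL z (F₁ ⊔ F₂) φ := by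
  classical
  obtain ⟨M₁, i1, i2, i3, r₁, L₁, H1⟩ := h1
  have hidx : ∀ {a b : Y}, a * b ∈ S₁ ↔ (a ∈ S₁ ↔ b ∈ S₁) := Subgroup.mul_mem_iff_of_index_two hS₁
  have htinv : ∀ y, t⁻¹ * y ∈ S₁ ↔ y ∉ S₁ := by
    intro y
    rw [hidx, S₁.inv_mem_iff]
    tauto
  have hyt : ∀ y, y * t ∈ S₁ ↔ y ∉ S₁ := by
    intro y
    rw [hidx]; tauto
  have hconj : ∀ y ∈ S₁, t⁻¹ * y * t ∈ S₁ := by
    intro y hy
    rw [hyt, htinv]; tauto
  -- total functions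
  set l : Y → (M₁ ≃ₗ[ℂ] M₁) := fun y => if h : y ∈ S₁ then L₁ ⟨y, h⟩ else 1 with hl
  have lv : ∀ y (h : y ∈ S₁), l y = L₁ ⟨y, h⟩ := fun y h => dif_pos h
  have lmul : ∀ a ∈ S₁, ∀ b ∈ S₁, l (a * b) = l a * l b := by
    intro a ha b hb
    rw [lv a ha, lv b hb, lv _ (S₁.mul_mem ha hb), ← map_mul]; rfl
  have l1 : l 1 = 1 := by
    rw [lv 1 S₁.one_mem]; exact map_one L₁
  have limp : ∀ y ∈ S₁, ∀ e ∈ F₁, l y * r₁ e = r₁ (φ y e) * l y := by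
    intro y hy e he
    rw [lv y hy]
    exact H1.imp ⟨y, hy⟩ e he (hv1 y hy e he)
  -- `F₂`
  have hF₂' : ∀ b ∈ F₂, φ t⁻¹ b ∈ F₁ := by
    intro b hb
    rw [← hF₂, map_inv, MulAut.apply_inv_self]; exact hb
  have hz1 : z ∈ F₁ := H1.mem
  have hz2 : z ∈ F₂ := by rw [← hzt, hF₂]; exact hz1
  have hzt' : φ t⁻¹ z = z := by
    rw [map_inv]
    nth_rewrite 1 [← hzt]
    rw [MulAut.inv_apply_self]
  obtain ⟨r, hr⟩ := glue (r₁ := r₁) (r₂ := fun b => r₁ (φ t⁻¹ b)) hi hz1 hz2 H1.mul (by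
    intro a ha b hb
    show r₁ (φ t⁻¹ (a * b)) = _
    rw [map_mul, H1.mul _ (hF₂' a ha) _ (hF₂' b hb)]) H1.neg (by
    show r₁ (φ t⁻¹ z) = _
    rw [hzt', H1.neg])
  have hr' : ∀ a ∈ F₁, ∀ b ∈ F₂, r (a * b) = tp (r₁ a) (r₁ (φ t⁻¹ b)) := hr
  refine ⟨M₁ ⊗[ℂ] M₁, inferInstance, inferInstance, inferInstance, r,
    { toFun := fun y => if y ∈ S₁ then tp (l y) (l (t⁻¹ * y * t)) else
        tp (l (y * t)) (l (t⁻¹ * y)) * sw M₁
      map_one' := by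
        rw [if_pos S₁.one_mem, mul_one, inv_mul_cancel, l1, tp_one]
      map_mul' := ?_ }, ?_⟩
  · intro a b
    by_cases ha : a ∈ S₁
    · by_cases hb : b ∈ S₁
      · rw [if_pos ha, if_pos hb, if_pos (S₁.mul_mem ha hb), ← tp_mul, lmul a ha b hb]
        congr 1
        rw [← lmul _ (hconj a ha) _ (hconj b hb)]
        congr 1
        group
      · have hab : a * b ∉ S₁ := by rw [hidx]; tauto
        rw [if_pos ha, if_neg hb, if_neg hab, sw0]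
        congr 2
        · rw [← lmul _ ha _ ((hyt b).2 hb)]
          congr 1; group
        · rw [← lmul _ (hconj a ha) _ ((htinv b).2 hb)]
          congr 1; group
    · by_cases hb : b ∈ S₁
      · have hab : a * b ∉ S₁ := by rw [hidx]; tauto
        rw [if_neg ha, if_pos hb, if_neg hab, sw1]
        congr 2
        · rw [← lmul _ ((hyt a).2 ha) _ (hconj b hb)]
          congr 1; group
        · rw [← lmul _ ((htinv a).2 ha) _ hb]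
          congr 1; group
      · have hab : a * b ∈ S₁ := by rw [hidx]; tauto
        rw [if_neg ha, if_neg hb, if_pos hab, sw2]
        congr 1
        · rw [← lmul _ ((hyt a).2 ha) _ ((htinv b).2 hb)]
          congr 1; group
        · rw [← lmul _ ((htinv a).2 ha) _ ((hyt b).2 hb)]
          congr 1; group
  · refine ⟨?_, ?_, ?_, ?_, ?_⟩
    · intro e he e' he'
      obtain ⟨a, ha, b, hb, rfl⟩ := (mem_sup_of_comm hc).1 he
      obtain ⟨a', ha', b', hb', rfl⟩ := (mem_sup_of_comm hc).1 he'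
      have h3 : a * b * (a' * b') = (a * a') * (b * b') := by
        rw [mul_assoc, ← mul_assoc b, ← hc a' ha' b hb, mul_assoc, mul_assoc]
      rw [h3, hr' _ (F₁.mul_mem ha ha') _ (F₂.mul_mem hb hb'), hr' a ha b hb, hr' a' ha' b' hb',
        H1.mul a ha a' ha', map_mul, H1.mul _ (hF₂' b hb) _ (hF₂' b' hb'), tp_mul]
    · exact le_sup_left (a := F₁) H1.mem
    · have h3 := hr' z H1.mem 1 F₂.one_mem
      rw [mul_one] at h3
      rw [h3, H1.neg, map_one, H1.one_r]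
      have := tp_sc (M₁ := M₁) (M₂ := M₁) (-1) 1
      rwa [map_one, mul_one] at this
    · rw [Module.finrank_tensorProduct]
      apply card_glue hc hi hz0 hz1 hz2 H1.card
      rw [← H1.card]
      apply Nat.card_congr
      exact
        { toFun := fun b => ⟨φ t⁻¹ b, hF₂' b b.2⟩
          invFun := fun a => ⟨φ t a, (hF₂ a).2 a.2⟩
          left_inv := fun b => by
            apply Subtype.ext
            show φ t (φ t⁻¹ b) = b
            rw [map_inv, MulAut.apply_inv_self]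
          right_inv := fun a => by
            apply Subtype.ext
            show φ t⁻¹ (φ t a) = a
            rw [map_inv, MulAut.inv_apply_self] }
    · intro y e he _
      obtain ⟨a, ha, b, hb, rfl⟩ := (mem_sup_of_comm hc).1 he
      show (if y ∈ S₁ then tp (l y) (l (t⁻¹ * y * t)) else tp (l (y * t)) (l (t⁻¹ * y)) * sw M₁) *
        r (a * b) = r (φ y (a * b)) *
        (if y ∈ S₁ then tp (l y) (l (t⁻¹ * y * t)) else tp (l (y * t)) (l (t⁻¹ * y)) * sw M₁)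
      have hcomp : ∀ u v : Y, ∀ e, φ (u * v) e = φ u (φ v e) := by
        intro u v e; rw [map_mul, MulAut.mul_apply]
      by_cases hy : y ∈ S₁
      · rw [if_pos hy, map_mul]
        have h3 : φ y b ∈ F₂ := by
          have h4 : φ y b = φ t (φ (t⁻¹ * y * t) (φ t⁻¹ b)) := by
            rw [← hcomp, ← hcomp]; congr 2; group
          rw [h4, hF₂]
          exact hv1 _ (hconj y hy) _ (hF₂' b hb)
        rw [hr' a ha b hb, hr' _ (hv1 y hy a ha) _ h3, ← tp_mul, ← tp_mul, limp y hy a ha,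
          limp _ (hconj y hy) _ (hF₂' b hb)]
        congr 3
        rw [← hcomp, ← hcomp]; congr 2; group
      · rw [if_neg hy, map_mul]
        have h3 : φ y a ∈ F₂ := by
          have h4 : φ y a = φ t (φ (t⁻¹ * y) a) := by
            rw [← hcomp]; congr 2; group
          rw [h4, hF₂]
          exact hv1 _ ((htinv y).2 hy) _ ha
        have h5 : φ y b = φ (y * t) (φ t⁻¹ b) := by
          rw [← hcomp]; congr 2; group
        have h6 : φ y b ∈ F₁ := by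
          rw [h5]
          exact hv1 _ ((hyt y).2 hy) _ (hF₂' b hb)
        rw [← hc _ h6 _ h3, hr' a ha b hb, hr' _ h6 _ h3, mul_assoc, sw_tp, ← mul_assoc,
          ← tp_mul, ← mul_assoc, ← tp_mul, limp _ ((hyt y).2 hy) _ (hF₂' b hb),
          limp _ ((htinv y).2 hy) _ ha, ← h5, ← hcomp]

end glue

end Cfsg.Agent.H668.DadeD
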