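import Mathlib
import Cfsg.Agent.TwoFusion.SqCount
import Cfsg.Agent.H668.DadeD

/-!
# Lifts on a central product of blocks permuted by a 2-group
-/

set_option autoImplicit false
set_option linter.unusedSectionVars false
set_option linter.style.haveILetI false
open scoped Pointwise
open Cfsg Module

namespace Cfsg.Agent.H668.DadeE

open Cfsg.Agent.H668.DadeA Cfsg.Agent.H668.DadeB Cfsg.Agent.H668.DadeC Cfsg.Agent.H668.DadeD

section hl

variable {E : Type*} [Group E] [Finite E] {z : E} {Y : Type*} [Group Y] {φ : Y →* MulAut E}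

theorem HL.comp {F : Subgroup E} (h : HL z F φ) {Y' : Type*} [Group Y'] (f : Y' →* Y) :
    HL z F (φ.comp f) := by
  obtain ⟨M, i1, i2, i3, r, L, H⟩ := h
  exact ⟨M, i1, i2, i3, r, L.comp f, H.mul, H.mem, H.neg, H.card, fun y => H.imp (f y)⟩

theorem mem_zpowers_z (hE : CT E z) {e : E} : e ∈ Subgroup.zpowers z ↔ e = 1 ∨ e = z := by
  constructor
  · intro he
    obtain ⟨m, rfl⟩ := Subgroup.mem_zpowers_iff.1 he
    rcases Int.even_or_odd' m with ⟨k, hk | hk⟩
    · left
      rw [hk, zpow_mul]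
      have : z ^ (2 : ℤ) = 1 := by rw [zpow_two, hE.sq]
      rw [this, one_zpow]
    · right
      rw [hk, zpow_add, zpow_mul]
      have : z ^ (2 : ℤ) = 1 := by rw [zpow_two, hE.sq]
      rw [this, one_zpow, one_mul, zpow_one]
  · rintro (rfl | rfl)
    · exact Subgroup.one_mem _
    · exact Subgroup.mem_zpowers _

theorem HL.zpow (hE : CT E z) : HL z (Subgroup.zpowers z) φ := by
  classical
  refine ⟨ℂ, inferInstance, inferInstance, inferInstance,
    fun e => if e = z then sc ℂ (-1) else 1, 1, ?_, ?_, ?_, ?_, ?_⟩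
  · intro a ha b hb
    have hz1 : (1 : E) ≠ z := fun h => hE.ne h.symm
    rcases (mem_zpowers_z hE).1 ha with rfl | rfl
    · simp [hz1]
    · rcases (mem_zpowers_z hE).1 hb with rfl | rfl
      · simp [hz1]
      · rw [hE.sq, if_neg hz1, if_pos rfl, ← map_mul]
        simp
  · exact Subgroup.mem_zpowers z
  · exact if_pos rfl
  · rw [Nat.card_zpowers]
    have h1 : orderOf z = 2 := by
      apply orderOf_eq_prime _ hE.ne
      rw [pow_two, hE.sq]
    rw [h1]; simp
  · intro y e he _
    have h1 : φ y e = e := by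
      rcases (mem_zpowers_z hE).1 he with rfl | rfl
      · rw [map_one]
      · rw [hE.map_z]
    rw [h1, MonoidHom.one_apply, one_mul, mul_one]

end hl

section blocks

variable {E : Type*} [Group E] [Finite E] {z : E} {I : Type*} [Finite I] {Y : Type*} [Group Y]
  [Finite Y] [MulAction Y I] {φ : Y →* MulAut E}

/-- A central product permuted by a group. -/
structure Blocks (z : E) (φ : Y →* MulAut E) (T₀ : Set I) (F : I → Subgroup E) : Prop where
  ct : CT E z
  mem : ∀ i ∈ T₀, z ∈ F i
  comm : ∀ i ∈ T₀, ∀ j ∈ T₀, i ≠ j → ∀ a ∈ F i, ∀ b ∈ F j, a * b = b * a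
  act : ∀ y : Y, ∀ i ∈ T₀, ∀ a ∈ F i, φ y a ∈ F (y • i)
  top : ∀ e : E, (∀ i ∈ T₀, ∀ a ∈ F i, a * e = e * a) → e = 1 ∨ e = z
  hl : ∀ i ∈ T₀, ∀ S' : Subgroup Y, (∀ s ∈ S', s • i = i) → HL z (F i) (φ.comp S'.subtype)

/-- The product of the blocks in `T`. -/
def FT (z : E) (F : I → Subgroup E) (T : Set I) : Subgroup E :=
  Subgroup.zpowers z ⊔ ⨆ i ∈ T, F i

theorem FT_le {F : I → Subgroup E} {T : Set I} {K : Subgroup E} (hz : z ∈ K)
    (h : ∀ i ∈ T, F i ≤ K) : FT z F T ≤ K :=
  sup_le ((Subgroup.zpowers_le).2 hz) (iSup₂_le h)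

theorem le_FT {F : I → Subgroup E} {T : Set I} {i : I} (hi : i ∈ T) : F i ≤ FT z F T :=
  le_sup_of_le_right (le_iSup₂ (f := fun i (_ : i ∈ T) => F i) i hi)

theorem z_mem_FT {F : I → Subgroup E} {T : Set I} : z ∈ FT z F T :=
  le_sup_left (a := Subgroup.zpowers z) (Subgroup.mem_zpowers z)

theorem FT_union {F : I → Subgroup E} (T T' : Set I) :
    FT z F (T ∪ T') = FT z F T ⊔ FT z F T' := by
  apply le_antisymm
  · apply FT_le (le_sup_left (a := FT z F T) z_mem_FT)
    rintro i (hi | hi)
    · exact le_sup_of_le_left (le_FT hi)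
    · exact le_sup_of_le_right (le_FT hi)
  · apply sup_le
    · exact FT_le z_mem_FT fun i hi => le_FT (Or.inl hi)
    · exact FT_le z_mem_FT fun i hi => le_FT (Or.inr hi)

theorem Blocks.comm_FT {T₀ : Set I} {F : I → Subgroup E} (h : Blocks z φ T₀ F) {T : Set I} {b : E}
    (hb : ∀ i ∈ T, ∀ a ∈ F i, a * b = b * a) : ∀ a ∈ FT z F T, a * b = b * a := by
  have h1 : FT z F T ≤ Subgroup.centralizer ({b} : Set E) := by
    apply FT_le
    · rw [Subgroup.mem_centralizer_singleton_iff]
      exact (h.ct.zcomm b).symm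
    · intro i hi a ha
      rw [Subgroup.mem_centralizer_singleton_iff]
      exact hb i hi a ha
  intro a ha
  exact Subgroup.mem_centralizer_singleton_iff.1 (h1 ha)

theorem Blocks.comm_FT' {T₀ : Set I} {F : I → Subgroup E} (h : Blocks z φ T₀ F) {T T' : Set I}
    (hT : T ⊆ T₀) (hT' : T' ⊆ T₀) (hd : Disjoint T T') :
    ∀ a ∈ FT z F T, ∀ b ∈ FT z F T', a * b = b * a := by
  intro a ha b hb
  refine h.comm_FT (fun i hi a ha => ?_) a ha
  exact (h.comm_FT (fun j hj b hb => (h.comm i (hT hi) j (hT' hj)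
    (fun hij => (Set.disjoint_left.1 hd hi) (hij ▸ hj)) a ha b hb).symm) b hb).symm

theorem Blocks.inter_FT {T₀ : Set I} {F : I → Subgroup E} (h : Blocks z φ T₀ F) {T T' : Set I}
    (hT : T ⊆ T₀) (hT' : T' ⊆ T₀) (hd : Disjoint T T') :
    ∀ a ∈ FT z F T, a ∈ FT z F T' → a = 1 ∨ a = z := by
  intro a ha ha'
  apply h.top
  intro i hi b hb
  by_cases hiT : i ∈ T
  · have h1 : Disjoint T' {i} := by
      rw [Set.disjoint_singleton_right]
      exact Set.disjoint_left.1 hd hiT
    exact (h.comm_FT' hT' (Set.singleton_subset_iff.2 hi) h1 a ha' b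
      (le_FT (Set.mem_singleton i) hb)).symm
  · have h1 : Disjoint T {i} := by
      rw [Set.disjoint_singleton_right]
      exact hiT
    exact (h.comm_FT' hT (Set.singleton_subset_iff.2 hi) h1 a ha b
      (le_FT (Set.mem_singleton i) hb)).symm

theorem Blocks.act_FT {T₀ : Set I} {F : I → Subgroup E} (h : Blocks z φ T₀ F) {T T' : Set I}
    (hT : T ⊆ T₀) (y : Y) (hy : ∀ i ∈ T, y • i ∈ T') :
    ∀ a ∈ FT z F T, φ y a ∈ FT z F T' := by
  have h1 : FT z F T ≤ (FT z F T').comap (φ y).toMonoidHom := by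
    apply FT_le
    · show φ y z ∈ FT z F T'
      rw [h.ct.map_z]; exact z_mem_FT
    · intro i hi a ha
      exact le_FT (hy i hi) (h.act y i (hT hi) a ha)
  exact fun a ha => h1 ha

theorem Blocks.main {T₀ : Set I} {F : I → Subgroup E} (h : Blocks z φ T₀ F) (hp : IsPGroup 2 Y) :
    ∀ n : ℕ, ∀ T : Set I, T ⊆ T₀ → T.ncard = n → ∀ S' : Subgroup Y,
      (∀ s ∈ S', ∀ i ∈ T, s • i ∈ T) → HL z (FT z F T) (φ.comp S'.subtype) := by
  intro n
  induction n using Nat.strong_induction_on with
  | _ n ih =>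
    intro T hT hn S' hS'
    rcases T.eq_empty_or_nonempty with rfl | ⟨i, hi⟩
    · have h1 : FT z F (∅ : Set I) = Subgroup.zpowers z := by
        apply le_antisymm
        · exact FT_le (Subgroup.mem_zpowers z) (by simp)
        · exact (Subgroup.zpowers_le).2 z_mem_FT
      rw [h1]
      exact HL.zpow h.ct
    -- the orbit
    set O : Set I := {j | ∃ s ∈ S', j = s • i} with hO
    have hOT : O ⊆ T := by
      rintro j ⟨s, hs, rfl⟩; exact hS' s hs i hi
    have hiO : i ∈ O := ⟨1, S'.one_mem, (one_smul _ _).symm⟩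
    have hOinv : ∀ s ∈ S', ∀ j ∈ O, s • j ∈ O := by
      rintro s hs _ ⟨s', hs', rfl⟩
      exact ⟨s * s', S'.mul_mem hs hs', by rw [mul_smul]⟩
    by_cases hOT' : O = T
    swap
    · -- several orbits
      have h1 : O.ncard < n := by
        rw [← hn]
        exact Set.ncard_lt_ncard (lt_of_le_of_ne hOT hOT') (Set.toFinite _)
      have h2 : (T \ O).ncard < n := by
        rw [← hn]
        apply Set.ncard_lt_ncard _ (Set.toFinite _)
        refine ⟨Set.sdiff_subset, fun hh => ?_⟩
        exact (hh hi).2 hiO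
      have h3 := ih _ h1 O (hOT.trans hT) rfl S' hOinv
      have hinv2 : ∀ s ∈ S', ∀ j ∈ T \ O, s • j ∈ T \ O := by
        rintro s hs j ⟨hj1, hj2⟩
        refine ⟨hS' s hs j hj1, fun hh => hj2 ?_⟩
        have := hOinv s⁻¹ (S'.inv_mem hs) _ hh
        rwa [inv_smul_smul] at this
      have h4 := ih _ h2 (T \ O) (Set.sdiff_subset.trans hT) rfl S' hinv2
      have hd : Disjoint O (T \ O) := Set.disjoint_sdiff_right
      have h5 := HL.sup (φ := φ.comp S'.subtype) h.ct.ne
        (h.comm_FT' (hOT.trans hT) (Set.sdiff_subset.trans hT) hd)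
        (h.inter_FT (hOT.trans hT) (Set.sdiff_subset.trans hT) hd)
        (fun y => h.act_FT (hOT.trans hT) y (hOinv y y.2))
        (fun y => h.act_FT (Set.sdiff_subset.trans hT) y (hinv2 y y.2)) h3 h4
      rwa [← FT_union, Set.union_sdiff_cancel hOT] at h5
    · by_cases hst : ∀ s ∈ S', s • i = i
      · -- a single block
        have h1 : T = {i} := by
          rw [← hOT', hO]
          ext j
          simp only [Set.mem_ofPred_eq, Set.mem_singleton_iff]
          constructor
          · rintro ⟨s, hs, rfl⟩; exact hst s hs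
          · rintro rfl; exact ⟨1, S'.one_mem, (one_smul _ _).symm⟩
        have h2 : FT z F T = F i := by
          rw [h1]
          apply le_antisymm
          · apply FT_le (h.mem i (hT hi))
            rintro j rfl; exact le_rfl
          · exact le_FT (Set.mem_singleton i)
        rw [h2]
        exact h.hl i (hT hi) S' hst
      · -- the swap
        push Not at hst
        obtain ⟨s₀, hs₀, hs₀i⟩ := hst
        obtain ⟨S₁, hS₁, hidx⟩ := TwoFusion.SqCount.exists_index_two (P := S')
          (hp.to_subgroup S') ((MulAction.stabilizer Y i).subgroupOf S') (by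
            intro hh
            have : (⟨s₀, hs₀⟩ : S') ∈ (MulAction.stabilizer Y i).subgroupOf S' := by
              rw [hh]; trivial
            exact hs₀i this)
        obtain ⟨t, ht⟩ : ∃ t : S', t ∉ S₁ := by
          by_contra hcon
          push Not at hcon
          have : S₁ = ⊤ := by
            rw [eq_top_iff]; exact fun x _ => hcon x
          rw [this, Subgroup.index_top] at hidx
          norm_num at hidx
        have hstab : ∀ s : S', (s : Y) • i = i → s ∈ S₁ := fun s hs => hS₁ hs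
        set T₁ : Set I := {j | ∃ s : S', s ∈ S₁ ∧ j = (s : Y) • i} with hT₁
        set T₂ : Set I := {j | ∃ s : S', s ∈ S₁ ∧ j = ((t * s : S') : Y) • i} with hT₂
        have hT₁T : T₁ ⊆ T := by
          rintro j ⟨s, -, rfl⟩; exact hS' s s.2 i hi
        have hT₂T : T₂ ⊆ T := by
          rintro j ⟨s, -, rfl⟩; exact hS' _ (t * s).2 i hi
        have hd : Disjoint T₁ T₂ := by
          rw [Set.disjoint_left]
          rintro j ⟨s, hs, rfl⟩ ⟨s', hs', hss⟩
          have h1 : (((t * s')⁻¹ * s : S') : Y) • i = i := by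
            rw [Subgroup.coe_mul, mul_smul, hss, ← mul_smul, ← Subgroup.coe_mul, inv_mul_cancel,
              Subgroup.coe_one, one_smul]
          have h2 := hstab _ h1
          have h3 : (t * s')⁻¹ ∈ S₁ := (Subgroup.mul_mem_cancel_right S₁ hs).1 h2
          have h4 : t * s' ∈ S₁ := S₁.inv_mem_iff.1 h3
          exact ht ((Subgroup.mul_mem_cancel_right S₁ hs').1 h4)
        have hU : T₁ ∪ T₂ = T := by
          apply Set.Subset.antisymm (Set.union_subset hT₁T hT₂T)
          intro j hj
          rw [← hOT'] at hj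
          obtain ⟨s, hs, rfl⟩ := hj
          by_cases hs1 : (⟨s, hs⟩ : S') ∈ S₁
          · exact Or.inl ⟨⟨s, hs⟩, hs1, rfl⟩
          · right
            refine ⟨t⁻¹ * ⟨s, hs⟩, ?_, ?_⟩
            · rw [Subgroup.mul_mem_iff_of_index_two hidx, S₁.inv_mem_iff]
              tauto
            · rw [mul_inv_cancel_left]
        have hT₂ne : T₂.Nonempty := ⟨((t * 1 : S') : Y) • i, 1, S₁.one_mem, rfl⟩
        have hcard : T₁.ncard < n := by
          rw [← hn]
          apply Set.ncard_lt_ncard _ (Set.toFinite _)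
          refine ⟨hT₁T, fun hh => ?_⟩
          obtain ⟨j, hj⟩ := hT₂ne
          exact Set.disjoint_left.1 hd (hh (hT₂T hj)) hj
        have hT₁inv : ∀ s ∈ S₁.map S'.subtype, ∀ j ∈ T₁, s • j ∈ T₁ := by
          rintro _ ⟨s, hs, rfl⟩ _ ⟨s', hs', rfl⟩
          refine ⟨s * s', S₁.mul_mem hs hs', ?_⟩
          rw [Subgroup.coe_mul, mul_smul]; rfl
        have h1 := ih _ hcard T₁ (hT₁T.trans hT) rfl (S₁.map S'.subtype) hT₁inv
        -- transport to `S₁`
        let f : S₁ →* S₁.map S'.subtype :=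
          (S'.subtype.comp S₁.subtype).codRestrict _ (fun s => ⟨s.1, s.2, rfl⟩)
        have h2 : HL z (FT z F T₁) ((φ.comp S'.subtype).comp S₁.subtype) := HL.comp h1 f
        have htT : ∀ j ∈ T₁, (t : Y) • j ∈ T₂ := by
          rintro _ ⟨s, hs, rfl⟩
          exact ⟨s, hs, by rw [Subgroup.coe_mul, mul_smul]⟩
        have htT' : ∀ j ∈ T₂, ((t⁻¹ : S') : Y) • j ∈ T₁ := by
          rintro _ ⟨s, hs, rfl⟩
          refine ⟨s, hs, ?_⟩
          rw [← mul_smul, ← Subgroup.coe_mul, inv_mul_cancel_left]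
        have h3 := HL.swap (φ := φ.comp S'.subtype) h.ct.ne
          (h.comm_FT' (hT₁T.trans hT) (hT₂T.trans hT) hd)
          (h.inter_FT (hT₁T.trans hT) (hT₂T.trans hT) hd) S₁ hidx t ht
          (fun y hy => h.act_FT (hT₁T.trans hT) y (hT₁inv y ⟨y, hy, rfl⟩))
          (fun e => ⟨fun he => by
            have h4 := h.act_FT (hT₂T.trans hT) ((t⁻¹ : S') : Y) htT' _ he
            have h5 : φ ((t⁻¹ : S') : Y) ((φ.comp S'.subtype) t e) = e := by
              show φ ((t⁻¹ : S') : Y) (φ (t : Y) e) = e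
              rw [← MulAut.mul_apply, ← map_mul, ← Subgroup.coe_mul, inv_mul_cancel,
                Subgroup.coe_one, map_one, MulAut.one_apply]
            rwa [h5] at h4, fun he => h.act_FT (hT₁T.trans hT) (t : Y) htT _ he⟩)
          (h.ct.map_z _) h2
        rwa [← FT_union, hU] at h3

end blocks

end Cfsg.Agent.H668.DadeE
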