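import Mathlib
import Cfsg.Agent.S0184
import Cfsg.Agent.Lib.CoprimeHyperplane
import Cfsg.Agent.H668.DadeE

/-!
# Lifts in the presence of an elementary abelian group without fixed points
-/

set_option autoImplicit false
set_option linter.unusedSectionVars false
set_option linter.style.haveILetI false
open scoped Pointwise ComplexConjugate
open Cfsg Module

namespace Cfsg.Agent.H668.DadeF

open Cfsg.Agent.Characters.Core
open Cfsg.Agent.H668.DadeA Cfsg.Agent.H668.DadeB Cfsg.Agent.H668.DadeC Cfsg.Agent.H668.DadeD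
  Cfsg.Agent.H668.DadeE

/-! ### Existence of spin representations -/

section spin

variable {E : Type*} [Group E] [Finite E] {z : E}

theorem trace_zero_of_neg {M : Type*} [AddCommGroup M] [Module ℂ M] {ρ : E →* (M ≃ₗ[ℂ] M)}
    (hE : CT E z) (hneg : ρ z = sc M (-1)) {x : E} (hx1 : x ≠ 1) (hxz : x ≠ z) :
    LinearMap.trace ℂ M (ρ x : M →ₗ[ℂ] M) = 0 := by
  obtain ⟨y, hy⟩ : ∃ y, x * y ≠ y * x := by
    by_contra hcon
    push Not at hcon
    rcases hE.cen x hcon with h1 | h1
    · exact hx1 h1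
    · exact hxz h1
  have h1 : x * y = z * (y * x) := (hE.comm x y).resolve_left hy
  have h2 : y * x * y⁻¹ = z * x := by
    have h3 : y * x = z * (x * y) := by
      rw [h1, ← mul_assoc, hE.sq, one_mul]
    rw [h3]; group
  have h4 : LinearMap.trace ℂ M (ρ (y * x * y⁻¹) : M →ₗ[ℂ] M) = LinearMap.trace ℂ M (ρ x : M →ₗ[ℂ] M) := by
    rw [map_mul, map_mul, map_inv]
    exact trace_conj _ _
  have h5 : ((ρ (z * x) : M ≃ₗ[ℂ] M) : M →ₗ[ℂ] M) = -(ρ x : M →ₗ[ℂ] M) := by
    rw [map_mul, hneg]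
    ext v
    simp [sc_apply]
  rw [h2, h5, map_neg] at h4
  have : (2 : ℂ) * LinearMap.trace ℂ M (ρ x : M →ₗ[ℂ] M) = 0 := by linear_combination -h4
  simpa using this

theorem spin_of_irr (hE : CT E z) {n : ℕ} (r : Representation ℂ E (Fin n → ℂ))
    (hr : r.IsIrreducible) (hz : r z ≠ 1) :
    ∃ ρ : E →* ((Fin n → ℂ) ≃ₗ[ℂ] (Fin n → ℂ)), Spin z ρ ∧
      ∀ e, (ρ e : (Fin n → ℂ) →ₗ[ℂ] (Fin n → ℂ)) = r e := by
  classical
  haveI := Fintype.ofFinite E
  have hV : Nontrivial (Fin n → ℂ) := ((CharactersDeep.InvRep.isIrreducible_iff r).1 hr).1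
  obtain ⟨c, hc⟩ := CharactersDeep.InvRep.exists_smul_of_comm r hr (r z) (fun g => by
    rw [← map_mul, ← map_mul, hE.zcomm])
  obtain ⟨v, hv⟩ := exists_ne (0 : Fin n → ℂ)
  have hcc : c * c = 1 := by
    have h1 : r z * r z = 1 := by rw [← map_mul, hE.sq, map_one]
    rw [hc] at h1
    have h2 := congrArg (fun f : Module.End ℂ (Fin n → ℂ) => f v) h1
    have h3 : (c * c) • v = (1 : ℂ) • v := by
      rw [one_smul, mul_smul]; exact h2
    exact smul_left_injective ℂ hv h3
  have hc1 : c = -1 := by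
    rcases mul_self_eq_one_iff.1 hcc with h1 | h1
    · exfalso
      apply hz
      rw [hc, h1, one_smul]
    · exact h1
  let ρ : E →* ((Fin n → ℂ) ≃ₗ[ℂ] (Fin n → ℂ)) :=
    (LinearMap.GeneralLinearGroup.generalLinearEquiv ℂ (Fin n → ℂ)).toMonoidHom.comp r.toHomUnits
  have hρ : ∀ e, (ρ e : (Fin n → ℂ) →ₗ[ℂ] (Fin n → ℂ)) = r e := fun e => rfl
  have hneg : ρ z = sc (Fin n → ℂ) (-1) := by
    apply LinearEquiv.toLinearMap_injective
    rw [hρ, hc, hc1, sc_coe]
    rfl
  refine ⟨ρ, ⟨hneg, ?_⟩, hρ⟩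
  -- the order
  have hχ : IsIrrCharacter E r.character := ⟨n, r, hr, rfl⟩
  have h1 := classInner_irr_self hχ
  rw [classInner_def] at h1
  have hval : ∀ x : E, r.character x =
      if x = 1 then (n : ℂ) else if x = z then -(n : ℂ) else 0 := by
    intro x
    split_ifs with a1 a2
    · rw [a1, Representation.char_one]; simp
    · rw [a2]
      show LinearMap.trace ℂ _ (r z) = _
      rw [hc, hc1, map_smul]
      simp
    · have := trace_zero_of_neg hE hneg a1 a2
      rw [hρ] at this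
      exact this
  have h2 : ∑ g : E, r.character g * conj (r.character g) = 2 * (n : ℂ) ^ 2 := by
    have h2 : ∀ g : E, r.character g * conj (r.character g) =
        (if g = 1 then (n : ℂ) ^ 2 else 0) + (if g = z then (n : ℂ) ^ 2 else 0) := by
      intro g
      rw [hval]
      by_cases h3 : g = 1
      · have h4 : g ≠ z := by rw [h3]; exact fun h5 => hE.ne h5.symm
        rw [if_pos h3, if_pos h3, if_neg h4]
        simp [sq]
      · by_cases h4 : g = z
        · rw [if_neg h3, if_pos h4, if_neg h3, if_pos h4]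
          simp [sq]
        · rw [if_neg h3, if_neg h4, if_neg h3, if_neg h4]
          simp
    rw [Finset.sum_congr rfl fun g _ => h2 g, Finset.sum_add_distrib]
    simp
    ring
  rw [h2] at h1
  have h3 : (Nat.card E : ℂ) ≠ 0 := Nat.cast_ne_zero.2 Nat.card_pos.ne'
  have h4 : (Nat.card E : ℂ) = 2 * (n : ℂ) ^ 2 := by
    field_simp at h1
    linear_combination -h1
  rw [Module.finrank_fin_fun]
  exact_mod_cast h4

theorem exists_spin (hE : CT E z) : ∃ (n : ℕ) (ρ : E →* ((Fin n → ℂ) ≃ₗ[ℂ] (Fin n → ℂ))),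
    Spin z ρ := by
  obtain ⟨n, r, hr, hz⟩ := S0184.exists_irreducible_ne_one z hE.ne
  obtain ⟨ρ, hρ, -⟩ := spin_of_irr hE r hr hz
  exact ⟨n, ρ, hρ⟩

end spin

/-! ### Restriction of automorphisms -/

section res

variable {E : Type*} [Group E] {Y : Type*} [Group Y]

/-- Restriction of an action to an invariant subgroup. -/
def resAut (φ : Y →* MulAut E) (F : Subgroup E) (hF : ∀ y, ∀ e ∈ F, φ y e ∈ F) :
    Y →* MulAut F where
  toFun y :=
    { toFun := fun e => ⟨φ y e, hF y e e.2⟩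
      invFun := fun e => ⟨φ y⁻¹ e, hF y⁻¹ e e.2⟩
      left_inv := fun e => by
        apply Subtype.ext
        show φ y⁻¹ (φ y e) = e
        rw [map_inv, MulAut.inv_apply_self]
      right_inv := fun e => by
        apply Subtype.ext
        show φ y (φ y⁻¹ e) = e
        rw [map_inv, MulAut.apply_inv_self]
      map_mul' := fun a b => by
        apply Subtype.ext
        show φ y (a * b) = φ y a * φ y b
        rw [map_mul] }
  map_one' := by
    ext e
    show φ 1 e = e
    rw [map_one, MulAut.one_apply]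
  map_mul' := fun a b => by
    ext e
    show φ (a * b) e = φ a (φ b e)
    rw [map_mul, MulAut.mul_apply]

theorem resAut_coe (φ : Y →* MulAut E) (F : Subgroup E) (hF : ∀ y, ∀ e ∈ F, φ y e ∈ F) (y : Y)
    (e : F) : ((resAut φ F hF y e : F) : E) = φ y e := rfl

/-- From a lift on the group `F` to lift data. -/
theorem HL.of_hasLift [Finite E] {z : E} {F : Subgroup E} (hz : z ∈ F) {φ : Y →* MulAut E}
    (hF : ∀ y, ∀ e ∈ F, φ y e ∈ F) {M : Type} [AddCommGroup M] [Module ℂ M]
    [FiniteDimensional ℂ M] {ρ : F →* (M ≃ₗ[ℂ] M)} (h : Spin (⟨z, hz⟩ : F) ρ)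
    (hl : HasLift (resAut φ F hF) ρ) : HL z F φ := by
  classical
  obtain ⟨L, hL⟩ := hl
  refine ⟨M, inferInstance, inferInstance, inferInstance,
    fun e => if he : e ∈ F then ρ ⟨e, he⟩ else 1, L, ?_, hz, ?_, h.card, ?_⟩
  · intro a ha b hb
    rw [dif_pos (F.mul_mem ha hb), dif_pos ha, dif_pos hb, ← map_mul]
    rfl
  · rw [dif_pos hz]; exact h.neg
  · intro y e he he'
    rw [dif_pos he, dif_pos he']
    exact hL y ⟨e, he⟩

end res

end Cfsg.Agent.H668.DadeF
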