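import Mathlib
import Cfsg.Agent.H668.DadeF

/-!
# Lifts in the presence of an elementary abelian group without fixed points, continued
-/

set_option autoImplicit false
set_option linter.unusedSectionVars false
set_option linter.style.haveILetI false
open scoped Pointwise ComplexConjugate
open Cfsg Module

namespace Cfsg.Agent.H668.DadeG

open Cfsg.Agent.Lib.CoprimeHyperplane
open Cfsg.Agent.H668.DadeA Cfsg.Agent.H668.DadeB Cfsg.Agent.H668.DadeC Cfsg.Agent.H668.DadeD
  Cfsg.Agent.H668.DadeE Cfsg.Agent.H668.DadeF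

variable {E : Type*} [Group E] [Finite E] {z : E}

theorem CT.sq_mem (hE : CT E z) (x : E) : x * x = 1 ∨ x * x = z := by
  apply hE.cen
  intro y
  rcases hE.comm x y with h | h
  · rw [mul_assoc, h, ← mul_assoc, h, mul_assoc]
  · have h1 : x * (x * y) = z * (z * (y * x * x)) := by
      rw [h, ← mul_assoc x, hE.zcomm, mul_assoc z, ← mul_assoc x, h]
      group
    rw [mul_assoc, h1, ← mul_assoc, hE.sq, one_mul, mul_assoc]

theorem CT.isPGroup (hE : CT E z) : IsPGroup 2 E := by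
  intro x
  refine ⟨2, ?_⟩
  have h1 : x ^ 2 ^ 2 = (x * x) * (x * x) := by
    rw [← pow_two, ← pow_two, ← pow_mul]
    norm_num
  rw [h1]
  rcases CT.sq_mem hE x with h | h
  · rw [h, one_mul]
  · rw [h, hE.sq]

/-- An automorphism of odd order. -/
theorem odd_fix (hE : CT E z) {x : MulAut E} {n : ℕ} (hn : Odd n) (hx : x ^ n = 1) {e : E}
    (h : x e = e ∨ x e = z * e) : x e = e := by
  rcases h with h | h
  · exact h
  · exfalso
    have h1 : ∀ m : ℕ, (x ^ m) e = z ^ m * e := by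
      intro m
      induction m with
      | zero => simp
      | succ m ih =>
        rw [pow_succ', MulAut.mul_apply, ih, map_mul, map_pow, hE.map_z, h, ← mul_assoc, pow_succ]
    have h2 := h1 n
    rw [hx, MulAut.one_apply] at h2
    obtain ⟨k, hk⟩ := hn
    rw [hk, pow_succ, pow_mul, pow_two, hE.sq, one_pow, one_mul] at h2
    exact hE.ne (right_eq_mul.1 h2)

/-- The fixed points of `B`. -/
def Fx (B : Subgroup (MulAut E)) : Subgroup E where
  carrier := {e | ∀ b ∈ B, b e = e}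
  one_mem' := fun b _ => map_one _
  mul_mem' := fun {x y} hx hy b hb => by rw [map_mul, hx b hb, hy b hb]
  inv_mem' := fun {x} hx b hb => by rw [map_inv, hx b hb]

theorem mem_Fx {B : Subgroup (MulAut E)} {e : E} : e ∈ Fx B ↔ ∀ b ∈ B, b e = e := Iff.rfl

theorem z_mem_Fx (hE : CT E z) (B : Subgroup (MulAut E)) : z ∈ Fx B := fun b _ => hE.map_z b

/-- The hypotheses of the elementary abelian case. -/
structure EA (z : E) (Q : Subgroup (MulAut E)) (q : ℕ) : Prop where
  ct : CT E z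
  prime : q.Prime
  odd : Odd q
  comm : ∀ a ∈ Q, ∀ b ∈ Q, a * b = b * a
  pow : ∀ a ∈ Q, a ^ q = 1
  fix : ∀ e ∈ Fx Q, e = 1 ∨ e = z

variable {Q : Subgroup (MulAut E)} {q : ℕ}

theorem EA.not_dvd (h : EA z Q q) (N : Subgroup E) : ¬ q ∣ Nat.card N := by
  obtain ⟨n, hn⟩ := (IsPGroup.iff_card.1 ((CT.isPGroup h.ct).to_subgroup N))
  rw [hn]
  intro hh
  have h1 := h.prime.dvd_of_dvd_pow hh
  have h2 := (Nat.prime_dvd_prime_iff_eq h.prime Nat.prime_two).1 h1
  have := h.odd
  rw [h2] at this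
  exact absurd this (by decide)

theorem Fx_inv (h : EA z Q q) {B : Subgroup (MulAut E)} (hB : B ≤ Q) :
    ∀ k : Q, ∀ e ∈ Fx B, Q.subtype k e ∈ Fx B := by
  intro k e he b hb
  show b ((k : MulAut E) e) = (k : MulAut E) e
  rw [← MulAut.mul_apply, h.comm b (hB hb) k k.2, MulAut.mul_apply, he b hb]

theorem sup_eq (h : EA z Q q) {B : Subgroup (MulAut E)} (hB : B ≤ Q) (hBi : B.relIndex Q = q)
    {K : Subgroup (MulAut E)} (hK : K ≤ Q) (hKB : ¬ K ≤ B) : B ⊔ K = Q := by
  apply le_antisymm (sup_le hB hK)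
  have h1 := Subgroup.relIndex_mul_relIndex B (B ⊔ K) Q le_sup_left (sup_le hB hK)
  rw [hBi] at h1
  have h2 : B.relIndex (B ⊔ K) ≠ 1 := by
    intro hh
    rw [Subgroup.relIndex_eq_one] at hh
    exact hKB (le_sup_right.trans hh)
  rcases (Nat.dvd_prime h.prime).1 (Dvd.intro _ h1) with h3 | h3
  · exact absurd h3 h2
  · rw [h3] at h1
    have h4 : (B ⊔ K).relIndex Q = 1 := by
      have := h.prime.pos
      exact Nat.eq_of_mul_eq_mul_left this (by rw [h1, mul_one])
    exact Subgroup.relIndex_eq_one.1 h4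

theorem Fx_sup {B K : Subgroup (MulAut E)} {e : E} (h1 : e ∈ Fx B) (h2 : e ∈ Fx K) :
    e ∈ Fx (B ⊔ K) := by
  have h3 : B ⊔ K ≤ MulAction.stabilizer (MulAut E) e := by
    apply sup_le
    · exact fun b hb => h1 b hb
    · exact fun b hb => h2 b hb
  exact fun b hb => h3 hb

/-- Different hyperplanes have commuting fixed points. -/
theorem comm_Fx (h : EA z Q q) {B B' : Subgroup (MulAut E)} (hB : B ≤ Q) (hBi : B.relIndex Q = q)
    (hB' : B' ≤ Q) (hBi' : B'.relIndex Q = q) (hne : B ≠ B') :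
    ∀ a ∈ Fx B, ∀ b ∈ Fx B', a * b = b * a := by
  haveI : Fact q.Prime := ⟨h.prime⟩
  letI : CommGroup Q := { (inferInstance : Group Q) with
    mul_comm := fun a b => Subtype.ext (h.comm a a.2 b b.2) }
  have hle : ¬ B' ≤ B := by
    intro hh
    apply hne
    have h1 := Subgroup.relIndex_mul_relIndex B' B Q hh hB
    rw [hBi, hBi'] at h1
    have h2 : B'.relIndex B = 1 := Nat.eq_of_mul_eq_mul_right h.prime.pos (by rw [h1, one_mul])
    exact le_antisymm (Subgroup.relIndex_eq_one.1 h2) hh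
  have hsup : B ⊔ B' = Q := sup_eq h hB hBi hB' hle
  intro a ha b hb
  -- the centralizer
  set N : Subgroup E := Fx B ⊓ Subgroup.centralizer (Fx B' : Set E) with hN
  have hpg : IsPGroup q (B'.subgroupOf Q) := by
    intro x
    refine ⟨1, ?_⟩
    rw [pow_one]
    apply Subtype.ext
    apply Subtype.ext
    exact h.pow _ x.1.2
  have hcl : ∀ {a a' c ε : E}, a * c = ε * (c * a) → a' * c = ε * (c * a') →
      c * (a⁻¹ * a') = a⁻¹ * a' * c := by
    intro a a' c ε h1 h2
    have h3 : ε * c = a * c * a⁻¹ := by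
      rw [eq_mul_inv_iff_mul_eq, mul_assoc, h1]
    rw [mul_assoc a⁻¹, h2, ← mul_assoc ε, h3]
    group
  obtain ⟨y, hy, hay⟩ := exists_fixed_in_coset (A := Q) (R := E) Q.subtype hpg (N := N)
    (h.not_dvd N) (by
      intro k hk x hx
      obtain ⟨hx1, hx2⟩ := Subgroup.mem_inf.1 hx
      refine Subgroup.mem_inf.2 ⟨Fx_inv h hB k x hx1, ?_⟩
      rw [Subgroup.mem_centralizer_iff]
      intro c hc
      have h3 : (k : MulAut E)⁻¹ c ∈ Fx B' := Fx_inv h hB' k⁻¹ c hc
      have h4 := Subgroup.mem_centralizer_iff.1 hx2 _ h3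
      have h5 := congrArg (k : MulAut E) h4
      rw [map_mul, map_mul, MulAut.apply_inv_self] at h5
      exact h5) a (by
      intro k hk
      have hk' : (k : MulAut E) ∈ B' := hk
      refine Subgroup.mem_inf.2 ⟨(Fx B).mul_mem ((Fx B).inv_mem ha) (Fx_inv h hB k a ha), ?_⟩
      rw [Subgroup.mem_centralizer_iff]
      intro c hc
      have hkc : (k : MulAut E) c = c := hc k hk'
      show c * (a⁻¹ * (k : MulAut E) a) = a⁻¹ * (k : MulAut E) a * c
      rcases h.ct.comm a c with h6 | h6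
      · have h7 := congrArg (k : MulAut E) h6
        rw [map_mul, map_mul, hkc] at h7
        exact hcl (ε := 1) (by rw [one_mul]; exact h6) (by rw [one_mul]; exact h7)
      · have h7 := congrArg (k : MulAut E) h6
        rw [map_mul, map_mul, map_mul, hkc, h.ct.map_z] at h7
        exact hcl h6 h7)
  obtain ⟨h1, h2⟩ := Subgroup.mem_inf.1 hay
  have h3 : y ∈ Fx B := by
    have := (Fx B).mul_mem ha h1
    rwa [mul_inv_cancel_left] at this
  have h4 : y ∈ Fx B' := fun k hk => hy ⟨k, hB' hk⟩ hk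
  have h5 : y = 1 ∨ y = z := h.fix y (by rw [← hsup]; exact Fx_sup h3 h4)
  have h6 : b * (a⁻¹ * y) = a⁻¹ * y * b := Subgroup.mem_centralizer_iff.1 h2 b hb
  have h7 : y * b = b * y := by
    rcases h5 with rfl | rfl
    · rw [one_mul, mul_one]
    · rw [h.ct.zcomm]
  have h8 : b * a⁻¹ = a⁻¹ * b := by
    have h9 : b * a⁻¹ * y = a⁻¹ * b * y := by
      rw [mul_assoc, h6, mul_assoc, h7, ← mul_assoc]
    exact mul_right_cancel h9
  rw [eq_inv_mul_iff_mul_eq, ← mul_assoc, mul_inv_eq_iff_eq_mul] at h8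
  exact h8

theorem EA.iSup_Fx (h : EA z Q q) (hQ : Q ≠ ⊥) {K : Subgroup E}
    (hK : ∀ B : Subgroup (MulAut E), B ≤ Q → B.relIndex Q = q → Fx B ≤ K) : K = ⊤ := by
  haveI : Fact q.Prime := ⟨h.prime⟩
  letI : CommGroup Q := { (inferInstance : Group Q) with
    mul_comm := fun a b => Subtype.ext (h.comm a a.2 b b.2) }
  haveI : Nontrivial Q := (Subgroup.nontrivial_iff_ne_bot Q).2 hQ
  haveI : Finite (MulAut E) := Finite.of_injective (fun f : MulAut E => (f : E → E))
    DFunLike.coe_injective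
  have h1 := iSup_fix_eq_top_of_isPGroup (A := Q) (R := E) Q.subtype (p := q) (q := 2) (by
    rintro rfl
    exact absurd h.odd (by decide)) (fun a => Subtype.ext (h.pow a a.2)) (CT.isPGroup h.ct)
  rw [eq_top_iff, ← h1]
  apply iSup_le
  rintro ⟨B, hB⟩
  have h2 : B.map Q.subtype ≤ Q := Subgroup.map_subtype_le B
  have h3 : (B.map Q.subtype).relIndex Q = q := by
    rw [← hB, Subgroup.relIndex, Subgroup.subgroupOf, Subgroup.comap_map_eq_self_of_injective
      (Subgroup.subtype_injective Q)]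
  refine le_trans ?_ (hK _ h2 h3)
  intro e he
  rintro _ ⟨b, hb, rfl⟩
  exact he b hb

theorem CT.sub {F : Subgroup E} (hE : CT E z) (hz : z ∈ F)
    (hc : ∀ x ∈ F, (∀ y ∈ F, x * y = y * x) → x = 1 ∨ x = z) : CT F ⟨z, hz⟩ where
  ne := fun hh => hE.ne (congrArg Subtype.val hh)
  sq := Subtype.ext hE.sq
  comm := fun x y => (hE.comm x y).imp (fun hh => Subtype.ext hh) (fun hh => Subtype.ext hh)
  zcomm := fun x => Subtype.ext (hE.zcomm x)
  cen := fun x hx => (hc x x.2 (fun y hy => congrArg Subtype.val (hx ⟨y, hy⟩))).imp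
    (fun hh => Subtype.ext hh) (fun hh => Subtype.ext hh)

/-- The lift on one block. -/
theorem EA.block (h : EA z Q q) {B : Subgroup (MulAut E)} (hB : B ≤ Q) (hBi : B.relIndex Q = q)
    (htop : ∀ x ∈ Fx B, (∀ y ∈ Fx B, x * y = y * x) → x = 1 ∨ x = z)
    {Y : Type*} [Group Y] [Finite Y] (hY : IsPGroup 2 Y) (φ : Y →* MulAut E)
    (hφ : ∀ y, ∀ k ∈ Q, φ y * k * (φ y)⁻¹ ∈ Q) (hF : ∀ y, ∀ e ∈ Fx B, φ y e ∈ Fx B) :
    HL z (Fx B) φ := by
  classical
  haveI : Fact q.Prime := ⟨h.prime⟩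
  haveI : Finite (MulAut E) := Finite.of_injective (fun f : MulAut E => (f : E → E))
    DFunLike.coe_injective
  have hct : CT (Fx B) ⟨z, z_mem_Fx h.ct B⟩ := CT.sub h.ct _ htop
  obtain ⟨n, ρ, hρ⟩ := exists_spin hct
  obtain ⟨x, hxQ, hxB⟩ : ∃ x ∈ Q, x ∉ B := by
    by_contra hcon
    push Not at hcon
    have h1 : Q ≤ B := hcon
    rw [Subgroup.relIndex_eq_one.2 h1] at hBi
    exact h.prime.one_lt.ne hBi
  have hsup : B ⊔ Subgroup.zpowers x = Q :=
    sup_eq h hB hBi (Subgroup.zpowers_le.2 hxQ) (fun hh => hxB (hh (Subgroup.mem_zpowers x)))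
  have hcop : (Nat.card Y).Coprime q := by
    obtain ⟨m, hm⟩ := IsPGroup.iff_card.1 hY
    rw [hm]
    exact (Nat.coprime_two_left.2 h.odd).pow_left m
  apply HL.of_hasLift (z_mem_Fx h.ct B) hF hρ
  refine base hct hρ (x := resAut Q.subtype (Fx B) (Fx_inv h hB) ⟨x, hxQ⟩) ?_ ?_ hcop _ ?_
  · rw [← map_pow]
    have : (⟨x, hxQ⟩ : Q) ^ q = 1 := Subtype.ext (h.pow x hxQ)
    rw [this, map_one]
  · intro e he
    have h1 : x (e : E) = e := odd_fix h.ct h.odd (h.pow x hxQ)
      (he.imp (fun hh => congrArg Subtype.val hh) (fun hh => congrArg Subtype.val hh))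
    have h2 : (e : E) ∈ Fx (Subgroup.zpowers x) := by
      have h3 : Subgroup.zpowers x ≤ MulAction.stabilizer (MulAut E) (e : E) :=
        Subgroup.zpowers_le.2 h1
      exact fun b hb => h3 hb
    have h4 := h.fix (e : E) (by rw [← hsup]; exact Fx_sup e.2 h2)
    exact h4.imp (fun hh => Subtype.ext hh) (fun hh => Subtype.ext hh)
  · intro s
    have h1 : φ s * x * (φ s)⁻¹ ∈ B ⊔ Subgroup.zpowers x := by
      rw [hsup]; exact hφ s x hxQ
    obtain ⟨b, hb, y, hy, hg⟩ := (mem_sup_of_comm (F₁ := B) (F₂ := Subgroup.zpowers x)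
      (fun a ha c hc => h.comm a (hB ha) c
        ((Subgroup.zpowers_le.2 hxQ : Subgroup.zpowers x ≤ Q) hc))).1 h1
    have hfin : IsOfFinOrder x := isOfFinOrder_of_finite x
    obtain ⟨k, hk⟩ := hfin.mem_powers_iff_mem_zpowers.2 hy
    have hk' : x ^ k = y := hk
    refine ⟨k, ?_⟩
    apply MulEquiv.ext
    intro e
    apply Subtype.ext
    rw [← map_inv, ← map_pow]
    show φ s (x (φ s⁻¹ (e : E))) = (x ^ k) (e : E)
    have h2 : φ s (x (φ s⁻¹ (e : E))) = (φ s * x * (φ s)⁻¹) (e : E) := by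
      rw [map_inv]; rfl
    rw [h2, hg, ← hk', MulAut.mul_apply]
    exact Fx_inv h hB ⟨x ^ k, Q.pow_mem hxQ k⟩ e e.2 b hb

/-- **The elementary abelian case.** -/
theorem EA.main (h : EA z Q q) {Y : Type*} [Group Y] [Finite Y] (hY : IsPGroup 2 Y)
    (φ : Y →* MulAut E) (hφ : ∀ y, ∀ k ∈ Q, φ y * k * (φ y)⁻¹ ∈ Q) : HL z ⊤ φ := by
  classical
  haveI : Finite (MulAut E) := Finite.of_injective (fun f : MulAut E => (f : E → E))
    DFunLike.coe_injective
  by_cases hQ : Q = ⊥
  · have h1 : (⊤ : Subgroup E) = Subgroup.zpowers z := by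
      symm
      rw [eq_top_iff]
      intro e _
      rw [mem_zpowers_z h.ct]
      apply h.fix
      intro b hb
      rw [hQ, Subgroup.mem_bot] at hb
      rw [hb]; rfl
    rw [h1]
    exact HL.zpow h.ct
  letI act : MulAction Y (Subgroup (MulAut E)) :=
    MulAction.compHom (Subgroup (MulAut E)) ((MulAut.conj : MulAut E →* MulAut (MulAut E)).comp φ)
  have hsm : ∀ (y : Y) (B : Subgroup (MulAut E)), y • B = MulAut.conj (φ y) • B := fun _ _ => rfl
  have hmem : ∀ (y : Y) (B : Subgroup (MulAut E)) (b : MulAut E),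
      b ∈ y • B ↔ (φ y)⁻¹ * b * φ y ∈ B := by
    intro y B b
    rw [hsm, Subgroup.mem_pointwise_smul_iff_inv_smul_mem]
    have : (MulAut.conj (φ y))⁻¹ • b = (φ y)⁻¹ * b * φ y := by
      rw [← map_inv, MulAut.smul_def, MulAut.conj_apply, inv_inv]
    rw [this]
  have hQinv : ∀ y : Y, y • Q = Q := by
    intro y
    ext b
    rw [hmem]
    constructor
    · intro hb
      have := hφ y _ hb
      have h2 : φ y * ((φ y)⁻¹ * b * φ y) * (φ y)⁻¹ = b := by group
      rwa [h2] at this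
    · intro hb
      have := hφ y⁻¹ _ hb
      rw [map_inv, inv_inv] at this
      exact this
  set T₀ : Set (Subgroup (MulAut E)) := {B | B ≤ Q ∧ B.relIndex Q = q} with hT₀
  have hT₀inv : ∀ (y : Y), ∀ B ∈ T₀, y • B ∈ T₀ := by
    rintro y B ⟨hB, hBi⟩
    constructor
    · rw [← hQinv y]
      intro b hb
      rw [hmem] at hb ⊢
      exact hB hb
    · have h1 := Subgroup.relIndex_pointwise_smul (MulAut.conj (φ y)) B Q
      rw [← hsm, ← hsm, hQinv, hBi] at h1
      exact h1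
  have hactF : ∀ (y : Y) (B : Subgroup (MulAut E)), ∀ a ∈ Fx B, φ y a ∈ Fx (y • B) := by
    intro y B a ha b hb
    rw [hmem] at hb
    have h1 := ha _ hb
    rw [MulAut.mul_apply, MulAut.mul_apply] at h1
    have h2 := congrArg (φ y) h1
    rwa [MulAut.apply_inv_self] at h2
  have htop : ∀ e : E, (∀ B ∈ T₀, ∀ a ∈ Fx B, a * e = e * a) → e = 1 ∨ e = z := by
    intro e he
    apply h.ct.cen
    have h1 : Subgroup.centralizer ({e} : Set E) = ⊤ := by
      apply h.iSup_Fx hQ
      intro B hB hBi a ha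
      rw [Subgroup.mem_centralizer_singleton_iff]
      exact he B ⟨hB, hBi⟩ a ha
    intro y
    have h2 : y ∈ Subgroup.centralizer ({e} : Set E) := by rw [h1]; trivial
    exact (Subgroup.mem_centralizer_singleton_iff.1 h2).symm
  have hbl : Blocks z φ T₀ (fun B => Fx B) := by
    refine ⟨h.ct, fun B _ => z_mem_Fx h.ct B, ?_, fun y B _ => hactF y B, htop, ?_⟩
    · rintro B ⟨hB, hBi⟩ B' ⟨hB', hBi'⟩ hne
      exact comm_Fx h hB hBi hB' hBi' hne
    · rintro B ⟨hB, hBi⟩ S' hS'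
      apply h.block hB hBi ?_ (hY.to_subgroup S') (φ.comp S'.subtype)
      · intro y; exact hφ y
      · intro y e he
        have h1 := hactF y B e he
        rwa [hS' y y.2] at h1
      · intro x hx hxc
        apply htop
        rintro B' ⟨hB', hBi'⟩ a ha
        by_cases hne : B = B'
        · subst hne; exact (hxc a ha).symm
        · exact (comm_Fx h hB hBi hB' hBi' hne x hx a ha).symm
  have h1 := hbl.main hY _ T₀ le_rfl rfl ⊤ (fun s _ B hB => hT₀inv s B hB)
  have h2 : FT z (fun B : Subgroup (MulAut E) => Fx B) T₀ = ⊤ := by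
    apply h.iSup_Fx hQ
    intro B hB hBi
    exact le_FT (F := fun B : Subgroup (MulAut E) => Fx B) (show B ∈ T₀ from ⟨hB, hBi⟩)
  rw [h2] at h1
  exact HL.comp h1 ((MonoidHom.id Y).codRestrict ⊤ (fun _ => trivial))

end Cfsg.Agent.H668.DadeG
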