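import Mathlib
import Cfsg.Agent.H668.DadeG

/-!
# Lifts in the presence of a solvable group of odd order without fixed points
-/

set_option autoImplicit false
set_option linter.unusedSectionVars false
set_option linter.style.haveILetI false
open scoped Pointwise ComplexConjugate commutatorElement
open Cfsg Module

namespace Cfsg.Agent.H668.DadeH

open Cfsg.Agent.Lib.CoprimeHyperplane
open Cfsg.Agent.H668.DadeA Cfsg.Agent.H668.DadeB Cfsg.Agent.H668.DadeC Cfsg.Agent.H668.DadeD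
  Cfsg.Agent.H668.DadeE Cfsg.Agent.H668.DadeF Cfsg.Agent.H668.DadeG

/-- A nontrivial solvable subgroup has a nontrivial abelian subgroup of prime exponent which is
normalized by everything normalizing it. -/
theorem exists_elemAb {G : Type*} [Group G] [Finite G] {K : Subgroup G} (hK : K ≠ ⊥)
    (hs : Group.IsSolvable K) : ∃ (q : ℕ) (Q : Subgroup G), q.Prime ∧ Q ≤ K ∧ Q ≠ ⊥ ∧
      (∀ a ∈ Q, ∀ b ∈ Q, a * b = b * a) ∧ (∀ a ∈ Q, a ^ q = 1) ∧
      ∀ g : G, (∀ k ∈ K, g * k * g⁻¹ ∈ K) → ∀ k ∈ Q, g * k * g⁻¹ ∈ Q := by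
  classical
  have hex := hs.solvable
  set n := Nat.find hex with hn
  have hn1 : derivedSeries K n = ⊥ := Nat.find_spec hex
  have hn0 : n ≠ 0 := by
    intro h0
    rw [h0, derivedSeries_zero] at hn1
    apply hK
    rw [Subgroup.eq_bot_iff_forall]
    intro x hx
    have : (⟨x, hx⟩ : K) ∈ (⊥ : Subgroup K) := by rw [← hn1]; trivial
    exact congrArg Subtype.val (Subgroup.mem_bot.1 this)
  obtain ⟨m, hm⟩ := Nat.exists_eq_succ_of_ne_zero hn0
  have hm1 : derivedSeries K m ≠ ⊥ := Nat.find_min hex (by omega)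
  set A : Subgroup K := derivedSeries K m with hA
  have hcomm : ∀ a ∈ A, ∀ b ∈ A, a * b = b * a := by
    intro a ha b hb
    have h1 : ⁅A, A⁆ = ⊥ := by rw [← hn1, hm]; rfl
    have h2 : ⁅a, b⁆ ∈ ⁅A, A⁆ := Subgroup.commutator_mem_commutator ha hb
    rw [h1, Subgroup.mem_bot, commutatorElement_eq_one_iff_mul_comm] at h2
    exact h2
  obtain ⟨q, hq, hqd⟩ := Nat.exists_prime_and_dvd (n := Nat.card A) (by
    intro h1
    exact hm1 (Subgroup.card_eq_one.1 h1))
  haveI : Fact q.Prime := ⟨hq⟩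
  obtain ⟨x, hx⟩ := exists_prime_orderOf_dvd_card' q hqd
  let Q0 : Subgroup K :=
    { carrier := {a | a ∈ A ∧ a ^ q = 1}
      one_mem' := ⟨A.one_mem, one_pow _⟩
      mul_mem' := by
        rintro a b ⟨ha, ha'⟩ ⟨hb, hb'⟩
        refine ⟨A.mul_mem ha hb, ?_⟩
        rw [(show Commute a b from hcomm a ha b hb).mul_pow, ha', hb', one_mul]
      inv_mem' := by
        rintro a ⟨ha, ha'⟩
        refine ⟨A.inv_mem ha, ?_⟩
        rw [inv_pow, ha', inv_one] }
  have hQ0 : ∀ a, a ∈ Q0 ↔ a ∈ A ∧ a ^ q = 1 := fun _ => Iff.rfl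
  refine ⟨q, Q0.map K.subtype, hq, Subgroup.map_subtype_le _, ?_, ?_, ?_, ?_⟩
  · intro hh
    have h1 : Q0 = ⊥ := (Subgroup.map_eq_bot_iff_of_injective _ K.subtype_injective).1 hh
    have h2 : (x : K) ∈ Q0 := by
      rw [hQ0]
      refine ⟨x.2, ?_⟩
      have : x ^ q = 1 := by rw [← hx, pow_orderOf_eq_one]
      exact congrArg Subtype.val this
    rw [h1, Subgroup.mem_bot] at h2
    have h3 : x = 1 := Subtype.ext h2
    rw [h3, orderOf_one] at hx
    exact hq.one_lt.ne hx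
  · rintro _ ⟨a, ha, rfl⟩ _ ⟨b, hb, rfl⟩
    exact congrArg Subtype.val (hcomm a ha.1 b hb.1)
  · rintro _ ⟨a, ha, rfl⟩
    exact congrArg Subtype.val ha.2
  · rintro g hg _ ⟨a, ha, rfl⟩
    let c : K →* K :=
      { toFun := fun k => ⟨g * k * g⁻¹, hg k k.2⟩
        map_one' := by apply Subtype.ext; simp
        map_mul' := fun a b => by
          apply Subtype.ext
          show g * (a * b) * g⁻¹ = (g * a * g⁻¹) * (g * b * g⁻¹)
          group }
    refine ⟨c a, ⟨?_, ?_⟩, rfl⟩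
    · exact map_derivedSeries_le_derivedSeries c m ⟨a, ha.1, rfl⟩
    · rw [← map_pow, ha.2, map_one]

/-- Transfer of lift data from the whole group. -/
theorem HL.of_top {E : Type*} [Group E] [Finite E] {z : E} {F : Subgroup E} (hz : z ∈ F)
    {Y : Type*} [Group Y] {φ : Y →* MulAut E} (hF : ∀ y, ∀ e ∈ F, φ y e ∈ F)
    (h : HL (⟨z, hz⟩ : F) ⊤ (resAut φ F hF)) : HL z F φ := by
  classical
  obtain ⟨M, i1, i2, i3, r, L, H⟩ := h
  refine ⟨M, i1, i2, i3, fun e => if he : e ∈ F then r ⟨e, he⟩ else 1, L, ?_, hz, ?_, ?_, ?_⟩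
  · intro a ha b hb
    rw [dif_pos (F.mul_mem ha hb), dif_pos ha, dif_pos hb]
    exact H.mul ⟨a, ha⟩ trivial ⟨b, hb⟩ trivial
  · rw [dif_pos hz]; exact H.neg
  · rw [← H.card, Subgroup.card_top]
  · intro y e he he'
    rw [dif_pos he, dif_pos he']
    exact H.imp y ⟨e, he⟩ trivial trivial

theorem commute_lem {E : Type*} [Group E] {a a' c ε : E} (h1 : a * c = ε * (c * a))
    (h2 : a' * c = ε * (c * a')) : c * (a⁻¹ * a') = a⁻¹ * a' * c := by
  have h3 : ε * c = a * c * a⁻¹ := by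
    rw [eq_mul_inv_iff_mul_eq, mul_assoc, h1]
  rw [mul_assoc a⁻¹, h2, ← mul_assoc ε, h3]
  group

theorem Fx_map {E : Type*} [Group E] [Finite E] {Q : Subgroup (MulAut E)} {g : MulAut E}
    (hg : ∀ k ∈ Q, g⁻¹ * k * g ∈ Q) : ∀ e ∈ Fx Q, g e ∈ Fx Q := by
  intro e he k hk
  have h1 := he _ (hg k hk)
  rw [MulAut.mul_apply, MulAut.mul_apply] at h1
  have h2 := congrArg g h1
  rwa [MulAut.apply_inv_self] at h2

universe u v

theorem main : ∀ n : ℕ, ∀ (E : Type u) [Group E] [Finite E] (z : E), CT E z → Nat.card E = n →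
    ∀ K : Subgroup (MulAut E), Odd (Nat.card K) → Group.IsSolvable K →
    (∀ e ∈ Fx K, e = 1 ∨ e = z) → ∀ (Y : Type v) [Group Y] [Finite Y], IsPGroup 2 Y →
    ∀ φ : Y →* MulAut E, (∀ y, ∀ k ∈ K, φ y * k * (φ y)⁻¹ ∈ K) → HL z ⊤ φ := by
  intro n
  induction n using Nat.strong_induction_on with
  | _ n ih =>
    intro E _ _ z hE hn K hKo hKs hKf Y _ _ hY φ hφ
    classical
    haveI : Finite (MulAut E) := Finite.of_injective (fun f : MulAut E => (f : E → E))
      DFunLike.coe_injective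
    by_cases hK : K = ⊥
    · have h1 : (⊤ : Subgroup E) = Subgroup.zpowers z := by
        symm
        rw [eq_top_iff]
        intro e _
        rw [mem_zpowers_z hE]
        apply hKf
        intro b hb
        rw [hK, Subgroup.mem_bot] at hb
        rw [hb]; rfl
      rw [h1]
      exact HL.zpow hE
    obtain ⟨q, Q, hq, hQK, hQ1, hQc, hQp, hQn⟩ := exists_elemAb hK hKs
    haveI : Fact q.Prime := ⟨hq⟩
    have hqodd : Odd q := by
      apply hq.odd_of_ne_two
      rintro rfl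
      obtain ⟨x, hxQ, hx1⟩ := (Subgroup.ne_bot_iff_exists_ne_one).1 hQ1 |>.elim
        (fun x hx => (⟨x.1, x.2, fun h => hx (Subtype.ext h)⟩ : ∃ x ∈ Q, x ≠ 1))
      have h1 : orderOf (⟨x, hQK hxQ⟩ : K) = 2 := by
        apply orderOf_eq_prime
        · exact Subtype.ext (hQp x hxQ)
        · exact fun hh => hx1 (congrArg Subtype.val hh)
      have h2 := orderOf_dvd_natCard (⟨x, hQK hxQ⟩ : K)
      rw [h1] at h2
      exact (Nat.not_even_iff_odd.2 hKo) (even_iff_two_dvd.2 h2)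
    have hφQ : ∀ y, ∀ k ∈ Q, φ y * k * (φ y)⁻¹ ∈ Q := fun y => hQn _ (hφ y)
    have hKQ : ∀ g ∈ K, ∀ k ∈ Q, g * k * g⁻¹ ∈ Q := fun g hg => hQn g fun k hk =>
      K.mul_mem (K.mul_mem hg hk) (K.inv_mem hg)
    by_cases hfix : ∀ e ∈ Fx Q, e = 1 ∨ e = z
    · exact EA.main ⟨hE, hq, hqodd, hQc, hQp, hfix⟩ hY φ hφQ
    -- the decomposition
    set E₁ : Subgroup E := Fx Q with hE₁
    set E₂ : Subgroup E := Subgroup.centralizer (E₁ : Set E) with hE₂
    have hzz : ∀ F : Subgroup E, z ∈ Subgroup.centralizer (F : Set E) := by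
      intro F
      rw [Subgroup.mem_centralizer_iff]
      intro x _
      exact hE.zcomm x
    have hz1 : z ∈ E₁ := z_mem_Fx hE Q
    have hz2 : z ∈ E₂ := hzz _
    have hc : ∀ a ∈ E₁, ∀ b ∈ E₂, a * b = b * a := fun a ha b hb =>
      Subgroup.mem_centralizer_iff.1 hb a ha
    -- invariance under normalizers
    have hinv1 : ∀ g : MulAut E, (∀ k ∈ Q, g⁻¹ * k * g ∈ Q) → ∀ e ∈ E₁, g e ∈ E₁ :=
      fun g hg => Fx_map hg
    have hinv2 : ∀ g : MulAut E, (∀ k ∈ Q, g * k * g⁻¹ ∈ Q) → ∀ e ∈ E₂, g e ∈ E₂ := by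
      intro g hg e he
      rw [hE₂, Subgroup.mem_centralizer_iff]
      intro c hc'
      have h1 : g⁻¹ c ∈ E₁ := hinv1 g⁻¹ (by rw [inv_inv]; exact hg) c hc'
      have h2 := Subgroup.mem_centralizer_iff.1 he _ h1
      have h3 := congrArg g h2
      rw [map_mul, map_mul, MulAut.apply_inv_self] at h3
      exact h3
    have hφ1 : ∀ y, ∀ e ∈ E₁, φ y e ∈ E₁ := fun y => hinv1 _ (by
      have := hφQ y⁻¹
      rw [map_inv, inv_inv] at this
      exact this)
    have hφ2 : ∀ y, ∀ e ∈ E₂, φ y e ∈ E₂ := fun y => hinv2 _ (hφQ y)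
    have hK1 : ∀ k : K, ∀ e ∈ E₁, K.subtype k e ∈ E₁ := fun k => hinv1 _ (by
      have := hKQ _ (K.inv_mem k.2)
      rw [inv_inv] at this
      exact this)
    have hK2 : ∀ k : K, ∀ e ∈ E₂, K.subtype k e ∈ E₂ := fun k => hinv2 _ (hKQ _ k.2)
    -- `E = E₁ E₂`
    have hsup : E₁ ⊔ E₂ = ⊤ := by
      letI : CommGroup Q := { (inferInstance : Group Q) with
        mul_comm := fun a b => Subtype.ext (hQc a a.2 b b.2) }
      rw [eq_top_iff]
      intro e _
      have hpg : IsPGroup q ((⊤ : Subgroup Q)) := by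
        intro x
        refine ⟨1, ?_⟩
        rw [pow_one]
        apply Subtype.ext
        apply Subtype.ext
        exact hQp _ x.1.2
      have hnd : ¬ q ∣ Nat.card E₂ := by
        obtain ⟨m, hm⟩ := (IsPGroup.iff_card.1 ((CT.isPGroup hE).to_subgroup E₂))
        rw [hm]
        intro hh
        have h1 := hq.dvd_of_dvd_pow hh
        have h2 := (Nat.prime_dvd_prime_iff_eq hq Nat.prime_two).1 h1
        rw [h2] at hqodd
        exact absurd hqodd (by decide)
      obtain ⟨y, hy, hay⟩ := exists_fixed_in_coset (A := Q) (R := E) Q.subtype hpg (N := E₂) hnd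
        (fun k _ x hx => hK2 ⟨k, hQK k.2⟩ x hx) e (by
        intro k _
        rw [hE₂, Subgroup.mem_centralizer_iff]
        intro c hc'
        have hkc : (k : MulAut E) c = c := hc' k k.2
        show c * (e⁻¹ * (k : MulAut E) e) = e⁻¹ * (k : MulAut E) e * c
        rcases hE.comm e c with h6 | h6
        · have h7 := congrArg (k : MulAut E) h6
          rw [map_mul, map_mul, hkc] at h7
          exact commute_lem (ε := 1) (by rw [one_mul]; exact h6) (by rw [one_mul]; exact h7)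
        · have h7 := congrArg (k : MulAut E) h6
          rw [map_mul, map_mul, map_mul, hkc, hE.map_z] at h7
          exact commute_lem h6 h7)
      have hy' : y ∈ E₁ := fun k hk => hy ⟨k, hk⟩ trivial
      rw [mem_sup_of_comm hc]
      refine ⟨y, hy', (e⁻¹ * y)⁻¹, E₂.inv_mem hay, ?_⟩
      group
    have hcen : ∀ e : E, (∀ a ∈ E₁, e * a = a * e) → (∀ b ∈ E₂, e * b = b * e) →
        e = 1 ∨ e = z := by
      intro e h1 h2
      apply hE.cen
      intro y
      have hy : y ∈ E₁ ⊔ E₂ := by rw [hsup]; trivial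
      obtain ⟨a, ha, b, hb, rfl⟩ := (mem_sup_of_comm hc).1 hy
      rw [← mul_assoc, h1 a ha, mul_assoc, h2 b hb, mul_assoc]
    have hi : ∀ a ∈ E₁, a ∈ E₂ → a = 1 ∨ a = z := by
      intro a ha1 ha2
      apply hcen
      · intro b hb; exact (hc b hb a ha2).symm
      · intro b hb; exact hc a ha1 b hb
    have hne1 : E₁ ≠ ⊤ := by
      intro hh
      apply hQ1
      rw [Subgroup.eq_bot_iff_forall]
      intro k hk
      ext e
      have : e ∈ E₁ := by rw [hh]; trivial
      exact this k hk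
    have hne2 : E₂ ≠ ⊤ := by
      intro hh
      apply hfix
      intro e he
      apply hi e he
      rw [hh]; trivial
    -- induction
    have key : ∀ F : Subgroup E, F ≠ ⊤ → z ∈ F → (∀ x ∈ F, (∀ y ∈ F, x * y = y * x) → x = 1 ∨ x = z) →
        (∀ k : K, ∀ e ∈ F, K.subtype k e ∈ F) → (∀ y, ∀ e ∈ F, φ y e ∈ F) → HL z F φ := by
      intro F hFt hzF hFc hFK hFφ
      apply HL.of_top hzF hFφ
      have hlt : Nat.card F < n := by
        rw [← hn]
        exact lt_of_le_of_ne (Subgroup.card_le_card_group F)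
          (fun hh => hFt (Subgroup.eq_top_of_card_eq F hh))
      refine ih _ hlt F ⟨z, hzF⟩ (CT.sub hE hzF hFc) rfl (resAut K.subtype F hFK).range ?_ ?_ ?_ Y hY
        (resAut φ F hFφ) ?_
      · have h1 := Subgroup.card_range_dvd (resAut K.subtype F hFK)
        exact Odd.of_dvd_nat hKo h1
      · exact Group.isSolvable_of_surjective (MonoidHom.rangeRestrict_surjective _)
      · intro e he
        have h1 : (e : E) ∈ Fx K := by
          intro k hk
          have := he _ ⟨⟨k, hk⟩, rfl⟩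
          exact congrArg Subtype.val this
        exact (hKf e h1).imp (fun hh => Subtype.ext hh) (fun hh => Subtype.ext hh)
      · rintro y _ ⟨k, rfl⟩
        refine ⟨⟨φ y * k * (φ y)⁻¹, hφ y k k.2⟩, ?_⟩
        ext e
        rw [← map_inv (resAut φ F hFφ) y]
        show (φ y * k * (φ y)⁻¹) (e : E) = φ y ((k : MulAut E) (φ y⁻¹ (e : E)))
        rw [map_inv]; rfl
    have k1 := key E₁ hne1 hz1 (fun x hx hx' => hcen x hx' (fun b hb => hc x hx b hb)) hK1 hφ1
    have k2 := key E₂ hne2 hz2 (fun x hx hx' => hcen x (fun a ha => (hc a ha x hx).symm) hx') hK2 hφ2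
    have k3 := HL.sup hE.ne hc hi hφ1 hφ2 k1 k2
    rwa [hsup] at k3

end Cfsg.Agent.H668.DadeH
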