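import Mathlib
import Cfsg.Prelude.Def_Transfer
import Cfsg.Agent.H668.DadeH

/-!
# From Sylow subgroups to the whole group; assembly
-/

set_option autoImplicit false
set_option linter.unusedSectionVars false
set_option linter.style.haveILetI false
open scoped Pointwise ComplexConjugate commutatorElement
open Cfsg Module

namespace Cfsg.Agent.H668.DadeI

open Cfsg.Agent.H668.DadeA Cfsg.Agent.H668.DadeB Cfsg.Agent.H668.DadeC Cfsg.Agent.H668.DadeD
  Cfsg.Agent.H668.DadeE Cfsg.Agent.H668.DadeF Cfsg.Agent.H668.DadeG Cfsg.Agent.H668.DadeH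

section lift

variable {E : Type*} [Group E] [Finite E] {z : E} {M : Type*} [AddCommGroup M] [Module ℂ M]
  [FiniteDimensional ℂ M] {ρ : E →* (M ≃ₗ[ℂ] M)} {Y : Type*} [Group Y]

theorem hasLift_of_HL (hE : CT E z) (hρ : Spin z ρ) (φ : Y →* MulAut E) (h : HL z ⊤ φ) :
    HasLift φ ρ := by
  obtain ⟨M', i1, i2, i3, r, L, H⟩ := h
  let ρ' : E →* (M' ≃ₗ[ℂ] M') := MonoidHom.mk' r (fun a b => H.mul a trivial b trivial)
  have hρ' : Spin z ρ' := ⟨H.neg, by rw [← H.card, Subgroup.card_top]⟩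
  obtain ⟨e, he⟩ := hρ.equiv hE hρ'
  refine ⟨{ toFun := fun y => (e.trans (L y)).trans e.symm
            map_one' := by
              ext v
              show e.symm (L 1 (e v)) = v
              rw [map_one]
              exact e.symm_apply_apply v
            map_mul' := fun a b => by
              ext v
              show e.symm (L (a * b) (e v)) = e.symm (L a (e (e.symm (L b (e v)))))
              rw [map_mul, e.apply_symm_apply]; rfl }, fun y x => ?_⟩
  ext v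
  show e.symm (L y (e (ρ x v))) = ρ (φ y x) (e.symm (L y (e v)))
  rw [he, e.symm_apply_eq, he, e.apply_symm_apply]
  exact congrArg (fun B : M' ≃ₗ[ℂ] M' => B (e v)) (H.imp y x trivial trivial)

theorem hasLift_of_index (hE : CT E z) (hρ : Spin z ρ) [Finite Y] (φ : Y →* MulAut E)
    (S : Subgroup Y) (hS : Nat.Coprime S.index (finrank ℂ M))
    (h : HasLift (φ.comp S.subtype) ρ) : HasLift φ ρ := by
  classical
  haveI := nontriv hρ
  obtain ⟨L, hL⟩ := h
  let π : Gam φ ρ →* Y := (MonoidHom.fst Y (M ≃ₗ[ℂ] M)).comp (Gam φ ρ).subtype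
  have hπ : Function.Surjective π := by
    intro y
    obtain ⟨A, hA⟩ := hρ.exists_impl hE (φ y)
    exact ⟨⟨(y, A), hA⟩, rfl⟩
  let ΓS : Subgroup (Gam φ ρ) := S.comap π
  have hidx : ΓS.index = S.index := Subgroup.index_comap_of_surjective S hπ
  haveI : ΓS.FiniteIndex := ⟨by rw [hidx]; exact Subgroup.index_ne_zero_of_finite⟩
  have hc : ∀ p : ΓS, ∃ c : ℂˣ, p.1.1.2 = sc M c * L ⟨p.1.1.1, p.2⟩ := fun p =>
    imp_unique hE hρ p.1.2 (hL ⟨p.1.1.1, p.2⟩)
  choose c hc using hc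
  let F : ΓS →* ℂˣ := MonoidHom.mk' c (by
    intro p p'
    have h1 := hc (p * p')
    have h2 : (p * p').1.1.2 = p.1.1.2 * p'.1.1.2 := rfl
    have h3 : L ⟨(p * p').1.1.1, (p * p').2⟩ = L ⟨p.1.1.1, p.2⟩ * L ⟨p'.1.1.1, p'.2⟩ := by
      rw [← map_mul]; rfl
    rw [h2, h3, hc p, hc p'] at h1
    have h4 : sc M (c p) * L ⟨p.1.1.1, p.2⟩ * (sc M (c p') * L ⟨p'.1.1.1, p'.2⟩) =
        sc M (c p * c p') * (L ⟨p.1.1.1, p.2⟩ * L ⟨p'.1.1.1, p'.2⟩) := by
      rw [mul_assoc, ← mul_assoc (L ⟨p.1.1.1, p.2⟩), ← sc_comm, map_mul]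
      simp only [mul_assoc]
    rw [h4] at h1
    exact (sc_inj (mul_right_cancel h1)).symm)
  have hFsc : ∀ (a : ℂˣ) (h : scG φ ρ a ∈ ΓS), F ⟨scG φ ρ a, h⟩ = a := by
    intro a h
    have h1 := hc ⟨scG φ ρ a, h⟩
    have h2 : L ⟨(⟨scG φ ρ a, h⟩ : ΓS).1.1.1, h⟩ = 1 := by
      have : (⟨(⟨scG φ ρ a, h⟩ : ΓS).1.1.1, h⟩ : S) = 1 := rfl
      rw [this, map_one]
    rw [h2, mul_one] at h1
    exact (sc_inj h1).symm
  have hmem : ∀ a : ℂˣ, scG φ ρ a ∈ ΓS := fun a => S.one_mem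
  apply hasLift_of_exponent hE hρ φ (MonoidHom.transfer F) S.index hS
  intro a
  rw [MonoidHom.transfer_eq_pow F (scG φ ρ a) (by
    intro k g _
    rw [← map_pow, mul_assoc, scG_comm, inv_mul_cancel_left])]
  have h1 : (⟨(scG φ ρ a) ^ ΓS.index, MonoidHom.transfer_eq_pow_aux (scG φ ρ a) (by
      intro k g _
      rw [← map_pow, mul_assoc, scG_comm, inv_mul_cancel_left])⟩ : ΓS) =
      ⟨scG φ ρ (a ^ ΓS.index), hmem _⟩ := by
    apply Subtype.ext
    exact (map_pow (scG φ ρ) a ΓS.index).symm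
  rw [h1, hFsc, hidx]

end lift

/-- Extraspecial 2-groups. -/
theorem exists_CT {E : Type*} [Group E] (hE : Cfsg.IsExtraspecial 2 E) : ∃ z : E, CT E z := by
  obtain ⟨⟨hp, hf, hc⟩, hcard⟩ := hE
  obtain ⟨z, hz, hzu⟩ := (Nat.card_eq_two_iff' (1 : Subgroup.center E)).1 hcard
  have hcen : ∀ x ∈ Subgroup.center E, x = 1 ∨ x = z := by
    intro x hx
    by_cases h1 : (⟨x, hx⟩ : Subgroup.center E) = 1
    · left; exact congrArg Subtype.val h1
    · right; exact congrArg Subtype.val (hzu ⟨x, hx⟩ h1)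
  refine ⟨z, ⟨?_, ?_, ?_, ?_, ?_⟩⟩
  · intro h; exact hz (Subtype.ext h)
  · rcases hcen (z * z) ((Subgroup.center E).mul_mem z.2 z.2) with h | h
    · exact h
    · exfalso
      exact hz (Subtype.ext (mul_eq_left.1 h))
  · intro x y
    have h1 : ⁅x, y⁆ ∈ Subgroup.center E := by
      rw [← hc]
      exact Subgroup.commutator_mem_commutator (Subgroup.mem_top x) (Subgroup.mem_top y)
    have h2 : x * y = ⁅x, y⁆ * (y * x) := by
      rw [commutatorElement_def]; group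
    rcases hcen _ h1 with h | h
    · left; rw [h2, h, one_mul]
    · right; rw [h2, h]
  · intro x; exact (Subgroup.mem_center_iff.1 z.2 x)
  · intro x hx
    exact hcen x (Subgroup.mem_center_iff.2 fun y => (hx y).symm)

end Cfsg.Agent.H668.DadeI
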