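import Cfsg.Agent.H668.FourPoint
import Cfsg.Agent.H668.ConstDiff
import Cfsg.Agent.Blocks.Deflate
import Cfsg.Agent.S0139
import Cfsg.Agent.S0145

/-!
# The general group: reduction to `u ^ 2 = 1` and consequences
-/

set_option autoImplicit false
set_option linter.unusedSectionVars false
set_option linter.style.haveILetI false
open scoped ComplexConjugate
open Cfsg Cfsg.Agent.Characters.Core

namespace Cfsg.Agent.H668.FourGen

open Cfsg.Agent.H668.CharPeel Cfsg.Agent.H668.FourTypes Cfsg.Agent.H668.FourMain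
  Cfsg.Agent.H668.FourReal Cfsg.Agent.H668.FourPoint

universe v
variable {G : Type v} [Group G]

/-- The general hypothesis. -/
def HypG (G : Type v) [Group G] (u : G) : Prop :=
  ∀ χ : G → ℂ, IsIrrCharacter G χ → χ ≠ 1 → χ 1 - χ u = 4 ∨ χ u = 0

/-- The kernel of a character. -/
theorem ker_apply {χ : G → ℂ} [Finite G] (hχ : IsCharacter G χ) {g : G} (h : χ g = χ 1) (x : G) :
    χ (x * g) = χ x ∧ χ (g * x) = χ x := by
  obtain ⟨n, ρ, rfl⟩ := hχ
  have h1 : ρ g = LinearMap.id := by
    rw [← S0139.result]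
    rw [h, Representation.char_one]
  constructor
  · show LinearMap.trace ℂ _ (ρ (x * g)) = LinearMap.trace ℂ _ (ρ x)
    rw [map_mul, h1]; rfl
  · show LinearMap.trace ℂ _ (ρ (g * x)) = LinearMap.trace ℂ _ (ρ x)
    rw [map_mul, h1]; rfl

/-- The kernel of a character as a subgroup. -/
def kerC [Finite G] (χ : G → ℂ) (hχ : IsCharacter G χ) : Subgroup G where
  carrier := {g | χ g = χ 1}
  one_mem' := rfl
  mul_mem' := by
    intro a b ha hb
    exact ((ker_apply hχ hb a).1).trans ha
  inv_mem' := by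
    intro a ha
    have := (ker_apply hχ (g := a) ha a⁻¹).1
    rw [inv_mul_cancel] at this
    exact this.symm

theorem mem_kerC [Finite G] {χ : G → ℂ} (hχ : IsCharacter G χ) {g : G} :
    g ∈ kerC χ hχ ↔ χ g = χ 1 := Iff.rfl

theorem kerC_normal [Finite G] {χ : G → ℂ} (hχ : IsCharacter G χ) : (kerC χ hχ).Normal := by
  constructor
  intro n hn g
  rw [mem_kerC] at hn ⊢
  rw [← hn]
  exact classFunction_apply_eq (isCharacter_isClassFunction hχ) (by
    rw [isConj_comm, isConj_iff]; exact ⟨g, rfl⟩)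

theorem HypG.perf [Finite G] {u : G} (h : HypG G u) : commutator G = ⊤ := by
  by_contra hne
  obtain ⟨f, hf⟩ := ConstDiff.exists_hom_ne_one hne
  have hfi := (ConstDiff.ofHom f).2
  have hne1 : ((ConstDiff.ofHom f : IrrCharacter G) : G → ℂ) ≠ 1 := by
    intro h1
    exact ConstDiff.ofHom_ne_one hf (Subtype.ext h1)
  rcases h _ hfi hne1 with h1 | h1
  · rw [ConstDiff.ofHom_coe, ConstDiff.ofHom_coe, map_one, Units.val_one] at h1
    have h2 : ((f u : ℂˣ) : ℂ) = -3 := by linear_combination -h1
    have h3 : ((f u : ℂˣ) : ℂ) ^ Nat.card G = 1 := by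
      rw [← Units.val_pow_eq_pow_val, ← map_pow, pow_card_eq_one', map_one, Units.val_one]
    rw [h2] at h3
    have h4 : ((-3 : ℤ) ^ Nat.card G) = 1 := by exact_mod_cast h3
    have h5 : Nat.card G ≠ 0 := Nat.card_pos.ne'
    have h6 : (3 : ℤ) ∣ 1 := by
      rw [← h4]
      exact dvd_pow (by norm_num) h5
    norm_num at h6
  · rw [ConstDiff.ofHom_coe] at h1
    exact (f u).ne_zero h1

theorem HypG.quot [Finite G] {u : G} (h : HypG G u) (L : Subgroup G) [L.Normal] :
    HypG (G ⧸ L) (QuotientGroup.mk' L u) := by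
  intro χ hχ hne
  have h1 := isIrr_comp (QuotientGroup.mk' L) (QuotientGroup.mk'_surjective L) hχ
  have h2 : (fun g => χ (QuotientGroup.mk' L g)) ≠ 1 := by
    intro h3
    apply hne
    funext x
    obtain ⟨g, rfl⟩ := QuotientGroup.mk'_surjective L x
    exact congrFun h3 g
  have h3 := h _ h1 h2
  simpa using h3

/-- An irreducible character whose value at `u` is its degree is principal. -/
theorem HypG.eq_one_of_apply [Finite G] {u : G} (h : HypG G u) {χ : G → ℂ} (hχ : IsIrrCharacter G χ)
    (h1 : χ u = χ 1) : χ = 1 := by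
  by_contra hne
  rcases h χ hχ hne with h2 | h2
  · rw [h1, sub_self] at h2; norm_num at h2
  · rw [h1] at h2
    exact isIrr_apply_one_ne_zero hχ h2

/-- `u` lies in no proper normal subgroup. -/
theorem HypG.normal_eq_top [Finite G] {u : G} (h : HypG G u) (L : Subgroup G) [L.Normal]
    (hu : u ∈ L) : L = ⊤ := by
  by_contra hne
  have h1 := h.quot L
  have h2 : QuotientGroup.mk' L u = 1 := (QuotientGroup.eq_one_iff u).2 hu
  rw [h2] at h1
  have h3 : ∀ χ : IrrCharacter (G ⧸ L), (χ : G ⧸ L → ℂ) = 1 := fun χ => h1.eq_one_of_apply χ.2 rfl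
  have h4 : Nat.card (IrrCharacter (G ⧸ L)) = 1 := by
    rw [Nat.card_eq_one_iff_unique]
    exact ⟨⟨fun a b => Subtype.ext ((h3 a).trans (h3 b).symm)⟩, ⟨⟨1, isIrr_one⟩⟩⟩
  rw [card_irr] at h4
  have h5 : Subsingleton (G ⧸ L) := by
    refine ⟨fun a b => ?_⟩
    have h6 := (Nat.card_eq_one_iff_unique.1 h4).1
    have h7 : ∀ x : G ⧸ L, x = 1 := by
      intro x
      have h8 : ConjClasses.mk x = ConjClasses.mk (1 : G ⧸ L) := h6.elim _ _
      rw [ConjClasses.mk_eq_mk_iff_isConj] at h8
      exact isConj_one_left.1 h8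
    rw [h7 a, h7 b]
  exact hne (QuotientGroup.subgroup_eq_top_of_subsingleton L h5)

/-- No nonprincipal irreducible character has `|χ(u)| = χ(1)`. -/
theorem HypG.not_norm [Fintype G] {u : G} (h : HypG G u) {χ : G → ℂ} (hχ : IsIrrCharacter G χ)
    (hne : χ ≠ 1) (h1 : χ u * conj (χ u) = χ 1 * conj (χ 1)) : False := by
  have hc : IsCharacter G (χ * cj χ) := isCharacter_mul (isIrr_isCharacter hχ) (isChar_cj (isIrr_isCharacter hχ))
  have hmem : u ∈ kerC _ hc := h1
  have := kerC_normal hc
  have htop := h.normal_eq_top _ hmem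
  have h2 : ∀ g, (χ * cj χ) g = (χ * cj χ) 1 := fun g => by
    have : g ∈ kerC _ hc := by rw [htop]; trivial
    exact this
  obtain ⟨n, hn0, hn⟩ := isIrr_apply_one hχ
  have h3 : classInner (χ * cj χ) 1 = 1 := by
    rw [ip_mul_left, one_mul, cj_cj, classInner_irr_self hχ]
  rw [classInner_def] at h3
  have h4 : (Nat.card G : ℂ) ≠ 0 := card_ne_zero_complex
  have h5 : ∀ g : G, (χ * cj χ) g * conj ((1 : G → ℂ) g) = (n : ℂ) ^ 2 := by
    intro g
    rw [h2]
    simp only [Pi.mul_apply, cj_apply, hn, Pi.one_apply, map_one, mul_one, Complex.conj_natCast]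
    ring
  rw [Finset.sum_congr rfl fun g _ => h5 g, Finset.sum_const, nsmul_eq_mul, Finset.card_univ,
    ← Nat.card_eq_fintype_card, ← mul_assoc, inv_mul_cancel₀ h4, one_mul] at h3
  have h6 : n ^ 2 = 1 := by exact_mod_cast h3
  have h7 : n = 1 := by simpa using h6
  rw [h7, Nat.cast_one] at hn
  obtain ⟨f, hf⟩ := Characters.Linear.exists_hom_of_isIrrCharacter hχ hn
  refine ConstDiff.commutator_ne_top_of_hom (f := f) ?_ h.perf
  rintro rfl
  apply hne
  rw [hf]
  funext g
  simp

/-- The types: `χ(u) = 0` or `χ(1) = d`, `χ(u) = d - 4`, `3 ≤ d`. -/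
theorem HypG.type [Fintype G] {u : G} (h : HypG G u) {χ : G → ℂ} (hχ : IsIrrCharacter G χ)
    (hne : χ ≠ 1) : χ u = 0 ∨ ∃ d, A u χ d := by
  rcases h χ hχ hne with h1 | h1
  · right
    obtain ⟨n, hn0, hn⟩ := isIrr_apply_one hχ
    refine ⟨n, hχ, hne, hn, by rw [← hn]; linear_combination -h1, ?_⟩
    by_contra hlt
    rw [not_le] at hlt
    interval_cases n
    · obtain ⟨f, hf⟩ := Characters.Linear.exists_hom_of_isIrrCharacter hχ (by simpa using hn)
      refine ConstDiff.commutator_ne_top_of_hom (f := f) ?_ h.perf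
      rintro rfl
      apply hne
      rw [hf]
      funext g
      simp
    · apply h.not_norm hχ hne
      rw [hn] at h1 ⊢
      have : χ u = -2 := by push_cast at h1; linear_combination -h1
      rw [this]
      simp
  · left; exact h1

theorem HypG.exists_three [Fintype G] {u : G} (h : HypG G u) (hu : u ≠ 1) :
    ∃ V : G → ℂ, A u V 3 := by
  classical
  haveI : Fintype (IrrCharacter G) := by
    haveI := finite_irr (G := G)
    exact Fintype.ofFinite _
  by_contra hcon
  push Not at hcon
  obtain ⟨d, v, hd0, hd, hv, -, hd1, hv1⟩ := ConstDiff.exists_vals u 4 (by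
    intro χ hne
    simpa using h χ χ.2 hne)
  have hsum := ConstDiff.sum_dv u hu d v hd hv
  have hnn : ∀ χ ∈ (Finset.univ : Finset (IrrCharacter G)), 0 ≤ d χ * v χ := by
    intro χ _
    by_cases h1 : χ = ConstDiff.one G
    · rw [h1, hd1, hv1]; norm_num
    · have hne : (χ : G → ℂ) ≠ 1 := ConstDiff.ne_one_iff.1 h1
      apply mul_nonneg (hd0 χ).le
      rcases h.type χ.2 hne with h2 | ⟨n, h2⟩
      · have h3 := hv χ
        rw [h2] at h3
        have : v χ = 0 := by exact_mod_cast h3.symm
        rw [this]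
      · have h3 := hv χ
        rw [h2.val] at h3
        have h4 : n ≠ 3 := by
          rintro rfl
          exact hcon _ h2
        have h5 := h2.three
        have h6 : v χ = (n : ℤ) - 4 := by exact_mod_cast h3.symm
        rw [h6]
        omega
  have h0 := (Finset.sum_eq_zero_iff_of_nonneg hnn).1 hsum (ConstDiff.one G) (Finset.mem_univ _)
  rw [hd1, hv1] at h0
  norm_num at h0

theorem A.infl [Fintype G] {L : Subgroup G} [L.Normal] {u : G} {χ : G ⧸ L → ℂ} {n : ℕ}
    [Fintype (G ⧸ L)] (h : A (QuotientGroup.mk' L u) χ n) :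
    A u (fun g => χ (QuotientGroup.mk' L g)) n where
  irr := isIrr_comp (QuotientGroup.mk' L) (QuotientGroup.mk'_surjective L) h.irr
  ne := by
    intro h3
    apply h.ne
    funext x
    obtain ⟨g, rfl⟩ := QuotientGroup.mk'_surjective L x
    exact congrFun h3 g
  one := by simpa using h.one
  val := h.val
  three := h.three

/-- The package of all character-theoretic information. -/
theorem HypG.package [Fintype G] {u : G} (h : HypG G u) (hu : u ≠ 1) :
    ∃ N : Subgroup G, N.Normal ∧ Nat.card G = 60 * Nat.card N ∧ u ∉ N ∧ u ^ 2 ∈ N ∧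
      (∀ (k : ℕ) (x : G), x ^ 2 ^ k = 1 → x ∉ N → IsConj x u) ∧
      (∀ n ∈ N, IsConj (u * n) u) ∧
      Nat.card (Subgroup.centralizer ({u} : Set G)) = 4 := by
  classical
  haveI : Fintype (IrrCharacter G) := by
    haveI := finite_irr (G := G)
    exact Fintype.ofFinite _
  -- elements `u²` lie in the kernel of degree three characters
  have hker : ∀ U : G → ℂ, A u U 3 → U (u ^ 2) = 3 := by
    intro U hU
    have h1 := apply_mul_self h.perf hU.char (A.one3 hU) u
    rw [hU.val] at h1
    rw [sq, h1]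
    push_cast
    norm_num
  obtain ⟨V₀, hV₀⟩ := h.exists_three hu
  set K : Subgroup G := Subgroup.normalClosure {u ^ 2} with hK
  have hKle : ∀ U : G → ℂ, (hU : A u U 3) → K ≤ kerC U hU.char := by
    intro U hU
    have := kerC_normal hU.char
    apply Subgroup.normalClosure_le_normal
    rw [Set.singleton_subset_iff]
    show U (u ^ 2) = U 1
    rw [hker U hU, A.one3 hU]
  have huK : u ∉ K := by
    intro h1
    have h2 : V₀ u = V₀ 1 := hKle V₀ hV₀ h1
    rw [hV₀.val, hV₀.one] at h2
    norm_num at h2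
  have hsqK : u ^ 2 ∈ K := Subgroup.subset_normalClosure rfl
  have hq := h.quot K
  have hqne : QuotientGroup.mk' K u ≠ 1 := by
    intro h1
    exact huK ((QuotientGroup.eq_one_iff u).1 h1)
  have HQ : Hyp (G ⧸ K) (QuotientGroup.mk' K u) := by
    refine ⟨hq.perf, ?_, hq⟩
    rw [← map_pow]
    exact (QuotientGroup.eq_one_iff _).2 hsqK
  obtain ⟨V, W, ψ, ξ, F⟩ := exists_five HQ (hq.exists_three hqne)
  set π := QuotientGroup.mk' K with hπ
  have aV := A.infl F.aV
  have aW := A.infl F.aW
  have aψ := A.infl F.aψ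
  have aξ := A.infl F.aξ
  -- the only two characters of degree three
  have honly : ∀ U : G → ℂ, A u U 3 → U = (fun g => V (π g)) ∨ U = (fun g => W (π g)) := by
    intro U hU
    have hsum : ∑ n : K, U n ≠ 0 := by
      have : ∀ n : K, U n = 3 := by
        intro n
        have h1 : U n = U 1 := hKle U hU n.2
        rw [h1, A.one3 hU]
      simp only [this, Finset.sum_const, nsmul_eq_mul]
      apply mul_ne_zero _ (by norm_num)
      rw [Nat.cast_ne_zero]
      exact Finset.card_ne_zero.2 ⟨1, Finset.mem_univ _⟩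
    obtain ⟨U', hU'⟩ := Blocks.Deflate.exists_deflation K U hU.irr hsum
    have h1 : A (π u) (U' : G ⧸ K → ℂ) 3 := by
      refine ⟨U'.2, ?_, ?_, ?_, le_refl _⟩
      · intro h2
        apply hU.ne
        rw [hU', h2]; rfl
      · have := hU.one
        rw [hU'] at this
        exact this
      · have := hU.val
        rw [hU'] at this
        exact this
    rcases Five.eq_or_eq HQ F h1 with h2 | h2
    · left; rw [hU', h2]; rfl
    · right; rw [hU', h2]; rfl
  obtain ⟨d, v, hd0, hd, hv, -, hd1, hv1⟩ := ConstDiff.exists_vals u 4 (by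
    intro χ hne
    simpa using h χ χ.2 hne)
  have hsum := ConstDiff.sum_dv u hu d v hd hv
  set iV : IrrCharacter G := ⟨_, aV.irr⟩ with hiV
  set iW : IrrCharacter G := ⟨_, aW.irr⟩ with hiW
  set iψ : IrrCharacter G := ⟨_, aψ.irr⟩ with hiψ
  have dvals : ∀ (χ : IrrCharacter G) (n : ℕ), A u (χ : G → ℂ) n → d χ = n ∧ v χ = n - 4 := by
    intro χ n hχ
    have h1 := hd χ
    have h2 := hv χ
    rw [hχ.one] at h1
    rw [hχ.val] at h2
    exact ⟨by exact_mod_cast h1.symm, by exact_mod_cast h2.symm⟩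
  have dV := dvals iV 3 aV
  have dW := dvals iW 3 aW
  have dψ := dvals iψ 5 aψ
  have nVW : iV ≠ iW := by
    intro h1
    apply F.ne
    have h2 := congrArg Subtype.val h1
    funext x
    obtain ⟨g, rfl⟩ := QuotientGroup.mk'_surjective K x
    exact congrFun h2 g
  have nVψ : iV ≠ iψ := by
    intro h1
    have := dV.1
    rw [h1, dψ.1] at this
    norm_num at this
  have nWψ : iW ≠ iψ := by
    intro h1
    have := dW.1
    rw [h1, dψ.1] at this
    norm_num at this
  have n1V : ConstDiff.one G ≠ iV := by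
    intro h1
    have := dV.1
    rw [← h1, hd1] at this
    norm_num at this
  have n1W : ConstDiff.one G ≠ iW := by
    intro h1
    have := dW.1
    rw [← h1, hd1] at this
    norm_num at this
  have n1ψ : ConstDiff.one G ≠ iψ := by
    intro h1
    have := dψ.1
    rw [← h1, hd1] at this
    norm_num at this
  set S : Finset (IrrCharacter G) := {ConstDiff.one G, iV, iW, iψ} with hS
  have hSsum : ∀ f : IrrCharacter G → ℂ, ∑ χ ∈ S, f χ = f (ConstDiff.one G) + (f iV + (f iW + f iψ)) := by
    intro f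
    rw [hS, Finset.sum_insert (by simp [n1V, n1W, n1ψ]), Finset.sum_insert (by simp [nVW, nVψ]),
      Finset.sum_insert (by simp [nWψ]), Finset.sum_singleton]
  have hSsumZ : ∀ f : IrrCharacter G → ℤ, ∑ χ ∈ S, f χ = f (ConstDiff.one G) + (f iV + (f iW + f iψ)) := by
    intro f
    rw [hS, Finset.sum_insert (by simp [n1V, n1W, n1ψ]), Finset.sum_insert (by simp [nVW, nVψ]),
      Finset.sum_insert (by simp [nWψ]), Finset.sum_singleton]
  have hnn : ∀ χ ∈ Sᶜ, 0 ≤ d χ * v χ := by
    intro χ hχ
    rw [Finset.mem_compl, hS] at hχ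
    simp only [Finset.mem_insert, Finset.mem_singleton, not_or] at hχ
    have hne : (χ : G → ℂ) ≠ 1 := ConstDiff.ne_one_iff.1 hχ.1
    apply mul_nonneg (hd0 χ).le
    rcases h.type χ.2 hne with h2 | ⟨n, h2⟩
    · have h3 := hv χ
      rw [h2] at h3
      have : v χ = 0 := by exact_mod_cast h3.symm
      rw [this]
    · have h4 : n ≠ 3 := by
        rintro rfl
        rcases honly _ h2 with h5 | h5
        · exact hχ.2.1 (Subtype.ext h5)
        · exact hχ.2.2.1 (Subtype.ext h5)
      have h5 := h2.three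
      rw [(dvals χ n h2).2]
      omega
  have hrest : ∀ χ : IrrCharacter G, χ ∉ S → (χ : G → ℂ) u = 0 := by
    rw [← Finset.sum_add_sum_compl S, hSsumZ, hd1, hv1, dV.1, dV.2, dW.1, dW.2, dψ.1, dψ.2] at hsum
    have h0 : ∑ χ ∈ Sᶜ, d χ * v χ = 0 := by
      push_cast at hsum
      linarith
    have h1 := (Finset.sum_eq_zero_iff_of_nonneg hnn).1 h0
    intro χ hχ
    have h2 := h1 χ (Finset.mem_compl.2 hχ)
    rcases mul_eq_zero.1 h2 with h3 | h3
    · exact absurd h3 (hd0 χ).ne'
    · rw [hv χ, h3]; norm_num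
  have hcol : ∀ x : G, ∑ χ : IrrCharacter G, (χ : G → ℂ) x * conj ((χ : G → ℂ) u) =
      1 - V (π x) - W (π x) + ψ (π x) := by
    intro x
    rw [← Finset.sum_add_sum_compl S, hSsum, Finset.sum_eq_zero (s := Sᶜ), add_zero]
    · have e1 : ((ConstDiff.one G : IrrCharacter G) : G → ℂ) x = 1 := rfl
      have e2 : ((ConstDiff.one G : IrrCharacter G) : G → ℂ) u = 1 := rfl
      have e3 : (iV : G → ℂ) u = -1 := aV.val.trans (by push_cast; norm_num)
      have e4 : (iW : G → ℂ) u = -1 := aW.val.trans (by push_cast; norm_num)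
      have e5 : (iψ : G → ℂ) u = 1 := aψ.val.trans (by push_cast; norm_num)
      rw [e1, e2, e3, e4, e5]
      simp only [map_one, map_neg, mul_one, mul_neg]
      show 1 + (-(V (π x)) + (-(W (π x)) + ψ (π x))) = _
      ring
    · intro χ hχ
      rw [hrest χ (Finset.mem_compl.1 hχ), map_zero, mul_zero]
  have hconj : ∀ x : G, V (π x) = -1 →
      IsConj x u ∧ Nat.card (Subgroup.centralizer ({u} : Set G)) = 4 := by
    intro x hx
    obtain ⟨a, b, c⟩ := Five.neg_one HQ F hx
    have h1 := hcol x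
    rw [hx, a, b, S0145.sum_irr_mul_conj] at h1
    by_cases h2 : IsConj x u
    · refine ⟨h2, ?_⟩
      rw [if_pos h2] at h1
      have h3 : (Nat.card (Subgroup.centralizer ({u} : Set G)) : ℂ) = (4 : ℕ) := by
        rw [h1]; norm_num
      exact_mod_cast h3
    · rw [if_neg h2] at h1
      norm_num at h1
  have hVu : V (π u) = -1 := by
    have := F.aV.val
    rw [this]; push_cast; norm_num
  set N : Subgroup G := (kerC V F.aV.char).comap π with hN
  have hNn : N.Normal := by
    have := kerC_normal F.aV.char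
    rw [hN]; infer_instance
  have hmem : ∀ x : G, x ∈ N ↔ V (π x) = 3 := by
    intro x
    rw [hN, Subgroup.mem_comap, mem_kerC, A.one3 F.aV]
  refine ⟨N, hNn, ?_, ?_, ?_, ?_, ?_, (hconj u hVu).2⟩
  · -- cardinality
    have hreg : ∀ g : G, 1 + 3 * V (π g) + 3 * W (π g) + 5 * ψ (π g) + 4 * ξ (π g) =
        if g ∈ N then (60 : ℂ) else 0 := by
      intro g
      rw [Five.reg HQ F (π g)]
      simp only [hmem]
    have h1 : classInner ((1 : G → ℂ) + (3 : ℂ) • (fun g => V (π g)) + (3 : ℂ) • (fun g => W (π g)) +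
        (5 : ℂ) • (fun g => ψ (π g)) + (4 : ℂ) • (fun g => ξ (π g))) 1 = 1 := by
      simp only [classInner_add_left, classInner_smul_left]
      rw [classInner_irr_self isIrr_one, aV.ip_one, aW.ip_one, aψ.ip_one, aξ.ip_one]
      norm_num
    rw [classInner_def] at h1
    have h2 : ∀ g : G, ((1 : G → ℂ) + (3 : ℂ) • (fun g => V (π g)) + (3 : ℂ) • (fun g => W (π g)) +
        (5 : ℂ) • (fun g => ψ (π g)) + (4 : ℂ) • (fun g => ξ (π g))) g *
        conj ((1 : G → ℂ) g) = if g ∈ N then (60 : ℂ) else 0 := by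
      intro g
      rw [← hreg g]
      simp
    rw [Finset.sum_congr rfl fun g _ => h2 g, ← Finset.sum_filter, Finset.sum_const,
      nsmul_eq_mul] at h1
    have h3 : (Nat.card G : ℂ) ≠ 0 := card_ne_zero_complex
    have h4 : ((Finset.univ.filter fun g : G => g ∈ N).card : ℂ) * 60 = Nat.card G := by
      field_simp at h1
      linear_combination h1
    have h5 : (Finset.univ.filter fun g : G => g ∈ N).card = Nat.card N := by
      rw [Nat.card_eq_fintype_card, Fintype.card_subtype]
    rw [h5] at h4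
    have h6 : Nat.card N * 60 = Nat.card G := by exact_mod_cast h4
    omega
  · rw [hmem, hVu]; norm_num
  · rw [hmem, map_pow, HQ.sq]; exact A.one3 F.aV
  · intro k x hx hxN
    apply (hconj x _).1
    have h1 := Five.two_element HQ F k (π x) (by rw [← map_pow, hx, map_one])
    rcases h1 with h1 | h1
    · exact absurd ((hmem x).2 h1) hxN
    · exact h1
  · intro n hn
    apply (hconj _ _).1
    rw [map_mul]
    have h1 : V (π n) = V 1 := by rw [(hmem n).1 hn, A.one3 F.aV]
    rw [(ker_apply F.aV.char h1 (π u)).1, hVu]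

end Cfsg.Agent.H668.FourGen
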