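import Mathlib
import Cfsg.Prelude.Def_Solvable

/-!
# Group-theoretic part of S4758, `u` of order two
-/

set_option autoImplicit false
set_option linter.unusedSectionVars false
set_option linter.style.haveILetI false
open Cfsg

namespace Cfsg.Agent.H668.FourGroup

variable {G : Type*} [Group G]

/-- `G` is perfect and is the normal closure of `u`. -/
structure Gen (G : Type*) [Group G] (u : G) : Prop where
  perf : commutator G = ⊤
  top : ∀ L : Subgroup G, L.Normal → u ∈ L → L = ⊤

theorem Gen.quot {u : G} (h : Gen G u) (L : Subgroup G) [L.Normal] : Gen (G ⧸ L) (QuotientGroup.mk' L u) where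
  perf := by
    have h1 : (commutator G).map (QuotientGroup.mk' L) = commutator (G ⧸ L) := by
      rw [commutator_def, commutator_def, Subgroup.map_commutator,
        Subgroup.map_top_of_surjective _ (QuotientGroup.mk'_surjective L)]
    rw [← h1, h.perf, Subgroup.map_top_of_surjective _ (QuotientGroup.mk'_surjective L)]
  top := by
    intro K hK hu
    have h1 := h.top (K.comap (QuotientGroup.mk' L)) inferInstance hu
    rw [← Subgroup.map_comap_eq_self_of_surjective (QuotientGroup.mk'_surjective L) K, h1,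
      Subgroup.map_top_of_surjective _ (QuotientGroup.mk'_surjective L)]

theorem Gen.central {u : G} (h : Gen G u) (C : Subgroup G) [C.Normal]
    (hC : ∀ g : G, g * u * g⁻¹ * u⁻¹ ∈ C) : C = ⊤ := by
  have hq := h.quot C
  have h1 : QuotientGroup.mk' C u ∈ Subgroup.center (G ⧸ C) := by
    rw [Subgroup.mem_center_iff]
    intro x
    obtain ⟨g, rfl⟩ := QuotientGroup.mk'_surjective C x
    rw [← map_mul, ← map_mul, eq_comm]
    have : g * u = (g * u * g⁻¹ * u⁻¹) * (u * g) := by group
    rw [this, map_mul (QuotientGroup.mk' C) (g * u * g⁻¹ * u⁻¹)]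
    have h2 : QuotientGroup.mk' C (g * u * g⁻¹ * u⁻¹) = 1 := (QuotientGroup.eq_one_iff _).2 (hC g)
    rw [h2, one_mul]
  have h2 := hq.top _ inferInstance h1
  have h3 : commutator (G ⧸ C) = ⊥ := by
    rw [commutator_def, Subgroup.commutator_eq_bot_iff_le_centralizer]
    intro x _
    rw [Subgroup.mem_centralizer_iff]
    intro y _
    have hx : x ∈ Subgroup.center (G ⧸ C) := by rw [h2]; trivial
    exact Subgroup.mem_center_iff.1 hx y
  rw [hq.perf] at h3
  have h4 : Subsingleton (G ⧸ C) := by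
    refine ⟨fun a b => ?_⟩
    have ha : a ∈ (⊥ : Subgroup (G ⧸ C)) := by rw [← h3]; trivial
    have hb : b ∈ (⊥ : Subgroup (G ⧸ C)) := by rw [← h3]; trivial
    rw [Subgroup.mem_bot.1 ha, Subgroup.mem_bot.1 hb]
  exact QuotientGroup.subgroup_eq_top_of_subsingleton C h4

/-- If `u` inverts the normal subgroup `N` then `N` is central and of exponent two. -/
theorem Gen.of_inverts {u : G} (h : Gen G u) (N : Subgroup G) [N.Normal]
    (hN : ∀ n ∈ N, u * n * u⁻¹ = n⁻¹) : ∀ n ∈ N, n ∈ Subgroup.center G ∧ n ^ 2 = 1 := by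
  have hab : ∀ a ∈ N, ∀ b ∈ N, a * b = b * a := by
    intro a ha b hb
    have h1 := hN _ (mul_mem ha hb)
    have h2 : u * (a * b) * u⁻¹ = (u * a * u⁻¹) * (u * b * u⁻¹) := by group
    rw [h2, hN a ha, hN b hb, ← mul_inv_rev] at h1
    exact (inv_injective h1).symm
  have hC : Subgroup.centralizer (N : Set G) = ⊤ := by
    apply h.central
    intro g
    rw [Subgroup.mem_centralizer_iff]
    intro n hn
    have hn' : n ∈ N := hn
    -- `g u g⁻¹` inverts `N`
    have h1 : ∀ m ∈ N, (g * u * g⁻¹) * m * (g * u * g⁻¹)⁻¹ = m⁻¹ := by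
      intro m hm
      have h2 := hN (g⁻¹ * m * g) (by
        have := (inferInstance : N.Normal).conj_mem m hm g⁻¹
        simpa using this)
      have h3 : (g * u * g⁻¹) * m * (g * u * g⁻¹)⁻¹ = g * (u * (g⁻¹ * m * g) * u⁻¹) * g⁻¹ := by group
      rw [h3, h2]; group
    have h4 : u⁻¹ * n * u = n⁻¹ := by
      have h7 := hN (u⁻¹ * n * u) (by
        have := (inferInstance : N.Normal).conj_mem n hn' u⁻¹
        simpa using this)
      have h8 : u * (u⁻¹ * n * u) * u⁻¹ = n := by group
      rw [h8] at h7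
      rw [eq_comm, inv_eq_iff_eq_inv]
      exact h7
    have h5 : (g * u * g⁻¹ * u⁻¹) * n * (g * u * g⁻¹ * u⁻¹)⁻¹ = n := by
      have h6 : (g * u * g⁻¹ * u⁻¹) * n * (g * u * g⁻¹ * u⁻¹)⁻¹ =
          (g * u * g⁻¹) * (u⁻¹ * n * u) * (g * u * g⁻¹)⁻¹ := by group
      rw [h6, h4, h1 _ (inv_mem hn'), inv_inv]
    calc n * (g * u * g⁻¹ * u⁻¹)
        = ((g * u * g⁻¹ * u⁻¹) * n * (g * u * g⁻¹ * u⁻¹)⁻¹) * (g * u * g⁻¹ * u⁻¹) := by rw [h5]
      _ = g * u * g⁻¹ * u⁻¹ * n := by group
  intro n hn
  have hc : ∀ g : G, g * n = n * g := by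
    intro g
    have : g ∈ Subgroup.centralizer (N : Set G) := by rw [hC]; trivial
    exact ((Subgroup.mem_centralizer_iff.1 this) n hn).symm
  refine ⟨Subgroup.mem_center_iff.2 hc, ?_⟩
  have h1 := hN n hn
  rw [hc u, mul_assoc, mul_inv_cancel, mul_one] at h1
  rw [sq]
  nth_rewrite 2 [h1]
  exact mul_inv_cancel n

/-- Quotients without intermediate normal subgroups are simple. -/
theorem isSimple_of_surj {Q : Type*} [Group Q] (f : G →* Q) (hf : Function.Surjective f)
    [Nontrivial Q] (hb : ∀ L : Subgroup G, L.Normal → f.ker ≤ L → L = f.ker ∨ L = ⊤) :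
    IsSimpleGroup Q where
  exists_pair_ne := exists_pair_ne Q
  eq_bot_or_eq_top_of_normal := by
    intro H hH
    rcases hb (H.comap f) inferInstance (by
      intro x hx
      rw [Subgroup.mem_comap, MonoidHom.mem_ker.1 hx]; exact one_mem H) with h | h
    · left
      rw [← Subgroup.map_comap_eq_self_of_surjective hf H, h]
      rw [Subgroup.map_eq_bot_iff]
    · right
      rw [← Subgroup.map_comap_eq_self_of_surjective hf H, h, Subgroup.map_top_of_surjective _ hf]

/-- The hypotheses extracted from the character theory. -/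
structure Pack (u : G) (N : Subgroup G) : Prop where
  gen : Gen G u
  normal : N.Normal
  card : Nat.card G = 60 * Nat.card N
  notMem : u ∉ N
  sq : u ^ 2 ∈ N
  conj : ∀ (k : ℕ) (x : G), x ^ 2 ^ k = 1 → x ∉ N → IsConj x u
  coset : ∀ n ∈ N, IsConj (u * n) u
  cent : Nat.card (Subgroup.centralizer ({u} : Set G)) = 4
  between : ∀ L : Subgroup G, L.Normal → N ≤ L → L = N ∨ L = ⊤

theorem orderOf_of_isConj {x y : G} (h : IsConj x y) : orderOf x = orderOf y := by
  obtain ⟨c, hc⟩ := isConj_iff.1 h
  rw [← hc]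
  have := MulEquiv.orderOf_eq (MulAut.conj c) x
  rw [MulAut.conj_apply] at this
  exact this.symm

theorem card_centralizer_of_isConj {x y : G} (h : IsConj x y) :
    Nat.card (Subgroup.centralizer ({x} : Set G)) = Nat.card (Subgroup.centralizer ({y} : Set G)) := by
  obtain ⟨c, hc⟩ := isConj_iff.1 h
  rw [← hc]
  have h1 : (Subgroup.centralizer ({x} : Set G)).map (MulAut.conj c).toMonoidHom =
      Subgroup.centralizer ({c * x * c⁻¹} : Set G) := by
    ext y
    rw [Subgroup.mem_map_equiv, Subgroup.mem_centralizer_singleton_iff,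
      Subgroup.mem_centralizer_singleton_iff]
    simp only [MulAut.conj_symm_apply]
    constructor
    · intro h
      have h2 : y * (c * x * c⁻¹) = c * ((c⁻¹ * y * c) * x) * c⁻¹ := by group
      rw [h2, h]; group
    · intro h
      have h2 : (c⁻¹ * y * c) * x = c⁻¹ * (y * (c * x * c⁻¹)) * c := by group
      rw [h2, h]; group
  rw [← h1]
  exact Nat.card_congr ((MulAut.conj c).subgroupMap _).toEquiv

end Cfsg.Agent.H668.FourGroup
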