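import Cfsg.Agent.H668.FourGroup
import Cfsg.Agent.S0494
import Cfsg.Agent.S0253
import Cfsg.Agent.Lib.Cores

/-!
# Group-theoretic part of S4758, `u` of order two
-/

set_option autoImplicit false
set_option linter.unusedSectionVars false
set_option linter.style.haveILetI false
open Cfsg Cfsg.Agent.H668.FourGroup

namespace Cfsg.Agent.H668.FourGroupA

variable {G : Type*} [Group G] [Finite G]

theorem psl_of_simple {Q : Type*} [Group Q] [Finite Q] [IsSimpleGroup Q] (h : Nat.card Q = 60) :
    Nonempty (Q ≃* Matrix.ProjectiveSpecialLinearGroup (Fin 2) (ZMod 5)) := by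
  obtain ⟨e⟩ := S0494.result h
  obtain ⟨f⟩ := S0253.psl_zmod5
  exact ⟨e.trans f.symm⟩

theorem simple_quot {Q : Type*} [Group Q] [Finite Q] {u : G} {N : Subgroup G} (h : Pack u N)
    (f : G →* Q) (hf : Function.Surjective f) (hk : f.ker = N) :
    Nonempty (Q ≃* Matrix.ProjectiveSpecialLinearGroup (Fin 2) (ZMod 5)) := by
  have h1 : Nat.card Q = 60 := by
    have h2 : Nat.card f.ker * Nat.card Q = Nat.card G := by
      have h3 := Subgroup.card_mul_index f.ker
      have h4 : Nat.card f.range = Nat.card Q := by
        rw [MonoidHom.range_eq_top.2 hf]; exact Subgroup.card_top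
      rw [Subgroup.index_ker, h4] at h3
      exact h3
    rw [h.card, hk] at h2
    have h3 : 0 < Nat.card N := Nat.card_pos
    exact Nat.eq_of_mul_eq_mul_left h3 (by rw [h2]; ring)
  have : Nontrivial Q := by
    rw [← Finite.one_lt_card_iff_nontrivial, h1]; norm_num
  have := isSimple_of_surj f hf (by
    intro L hL hle
    rw [hk] at hle ⊢
    exact h.between L hL hle)
  exact psl_of_simple h1

theorem oddCore_le {u : G} {N : Subgroup G} (h : Pack u N) : oddCore G ≤ N := by
  have := h.normal
  have hOn : (oddCore G).Normal := Lib.Cores.pPrimeCore_normal 2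
  have hodd : (Nat.card (oddCore G)).Coprime 2 := Lib.Cores.pPrimeCore_coprime 2
  rcases h.between (N ⊔ oddCore G) inferInstance le_sup_left with h1 | h1
  · rw [← h1]; exact le_sup_right
  · exfalso
    have h2 : N.index = 60 := by
      have h3 := Subgroup.card_mul_index N
      rw [h.card, mul_comm] at h3
      exact Nat.eq_of_mul_eq_mul_right Nat.card_pos h3
    have h3 : N.relIndex (oddCore G) = N.index := by
      have h4 := Subgroup.relIndex_sup_right (H := oddCore G) (K := N)
      rw [sup_comm] at h1
      rw [← h4, h1, Subgroup.relIndex_top_right]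
    have h4 : N.relIndex (oddCore G) ∣ Nat.card (oddCore G) := Subgroup.relIndex_dvd_card _ _
    rw [h3, h2] at h4
    have h5 : 2 ∣ Nat.card (oddCore G) := dvd_trans (by norm_num) h4
    have h6 := Nat.dvd_gcd h5 (dvd_refl 2)
    rw [hodd] at h6
    norm_num at h6

/-- The case of an involution. -/
theorem case_two {u : G} {N : Subgroup G} (h : Pack u N) (hu2 : u ^ 2 = 1) :
    IsMulCommutative ↥(oddCore G) ∧
      Nonempty (G ⧸ oddCore G ≃* Matrix.ProjectiveSpecialLinearGroup (Fin 2) (ZMod 5)) := by
  have := h.normal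
  have hu1 : u ≠ 1 := fun h1 => h.notMem (h1 ▸ one_mem N)
  have hinv : ∀ n ∈ N, u * n * u⁻¹ = n⁻¹ := by
    intro n hn
    have h1 : (u * n) ^ 2 = 1 := by
      rw [← orderOf_dvd_iff_pow_eq_one, orderOf_of_isConj (h.coset n hn),
        orderOf_dvd_iff_pow_eq_one, hu2]
    have h2 : u⁻¹ = u := by
      rw [inv_eq_iff_mul_eq_one, ← sq, hu2]
    rw [h2, eq_inv_iff_mul_eq_one]
    calc u * n * u * n = (u * n) ^ 2 := by rw [sq]; group
      _ = 1 := h1
  have hcen := h.gen.of_inverts N hinv
  have hle : N ≤ Subgroup.centralizer ({u} : Set G) := by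
    intro n hn
    rw [Subgroup.mem_centralizer_singleton_iff]
    exact ((Subgroup.mem_center_iff.1 (hcen n hn).1) u).symm
  have huC : u ∈ Subgroup.centralizer ({u} : Set G) := by
    rw [Subgroup.mem_centralizer_singleton_iff]
  have hlt : Nat.card N < 4 := by
    rw [← h.cent]
    apply Set.Finite.card_lt_card (Set.toFinite _)
    refine ⟨hle, fun h1 => h.notMem (h1 huC)⟩
  have hdvd : Nat.card N ∣ 4 := by
    rw [← h.cent]; exact Subgroup.card_dvd_of_le hle
  have hcard : Nat.card N = 1 ∨ Nat.card N = 2 := by
    have : 0 < Nat.card N := Nat.card_pos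
    interval_cases Nat.card N <;> simp_all
  rcases hcard with hN | hN
  · have hNb : N = ⊥ := Subgroup.card_eq_one.1 hN
    have hO : oddCore G = ⊥ := by
      rw [eq_bot_iff, ← hNb]; exact oddCore_le h
    constructor
    · rw [hO]; infer_instance
    · have hOn : (oddCore G).Normal := Lib.Cores.pPrimeCore_normal 2
      apply simple_quot h (QuotientGroup.mk' (oddCore G)) (QuotientGroup.mk'_surjective _)
      rw [QuotientGroup.ker_mk', hO, hNb]
  · exfalso
    have hc : Nat.card G = 120 := by rw [h.card, hN]
    -- a Sylow 2-subgroup containing `u`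
    have hp : IsPGroup 2 (Subgroup.zpowers u) := by
      rw [IsPGroup.iff_card]
      refine ⟨1, ?_⟩
      rw [Nat.card_zpowers, pow_one]
      exact orderOf_eq_prime hu2 hu1
    obtain ⟨P, hP⟩ := hp.exists_le_sylow
    have huP : u ∈ (P : Subgroup G) := hP (Subgroup.mem_zpowers u)
    have hPc : Nat.card (P : Subgroup G) = 8 := by
      rw [P.card_eq_multiplicity, hc]
      have : (120 : ℕ).factorization 2 = 3 := by
        rw [show (120 : ℕ) = 2 ^ 3 * 15 by norm_num, Nat.factorization_mul (by norm_num) (by norm_num),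
          Finsupp.add_apply, Nat.factorization_pow, Finsupp.smul_apply,
          Nat.Prime.factorization_self Nat.prime_two,
          Nat.factorization_eq_zero_of_not_dvd (by norm_num)]
        norm_num
      rw [this]; norm_num
    have hexp : ∀ x ∈ (P : Subgroup G), x ^ 2 = 1 := by
      intro x hx
      by_cases hxN : x ∈ N
      · exact (hcen x hxN).2
      · obtain ⟨k, hk⟩ := P.2 ⟨x, hx⟩
        have hk' : x ^ 2 ^ k = 1 := by
          have := congrArg Subtype.val hk
          simpa using this
        have h1 := h.conj k x hk' hxN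
        rw [← orderOf_dvd_iff_pow_eq_one, orderOf_of_isConj h1, orderOf_dvd_iff_pow_eq_one, hu2]
    have hPle : (P : Subgroup G) ≤ Subgroup.centralizer ({u} : Set G) := by
      intro x hx
      rw [Subgroup.mem_centralizer_singleton_iff]
      have h1 := hexp x hx
      have h3 := hexp (x * u) (mul_mem hx huP)
      have e1 : x⁻¹ = x := by rw [inv_eq_iff_mul_eq_one, ← sq, h1]
      have e2 : u⁻¹ = u := by rw [inv_eq_iff_mul_eq_one, ← sq, hu2]
      have e3 : (x * u)⁻¹ = x * u := by rw [inv_eq_iff_mul_eq_one, ← sq, h3]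
      rw [mul_inv_rev, e1, e2] at e3
      exact e3.symm
    have h1 := Subgroup.card_dvd_of_le hPle
    rw [hPc, h.cent] at h1
    norm_num at h1

end Cfsg.Agent.H668.FourGroupA
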