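import Cfsg.Agent.H668.FourGroupB
import Cfsg.Agent.S0542
import Cfsg.Agent.Lib.SylowNormalInf

/-!
# Group-theoretic part of S4758, `u` of order four
-/

set_option autoImplicit false
set_option linter.unusedSectionVars false
set_option linter.style.haveILetI false
open Cfsg Cfsg.Agent.H668.FourGroup Cfsg.Agent.H668.FourGroupA Cfsg.Agent.H668.FourGroupB

namespace Cfsg.Agent.H668.FourGroupC

variable {G : Type*} [Group G] [Finite G]

theorem exists_complement {u : G} {N : Subgroup G} (h : Pack u N) (hu4 : orderOf u = 4)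
    (P : Sylow 2 G) (huP : u ∈ P) :
    ∃ M : Subgroup G, M.Normal ∧ Odd (Nat.card M) ∧ M ≤ N ∧
      (∀ n ∈ N, ∃ m ∈ M, ∃ t ∈ (P : Subgroup G), t ∈ N ∧ n = m * t) ∧
      (∀ x ∈ N, Odd (orderOf x) → x ∈ M) := by
  have hNn := h.normal
  obtain ⟨hinv, htwo⟩ := sylow_inverts h hu4 P huP
  obtain ⟨Q, hQ⟩ := S0542.result 2 N h.normal.isSubnormal P
  have hQP : ∀ x : (Q : Subgroup N), ((x : N) : G) ∈ (P : Subgroup G) := by
    intro x
    exact Subgroup.mem_subgroupOf.1 (hQ.le x.2)
  -- `Q` is commutative with a unique involution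
  have hU : Solvable.UniqueOrderP.UniqueP 2 (Q : Subgroup N) := by
    intro x y hx hx2 hy2
    have c : ∀ z : (Q : Subgroup N), z ^ 2 = 1 → z ≠ 1 → ((z : N) : G) = u ^ 2 := by
      intro z hz hz1
      rcases htwo ((z : N) : G) (hQP z) (z : N).2 (by
        have := congrArg (fun w : (Q : Subgroup N) => ((w : N) : G)) hz
        simpa using this) with h1 | h1
      · exfalso
        apply hz1
        apply Subtype.ext
        apply Subtype.ext
        exact h1
      · exact h1
    by_cases hy1 : y = 1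
    · rw [hy1]; exact one_mem _
    · have : y = x := by
        apply Subtype.ext
        apply Subtype.ext
        rw [c y hy2 hy1, c x hx2 hx]
      rw [this]; exact Subgroup.mem_zpowers x
  have hcomm : ∀ x y : (Q : Subgroup N), x * y = y * x := by
    intro x y
    apply Subtype.ext
    apply Subtype.ext
    have hx := hinv _ (hQP x) (x : N).2
    have hy := hinv _ (hQP y) (y : N).2
    have hxy := hinv _ (mul_mem (hQP x) (hQP y)) (mul_mem (x : N).2 (y : N).2)
    have h2 : u * (((x : N) : G) * ((y : N) : G)) * u⁻¹ =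
        (u * ((x : N) : G) * u⁻¹) * (u * ((y : N) : G) * u⁻¹) := by group
    rw [h2, hx, hy, ← mul_inv_rev] at hxy
    exact (inv_injective hxy).symm
  have hcyc : IsCyclic (Q : Subgroup N) := by
    obtain ⟨a, ha⟩ := Solvable.UniqueOrderP.exists_eq_zpowers_of_comm 2 Q.2 hU ⊤
      ⟨⟨fun x y => by
        apply Subtype.ext
        exact hcomm x.1 y.1⟩⟩
    exact isCyclic_iff_exists_zpowers_eq_top.2 ⟨a, ha.symm⟩
  obtain ⟨K, hKo, hKs, hKm⟩ := CharactersDeep.QuatSylow.exists_two_complement Q hcyc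
  have hKn : K.Normal := by
    constructor
    intro n hn g
    rw [hKm] at hn ⊢
    have := MulEquiv.orderOf_eq (MulAut.conj g) n
    rw [MulAut.conj_apply] at this
    rw [this]; exact hn
  have hmem : ∀ x : G, x ∈ K.map N.subtype ↔ x ∈ N ∧ Odd (orderOf x) := by
    intro x
    constructor
    · rintro ⟨y, hy, rfl⟩
      refine ⟨y.2, ?_⟩
      rw [Subgroup.coe_subtype, Subgroup.orderOf_coe]
      exact (hKm y).1 hy
    · rintro ⟨h1, h2⟩
      refine ⟨⟨x, h1⟩, ?_, rfl⟩
      show (⟨x, h1⟩ : N) ∈ K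
      rw [hKm, Subgroup.orderOf_mk]
      exact h2
  refine ⟨K.map N.subtype, ⟨?_⟩, ?_, ?_, ?_, ?_⟩
  · intro n hn g
    rw [hmem] at hn ⊢
    refine ⟨hNn.conj_mem n hn.1 g, ?_⟩
    have := MulEquiv.orderOf_eq (MulAut.conj g) n
    rw [MulAut.conj_apply] at this
    rw [this]; exact hn.2
  · rw [Nat.card_congr (K.equivMapOfInjective N.subtype N.subtype_injective).toEquiv.symm]
    exact hKo
  · intro x hx
    exact ((hmem x).1 hx).1
  · intro n hn
    have h1 : (⟨n, hn⟩ : N) ∈ K ⊔ (Q : Subgroup N) := by rw [hKs]; exact Subgroup.mem_top _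
    obtain ⟨a, ha, b, hb, hab⟩ := Subgroup.mem_sup_of_normal_left.1 h1
    have h2 : ((a : N) : G) * ((b : N) : G) = n := congrArg Subtype.val hab
    have h3 : ((a : N) : G) ∈ K.map N.subtype := (hmem _).2 ⟨a.2, by
      rw [Subgroup.orderOf_coe]; exact (hKm a).1 ha⟩
    exact ⟨(a : G), h3, (b : G), hQP ⟨b, hb⟩, b.2, h2.symm⟩
  · intro x hx hodd
    exact (hmem x).2 ⟨hx, hodd⟩

end Cfsg.Agent.H668.FourGroupC
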