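import Cfsg.Agent.H668.FourTypes

/-!
# Characters of degree three under `χ(1) - χ(u) = 4` or `χ(u) = 0`
-/

set_option autoImplicit false
set_option linter.unusedSectionVars false
set_option linter.style.haveILetI false
open scoped ComplexConjugate
open Cfsg Cfsg.Agent.Characters.Core

namespace Cfsg.Agent.H668.FourMain

open Cfsg.Agent.H668.CharPeel Cfsg.Agent.H668.FourTypes

universe v
variable {G : Type v} [Group G] [Fintype G] {u : G}

theorem ip_congr {a b c d : G → ℂ} (h : ∀ g, a g * conj (b g) = c g * conj (d g)) :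
    classInner a b = classInner c d := by
  rw [classInner_def, classInner_def]
  congr 1
  exact Finset.sum_congr rfl fun g _ => h g

/-- A matrix identity. -/
theorem trace_sq_three (M : Matrix (Fin 3) (Fin 3) ℂ) :
    (M * M).trace = M.trace ^ 2 - 2 * M.adjugate.trace := by
  rw [Matrix.adjugate_fin_three]
  simp only [Matrix.trace_fin_three, Matrix.mul_apply, Fin.sum_univ_three]
  simp
  ring

/-- `V(g²) = V(g)² - 2 conj V(g)` for a character of degree three of a perfect group. -/
theorem apply_mul_self (hperf : commutator G = ⊤) {V : G → ℂ} (hV : IsCharacter G V) (h3 : V 1 = 3)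
    (g : G) : V (g * g) = V g ^ 2 - 2 * conj (V g) := by
  obtain ⟨n, ρ, hρ⟩ := isCharacter_def.1 hV
  have hn : n = 3 := by
    have : V 1 = n := by
      rw [← hρ, Representation.char_one]
      simp
    rw [h3] at this
    exact_mod_cast this.symm
  subst hn
  have htr : ∀ g : G, V g = (LinearMap.toMatrix' (ρ g)).trace := by
    intro g
    rw [← hρ]
    rw [Representation.character]
    rw [LinearMap.trace_eq_matrix_trace ℂ (Pi.basisFun ℂ (Fin 3)), LinearMap.toMatrix_eq_toMatrix']
  have hinv := isCharacter_apply_inv hV g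
  rw [← hinv, htr (g * g), htr g, htr g⁻¹, map_mul, LinearMap.toMatrix'_mul, trace_sq_three]
  have hdet : (LinearMap.toMatrix' (ρ g)).det = 1 := by
    rw [LinearMap.det_toMatrix']
    exact Cfsg.Agent.MTwelve.SmallDegree.det_eq_one hperf ρ g
  have h1 : LinearMap.toMatrix' (ρ g) * LinearMap.toMatrix' (ρ g⁻¹) = 1 := by
    rw [← LinearMap.toMatrix'_mul, ← map_mul, mul_inv_cancel, map_one, LinearMap.toMatrix'_one]
  have h2 : (LinearMap.toMatrix' (ρ g)).adjugate = LinearMap.toMatrix' (ρ g⁻¹) := by
    calc (LinearMap.toMatrix' (ρ g)).adjugate =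
        (LinearMap.toMatrix' (ρ g)).adjugate * (LinearMap.toMatrix' (ρ g) *
          LinearMap.toMatrix' (ρ g⁻¹)) := by rw [h1, mul_one]
      _ = LinearMap.toMatrix' (ρ g⁻¹) := by
        rw [← mul_assoc, Matrix.adjugate_mul, hdet, one_smul, one_mul]
  rw [h2]

/-- The symmetric square. -/
theorem isCharacter_sym (hperf : commutator G = ⊤) {V : G → ℂ} (hV : IsCharacter G V)
    (h3 : V 1 = 3) : IsCharacter G (V * V - cj V) := by
  have h := Cfsg.Agent.PermChar.SymAlt.isCharacter_symSq hV
  have : V * V - cj V = fun g => (V g ^ 2 + V (g * g)) / 2 := by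
    funext g
    rw [apply_mul_self hperf hV h3 g]
    simp only [Pi.sub_apply, Pi.mul_apply, cj_apply]
    ring
  rw [this]
  exact h

theorem A.one3 {V : G → ℂ} (hV : A u V 3) : V 1 = 3 := by rw [hV.one]; norm_num

theorem A.val3 {V : G → ℂ} (hV : A u V 3) : V u = -1 := by rw [hV.val]; norm_num

theorem real_apply {V : G → ℂ} (h : V = cj V) (g : G) : conj (V g) = V g :=
  (congrFun h g).symm

/-- Non-real case: the symmetric square is irreducible of degree six. -/
theorem A_six (H : Hyp G u) {V : G → ℂ} (hV : A u V 3) (hne : V ≠ cj V) :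
    A u (V * V - cj V) 6 := by
  apply H.oneC
  refine ⟨isCharacter_sym H.perf hV.char (A.one3 hV), ?_, ?_, ?_⟩
  · rw [classInner_sub_left, ip_one_le hV.irr hV.irr, if_neg hne, hV.cj.ip_one, sub_zero]
  · rw [Pi.sub_apply, Pi.mul_apply, cj_apply, A.one3 hV, Complex.conj_ofNat]; norm_num
  · rw [Pi.sub_apply, Pi.mul_apply, cj_apply, A.val3 hV]
    simp
    norm_num

/-- Real case: the symmetric square is `1 + ψ`. -/
theorem A_five (H : Hyp G u) {V : G → ℂ} (hV : A u V 3) (hre : V = cj V) :
    A u (V * V - V - 1) 5 := by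
  apply H.oneC
  have hc := isCharacter_sym H.perf hV.char (A.one3 hV)
  rw [← hre] at hc
  have hip : classInner (V * V - V) 1 = 1 := by
    rw [classInner_sub_left, ip_one_le hV.irr hV.irr, if_pos hre, hV.ip_one, sub_zero]
  refine ⟨isCharacter_sub hc isIrr_one (by rw [hip]; norm_num), ?_, ?_, ?_⟩
  · rw [classInner_sub_left, hip, classInner_irr_self isIrr_one, sub_self]
  · rw [Pi.sub_apply, Pi.sub_apply, Pi.mul_apply, A.one3 hV, Pi.one_apply]; norm_num
  · rw [Pi.sub_apply, Pi.sub_apply, Pi.mul_apply, A.val3 hV, Pi.one_apply]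
    norm_num

/-- Products of two characters of degree three. -/
theorem prod_three (H : Hyp G u) {V W : G → ℂ} (hV : A u V 3) (hW : A u W 3) (hne : V ≠ cj W) :
    ∃ (α β : G → ℂ) (a b : ℕ), A u α a ∧ A u β b ∧ V * W = α + β ∧ a + b = 9 ∧ a < b := by
  have hC : C u (V * W) 9 2 := by
    refine ⟨isCharacter_mul hV.char hW.char, ?_, ?_, ?_⟩
    · rw [ip_one_le hV.irr hW.irr, if_neg hne]
    · rw [Pi.mul_apply, A.one3 hV, A.one3 hW]; norm_num
    · rw [Pi.mul_apply, A.val3 hV, A.val3 hW]; norm_num
  rcases H.twoC hC with ⟨α, β, a, b, hα, hβ, h1, h2⟩ | ⟨_, h1, _⟩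
  · rcases Nat.lt_or_ge a b with h3 | h3
    · exact ⟨α, β, a, b, hα, hβ, h1, h2, h3⟩
    · exact ⟨β, α, b, a, hβ, hα, by rw [h1, add_comm], by omega, by omega⟩
  · omega

/-- The norm of such a product is two. -/
theorem norm_prod_three (H : Hyp G u) {V W : G → ℂ} (hV : A u V 3) (hW : A u W 3)
    (hne : V ≠ cj W) : classInner (V * W) (V * W) = 2 := by
  obtain ⟨α, β, a, b, hα, hβ, h1, h2, h3⟩ := prod_three H hV hW hne
  rw [h1, classInner_add_left, classInner_add_right, classInner_add_right, hα.ip_self, hβ.ip_self,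
    hα.ip_ne hβ h3.ne, hβ.ip_ne hα h3.ne']
  norm_num

/-- Multiplicity at most one in such a product, and no constituent of degree at least seven. -/
theorem ip_prod_three_le (H : Hyp G u) {V W : G → ℂ} (hV : A u V 3) (hW : A u W 3)
    (hne : V ≠ cj W) {χ : G → ℂ} (hχ : IsIrrCharacter G χ) :
    classInner (V * W) χ = 0 ∨ classInner (V * W) χ = 1 := by
  obtain ⟨α, β, a, b, hα, hβ, h1, h2, h3⟩ := prod_three H hV hW hne
  rw [h1, classInner_add_left]
  by_cases hαχ : α = χ
  · right
    subst hαχ
    rw [hα.ip_self, hβ.ip_ne hα h3.ne', add_zero]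
  · rw [classInner_irr_ne hα.irr hχ hαχ, zero_add]
    by_cases hβχ : β = χ
    · right; subst hβχ; exact hβ.ip_self
    · left; exact classInner_irr_ne hβ.irr hχ hβχ

theorem ip_prod_three_big (H : Hyp G u) {V W : G → ℂ} (hV : A u V 3) (hW : A u W 3)
    (hne : V ≠ cj W) {χ : G → ℂ} (hχ : IsIrrCharacter G χ) {n : ℕ} (hn : χ 1 = n) (h7 : 7 ≤ n) :
    classInner (V * W) χ = 0 := by
  obtain ⟨α, β, a, b, hα, hβ, h1, h2, h3⟩ := prod_three H hV hW hne
  have h4 := hα.three
  rw [h1, classInner_add_left, classInner_irr_ne hα.irr hχ, classInner_irr_ne hβ.irr hχ, add_zero]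
  · rintro rfl
    have : b = n := by exact_mod_cast hβ.one.symm.trans hn
    omega
  · rintro rfl
    have : a = n := by exact_mod_cast hα.one.symm.trans hn
    omega

/-- **All characters of degree three are real.** -/
theorem real_of_three (H : Hyp G u) {V : G → ℂ} (hV : A u V 3) : V = cj V := by
  by_contra hne
  have h6 := A_six H hV hne
  set χ6 : G → ℂ := V * V - cj V with hχ6
  have hVV : V * V = χ6 + cj V := by rw [hχ6]; ring
  have hcjV := hV.cj
  -- `θ`
  set θ : G → ℂ := V * cj V - 1 with hθ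
  have hVcV : V * cj V = 1 + θ := by rw [hθ]; ring
  have hcVV : cj V * V = 1 + θ := by rw [mul_comm]; exact hVcV
  have hVcVc : IsCharacter G (V * cj V) := isCharacter_mul hV.char hcjV.char
  have hip1 : classInner (V * cj V) 1 = 1 := by
    rw [ip_one_le hV.irr hcjV.irr, cj_cj, if_pos rfl]
  have hθc : IsCharacter G θ := isCharacter_sub hVcVc isIrr_one (by rw [hip1]; norm_num)
  have hθ1 : classInner θ 1 = 0 := by
    rw [hθ, classInner_sub_left, hip1, classInner_irr_self isIrr_one, sub_self]
  have h1θ : classInner 1 θ = 0 := by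
    rw [ip_comm_real isCharacter_one hθc, hθ1]
  have hnormVV : classInner (V * cj V) (V * cj V) = 2 := by
    rw [← norm_prod_three H hV hV hne]
    exact ip_congr fun g => by simp [cj_apply]; ring
  have hθθ : classInner θ θ = 1 := by
    have := hnormVV
    rw [hVcV, classInner_add_left, classInner_add_right, classInner_add_right,
      classInner_irr_self isIrr_one, h1θ, hθ1] at this
    linear_combination this
  have hθirr : IsIrrCharacter G θ := isIrr_of_classInner_self hθc hθθ
  have hθ8 : θ 1 = (8 : ℕ) := by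
    rw [hθ, Pi.sub_apply, Pi.mul_apply, cj_apply, A.one3 hV, Complex.conj_ofNat, Pi.one_apply]
    norm_num
  -- all `W` of degree three have the same `θ`
  have hWθ : ∀ W : G → ℂ, A u W 3 → W * cj W = 1 + θ := by
    intro W hW
    by_cases h1 : V = cj W
    · rw [h1] at hVcV
      rw [cj_cj] at hVcV
      rw [mul_comm]; exact hVcV
    have h2 : classInner (W * cj W) (V * cj V) = 2 := by
      rw [← norm_prod_three H hV hW h1]
      exact ip_congr fun g => by simp [cj_apply]; ring
    have hipW : classInner (W * cj W) 1 = 1 := by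
      rw [ip_one_le hW.irr hW.cj.irr, cj_cj, if_pos rfl]
    have hWc : IsCharacter G (W * cj W - 1) :=
      isCharacter_sub (isCharacter_mul hW.char hW.cj.char) isIrr_one (by rw [hipW]; norm_num)
    have h3 : classInner (W * cj W - 1) θ = 1 := by
      rw [hVcV, classInner_add_right, hipW] at h2
      rw [classInner_sub_left, h1θ, sub_zero]
      linear_combination h2
    have h4 := isCharacter_sub hWc hθirr (by rw [h3]; norm_num)
    have h5 := eq_zero_of_apply_one h4 (by
      rw [Pi.sub_apply, Pi.sub_apply, Pi.mul_apply, cj_apply, A.one3 hW, Complex.conj_ofNat,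
        Pi.one_apply, hθ8]
      norm_num)
    rw [sub_sub, sub_eq_zero] at h5
    exact h5
  -- products `V W`, `V W'` are orthogonal
  have horth : ∀ X W W' : G → ℂ, A u X 3 → A u W 3 → A u W' 3 → W ≠ W' →
      classInner (X * W) (X * W') = 0 := by
    intro X W W' hX hW hW' hWW'
    have e1 : classInner (X * W) (X * W') = classInner (W * cj W') (X * cj X) :=
      ip_congr fun g => by simp [cj_apply]; ring
    rw [e1, hWθ X hX, classInner_add_right]
    have hne' : W ≠ cj (cj W') := by rw [cj_cj]; exact hWW'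
    rw [ip_one_le hW.irr hW'.cj.irr, if_neg hne', zero_add]
    exact ip_prod_three_big H hW hW'.cj hne' hθirr hθ8 (by norm_num)
  -- `V χ6 = θ + Q`
  have hVχc : IsCharacter G (V * χ6) := isCharacter_mul hV.char h6.char
  have hQ : classInner (V * χ6) θ ≠ 0 := by
    -- `[V χ6, V cj V] = [χ6 ^ 2, V] + 1`
    have e1 : classInner (V * χ6) (V * cj V) = classInner (χ6 * (V * V)) V :=
      ip_congr fun g => by simp [cj_apply]; ring
    have e2 : classInner (χ6 * cj V) V = 1 := by
      have : classInner (χ6 * cj V) V = classInner χ6 (V * V) :=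
        ip_congr fun g => by simp [cj_apply]; ring
      rw [this, hVV, classInner_add_right, h6.ip_self, h6.ip_ne hcjV (by norm_num), add_zero]
    have e3 : classInner (V * χ6) 1 = 0 := by
      rw [ip_one_le hV.irr h6.irr, if_neg]
      intro h
      have := h6.cj.one
      rw [← h, A.one3 hV] at this
      norm_num at this
    rw [hVV, mul_add, classInner_add_left, e2] at e1
    rw [hVcV, classInner_add_right, e3, zero_add] at e1
    obtain ⟨n, hn⟩ := classInner_isNat (isCharacter_mul h6.char h6.char) hV.char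
    rw [e1, hn]
    have : ((n + 1 : ℕ) : ℂ) ≠ 0 := Nat.cast_ne_zero.2 (Nat.succ_ne_zero n)
    exact_mod_cast this
  have hQc := isCharacter_sub hVχc hθirr hQ
  have e3 : classInner (V * χ6) 1 = 0 := by
    rw [ip_one_le hV.irr h6.irr, if_neg]
    intro h
    have := h6.cj.one
    rw [← h, A.one3 hV] at this
    norm_num at this
  have hθu : θ u = 0 := by
    rw [hθ, Pi.sub_apply, Pi.mul_apply, cj_apply, A.val3 hV, Pi.one_apply]
    simp
  have hQC : C u (V * χ6 - θ) 10 3 := by
    refine ⟨hQc, ?_, ?_, ?_⟩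
    · rw [classInner_sub_left, e3, hθ1, sub_zero]
    · rw [Pi.sub_apply, Pi.mul_apply, A.one3 hV, h6.one, hθ8]; norm_num
    · rw [Pi.sub_apply, Pi.mul_apply, A.val3 hV, h6.val, hθu]; norm_num
  obtain ⟨α, β, γ, a, b, c, hα, hβ, hγ, hsum, habc⟩ := H.threeC hQC (by norm_num)
  have ha := hα.three
  have hb := hβ.three
  have hc := hγ.three
  -- two of the constituents have degree three
  have htwo : ∃ W W' X : G → ℂ, A u W 3 ∧ A u W' 3 ∧ IsCharacter G X ∧
      V * χ6 - θ = W + W' + X := by
    have h3 : (a = 3 ∧ b = 3) ∨ (a = 3 ∧ c = 3) ∨ (b = 3 ∧ c = 3) := by omega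
    rcases h3 with ⟨rfl, rfl⟩ | ⟨rfl, rfl⟩ | ⟨rfl, rfl⟩
    · exact ⟨α, β, γ, hα, hβ, hγ.char, hsum⟩
    · exact ⟨α, γ, β, hα, hγ, hβ.char, by rw [hsum]; ring⟩
    · exact ⟨β, γ, α, hβ, hγ, hα.char, by rw [hsum]; ring⟩
  obtain ⟨W, W', X, hW, hW', hX, hsum'⟩ := htwo
  have hVχ : V * χ6 = θ + (W + W' + X) := by rw [← hsum']; ring
  -- multiplicities
  have hmult : ∀ Y : G → ℂ, A u Y 3 → classInner (V * χ6) Y = classInner (cj V * Y) χ6 := by
    intro Y hY
    have e1 : classInner (V * χ6) Y = classInner χ6 (cj V * Y) :=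
      ip_congr fun g => by simp [cj_apply]; ring
    rw [e1, ip_comm_real h6.char (isCharacter_mul hcjV.char hY.char)]
  have hVchi : ∀ Y : G → ℂ, A u Y 3 → classInner (V * χ6) Y = 0 ∨ classInner (V * χ6) Y = 1 := by
    intro Y hY
    rw [hmult Y hY]
    by_cases hYV : cj V = cj Y
    · left
      have : V = Y := by rw [← cj_cj V, hYV, cj_cj]
      subst this
      rw [hcVV, classInner_add_left, h6.one_ip, zero_add]
      apply classInner_irr_ne hθirr h6.irr
      intro h
      have := h6.one
      rw [← h, hθ8] at this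
      norm_num at this
    · exact ip_prod_three_le H hcjV hY hYV h6.irr
  have hθW : ∀ Y : G → ℂ, A u Y 3 → classInner θ Y = 0 := by
    intro Y hY
    apply classInner_irr_ne hθirr hY.irr
    intro h
    have := hY.one
    rw [← h, hθ8] at this
    norm_num at this
  have hnat : ∀ Y Z : G → ℂ, IsCharacter G Y → IsCharacter G Z → ∃ n : ℕ, classInner Y Z = n :=
    fun Y Z hY hZ => classInner_isNat hY hZ
  have hWW' : W ≠ W' := by
    rintro rfl
    obtain ⟨n, hn⟩ := hnat X W hX hW.char
    have h1 : classInner (V * χ6) W = ((n + 2 : ℕ) : ℂ) := by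
      rw [hVχ, classInner_add_left, classInner_add_left, classInner_add_left, hθW W hW, hW.ip_self, hn]
      push_cast; ring
    rcases hVchi W hW with h2 | h2
    · rw [h1] at h2
      have : n + 2 = 0 := by exact_mod_cast h2
      omega
    · rw [h1] at h2
      have : n + 2 = 1 := by exact_mod_cast h2
      omega
  have hpos1 : classInner (V * χ6) W ≠ 0 := by
    obtain ⟨n, hn⟩ := hnat X W hX hW.char
    obtain ⟨m, hm⟩ := hnat W' W hW'.char hW.char
    have h1 : classInner (V * χ6) W = ((n + m + 1 : ℕ) : ℂ) := by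
      rw [hVχ, classInner_add_left, classInner_add_left, classInner_add_left, hθW W hW, hW.ip_self,
        hn, hm]
      push_cast; ring
    rw [h1]
    exact Nat.cast_ne_zero.2 (by omega)
  have hpos2 : classInner (V * χ6) W' ≠ 0 := by
    obtain ⟨n, hn⟩ := hnat X W' hX hW'.char
    obtain ⟨m, hm⟩ := hnat W W' hW.char hW'.char
    have h1 : classInner (V * χ6) W' = ((n + m + 1 : ℕ) : ℂ) := by
      rw [hVχ, classInner_add_left, classInner_add_left, classInner_add_left, hθW W' hW', hW'.ip_self,
        hn, hm]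
      push_cast; ring
    rw [h1]
    exact Nat.cast_ne_zero.2 (by omega)
  rw [hmult W hW] at hpos1
  rw [hmult W' hW'] at hpos2
  exact ip_ne_zero_of_common (isCharacter_mul hcjV.char hW.char) (isCharacter_mul hcjV.char hW'.char)
    h6.irr hpos1 hpos2 (horth (cj V) W W' hcjV hW hW' hWW')

end Cfsg.Agent.H668.FourMain
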