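import Cfsg.Agent.H668.FourReal

/-!
# Pointwise consequences, and the order
-/

set_option autoImplicit false
set_option linter.unusedSectionVars false
set_option linter.style.haveILetI false
open scoped ComplexConjugate
open Cfsg Cfsg.Agent.Characters.Core

namespace Cfsg.Agent.H668.FourPoint

open Cfsg.Agent.H668.CharPeel Cfsg.Agent.H668.FourTypes Cfsg.Agent.H668.FourMain
  Cfsg.Agent.H668.FourReal

universe v
variable {G : Type v} [Group G] [Fintype G] {u : G} {V W ψ ξ : G → ℂ}

theorem Five.e1 (F : Five u V W ψ ξ) (g : G) : V g * V g = 1 + V g + ψ g := congrFun F.VV g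
theorem Five.e2 (F : Five u V W ψ ξ) (g : G) : W g * W g = 1 + W g + ψ g := congrFun F.WW g
theorem Five.e3 (F : Five u V W ψ ξ) (g : G) : V g * W g = ψ g + ξ g := congrFun F.VW g
theorem Five.e4 (F : Five u V W ψ ξ) (g : G) : V g * ψ g = V g + ψ g + W g + ξ g :=
  congrFun F.Vψ g

/-- `(V + 1) (V² - 2 V - W) = 0`. -/
theorem Five.f1 (F : Five u V W ψ ξ) (g : G) : (V g + 1) * (V g ^ 2 - 2 * V g - W g) = 0 := by
  have h1 := Five.e1 F g
  have h3 := Five.e3 F g
  have h4 := Five.e4 F g
  linear_combination (V g) * h1 + h4 - h3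

/-- `(V - W) (V + W - 1) = 0`. -/
theorem Five.f2 (F : Five u V W ψ ξ) (g : G) : (V g - W g) * (V g + W g - 1) = 0 := by
  have h1 := Five.e1 F g
  have h2 := Five.e2 F g
  linear_combination h1 - h2

/-- The values of `V`. -/
theorem Five.values (F : Five u V W ψ ξ) (g : G) :
    V g = -1 ∨ (V g = 3 ∧ W g = 3) ∨ (V g = 0 ∧ W g = 0) ∨
      (V g ^ 2 - V g - 1 = 0 ∧ W g = 1 - V g) := by
  rcases mul_eq_zero.1 (Five.f1 F g) with h | h
  · left; linear_combination h
  · right
    have hw : W g = V g ^ 2 - 2 * V g := by linear_combination -h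
    have h2 := Five.f2 F g
    rw [hw] at h2
    have h3 : V g * ((3 - V g) * (V g ^ 2 - V g - 1)) = 0 := by linear_combination h2
    rcases mul_eq_zero.1 h3 with h4 | h4
    · right; left
      refine ⟨h4, ?_⟩
      rw [hw, h4]; norm_num
    · rcases mul_eq_zero.1 h4 with h5 | h5
      · left
        have : V g = 3 := by linear_combination -h5
        refine ⟨this, ?_⟩
        rw [hw, this]; norm_num
      · right; right
        refine ⟨h5, ?_⟩
        rw [hw]
        linear_combination h5

/-- At elements with `V = -1`. -/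
theorem Five.neg_one (H : Hyp G u) (F : Five u V W ψ ξ) {g : G} (h : V g = -1) :
    W g = -1 ∧ ψ g = 1 ∧ ξ g = 0 := by
  have h1 := Five.e1 F g
  have h2 := Five.e2 F g
  have h3 := Five.e3 F g
  have hψ : ψ g = 1 := by rw [h] at h1; linear_combination -h1
  have hW : W g = -1 := by
    rw [hψ] at h2
    have h5 : (W g + 1) * (W g - 2) = 0 := by linear_combination h2
    rcases mul_eq_zero.1 h5 with h6 | h6
    · linear_combination h6
    · exfalso
      have hw : W g = 2 := by linear_combination h6
      have s1 := sq_apply H F.aV g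
      have s2 := sq_apply H F.aW g
      rw [h] at s1
      rw [hw] at s2
      have s1' : V (g * g) = 3 := by rw [s1]; norm_num
      have s2' : W (g * g) = 0 := by rw [s2]; norm_num
      rcases Five.values F (g * g) with h7 | h7 | h7 | h7
      · rw [s1'] at h7; norm_num at h7
      · rw [s2'] at h7; norm_num at h7
      · rw [s1'] at h7; norm_num at h7
      · rw [s1'] at h7; norm_num at h7
  refine ⟨hW, hψ, ?_⟩
  rw [h, hW, hψ] at h3
  linear_combination -h3

/-- The regular character of the quotient. -/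
theorem Five.reg (H : Hyp G u) (F : Five u V W ψ ξ) (g : G) [Decidable (V g = 3)] :
    1 + 3 * V g + 3 * W g + 5 * ψ g + 4 * ξ g = if V g = 3 then 60 else 0 := by
  have h1 := Five.e1 F g
  have h3 := Five.e3 F g
  rcases Five.values F g with h | ⟨h, hw⟩ | ⟨h, hw⟩ | ⟨h, hw⟩
  · obtain ⟨a, b, c⟩ := Five.neg_one H F h
    rw [if_neg (by rw [h]; norm_num), h, a, b, c]; norm_num
  · rw [if_pos h]
    rw [h, hw] at h3
    rw [h] at h1
    rw [h, hw]
    have hψ : ψ g = 5 := by linear_combination -h1
    have hξ : ξ g = 4 := by rw [hψ] at h3; linear_combination -h3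
    rw [hψ, hξ]; norm_num
  · rw [if_neg (by rw [h]; norm_num)]
    rw [h, hw] at h3
    rw [h] at h1
    rw [h, hw]
    have hψ : ψ g = -1 := by linear_combination -h1
    have hξ : ξ g = 1 := by rw [hψ] at h3; linear_combination -h3
    rw [hψ, hξ]; norm_num
  · rw [if_neg (by intro h5; rw [h5] at h; norm_num at h)]
    have hψ : ψ g = 0 := by linear_combination h - h1
    have hξ : ξ g = -1 := by
      rw [hψ, hw] at h3; linear_combination -h3 - h
    rw [hψ, hξ, hw]; ring

/-- `V(x²) = -1` is impossible; more precisely `V(x) ∈ {3, -1}` for 2-elements. -/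
theorem Five.two_element (H : Hyp G u) (F : Five u V W ψ ξ) :
    ∀ (k : ℕ) (x : G), x ^ 2 ^ k = 1 → V x = 3 ∨ V x = -1 := by
  intro k
  induction k with
  | zero =>
    intro x hx
    rw [pow_zero, pow_one] at hx
    left; rw [hx]; exact A.one3 F.aV
  | succ k ih =>
    intro x hx
    have h1 : (x * x) ^ 2 ^ k = 1 := by
      rw [← sq, ← pow_mul, ← pow_succ']; exact hx
    have h2 := sq_apply H F.aV x
    rcases ih (x * x) h1 with h3 | h3
    · rw [h3] at h2
      have h4 : (V x - 3) * (V x + 1) = 0 := by linear_combination -h2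
      rcases mul_eq_zero.1 h4 with h5 | h5
      · left; linear_combination h5
      · right; linear_combination h5
    · exfalso
      rw [h3] at h2
      have h4 : (V x - 1) ^ 2 = 0 := by linear_combination -h2
      have h5 : V x = 1 := by
        have := pow_eq_zero_iff (two_ne_zero) |>.1 h4
        linear_combination this
      rcases Five.values F x with h6 | ⟨h6, _⟩ | ⟨h6, _⟩ | ⟨h6, _⟩ <;> rw [h5] at h6 <;> norm_num at h6

/-- The order of the group. -/
theorem Five.card (H : Hyp G u) (F : Five u V W ψ ξ) :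
    Nat.card G = 60 * Nat.card {g : G // V g = 3} := by
  classical
  have h1 : classInner ((1 : G → ℂ) + (3 : ℂ) • V + (3 : ℂ) • W + (5 : ℂ) • ψ + (4 : ℂ) • ξ) 1 = 1 := by
    simp only [classInner_add_left, classInner_smul_left]
    rw [classInner_irr_self isIrr_one, F.aV.ip_one, F.aW.ip_one, F.aψ.ip_one, F.aξ.ip_one]
    norm_num
  rw [classInner_def] at h1
  have h2 : ∀ g : G, ((1 : G → ℂ) + (3 : ℂ) • V + (3 : ℂ) • W + (5 : ℂ) • ψ + (4 : ℂ) • ξ) g *
      conj ((1 : G → ℂ) g) = if V g = 3 then 60 else 0 := by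
    intro g
    rw [← Five.reg H F g]
    simp
  rw [Finset.sum_congr rfl fun g _ => h2 g, ← Finset.sum_filter, Finset.sum_const, nsmul_eq_mul] at h1
  have h3 : (Nat.card G : ℂ) ≠ 0 := card_ne_zero_complex
  have h4 : ((Finset.univ.filter fun g : G => V g = 3).card : ℂ) * 60 = Nat.card G := by
    field_simp at h1
    linear_combination h1
  have h5 : (Finset.univ.filter fun g : G => V g = 3).card = Nat.card {g : G // V g = 3} := by
    rw [Nat.card_eq_fintype_card, Fintype.card_subtype]
  rw [h5] at h4
  have h6 : Nat.card {g : G // V g = 3} * 60 = Nat.card G := by exact_mod_cast h4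
  omega

/-- There are only two characters of degree three. -/
theorem Five.eq_or_eq (H : Hyp G u) (F : Five u V W ψ ξ) {U : G → ℂ} (hU : A u U 3) :
    U = V ∨ U = W := by
  classical
  by_contra hcon
  push Not at hcon
  have hUr := real_of_three H hU
  have hp : ∀ g, U g * U g - U g = V g * V g - V g := by
    intro g
    have := congrFun (psi_eq H hU F.aV) g
    simp only [Pi.sub_apply, Pi.mul_apply, Pi.one_apply] at this
    linear_combination this
  have hker : ∀ g, V g = 3 → U g = 3 := by
    intro g hg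
    have h1 := hp g
    rw [hg] at h1
    have h2 : (U g - 3) * (U g + 2) = 0 := by linear_combination h1
    rcases mul_eq_zero.1 h2 with h3 | h3
    · linear_combination h3
    · exfalso
      have h4 : U g = -2 := by linear_combination h3
      have s1 := sq_apply H hU g
      have s2 := sq_apply H F.aV g
      rw [h4] at s1
      rw [hg] at s2
      have h5 := hp (g * g)
      rw [s1, s2] at h5
      norm_num at h5
  have h1 : classInner ((1 : G → ℂ) + (3 : ℂ) • V + (3 : ℂ) • W + (5 : ℂ) • ψ + (4 : ℂ) • ξ) U = 0 := by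
    simp only [classInner_add_left, classInner_smul_left]
    rw [hU.one_ip, classInner_irr_ne F.aV.irr hU.irr (Ne.symm hcon.1),
      classInner_irr_ne F.aW.irr hU.irr (Ne.symm hcon.2), F.aψ.ip_ne hU (by norm_num),
      F.aξ.ip_ne hU (by norm_num)]
    norm_num
  rw [classInner_def] at h1
  have h2 : ∀ g : G, ((1 : G → ℂ) + (3 : ℂ) • V + (3 : ℂ) • W + (5 : ℂ) • ψ + (4 : ℂ) • ξ) g *
      conj (U g) = if V g = 3 then 180 else 0 := by
    intro g
    have h3 : ((1 : G → ℂ) + (3 : ℂ) • V + (3 : ℂ) • W + (5 : ℂ) • ψ + (4 : ℂ) • ξ) g =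
        if V g = 3 then 60 else 0 := by
      rw [← Five.reg H F g]; simp
    rw [h3]
    split_ifs with h4
    · rw [hker g h4, Complex.conj_ofNat]; norm_num
    · rw [zero_mul]
  rw [Finset.sum_congr rfl fun g _ => h2 g, ← Finset.sum_filter, Finset.sum_const, nsmul_eq_mul] at h1
  have h3 : (Nat.card G : ℂ) ≠ 0 := card_ne_zero_complex
  have h5 : (Finset.univ.filter fun g : G => V g = 3).card ≠ 0 := by
    rw [Finset.card_ne_zero]
    exact ⟨1, Finset.mem_filter.2 ⟨Finset.mem_univ _, A.one3 F.aV⟩⟩
  have h6 : ((Finset.univ.filter fun g : G => V g = 3).card : ℂ) ≠ 0 := Nat.cast_ne_zero.2 h5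
  rcases mul_eq_zero.1 h1 with h7 | h7
  · exact inv_ne_zero h3 h7
  · rcases mul_eq_zero.1 h7 with h8 | h8
    · exact h6 h8
    · norm_num at h8

end Cfsg.Agent.H668.FourPoint
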