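import Cfsg.Agent.H668.FourMain

/-!
# The real case: the characters `1, V, W, ψ, ξ` of degrees `1, 3, 3, 5, 4`
-/

set_option autoImplicit false
set_option linter.unusedSectionVars false
set_option linter.style.haveILetI false
open scoped ComplexConjugate
open Cfsg Cfsg.Agent.Characters.Core

namespace Cfsg.Agent.H668.FourReal

open Cfsg.Agent.H668.CharPeel Cfsg.Agent.H668.FourTypes Cfsg.Agent.H668.FourMain

universe v
variable {G : Type v} [Group G] [Fintype G] {u : G}

/-- The conclusion of the character theory: the five characters of `A₅`. -/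
structure Five (u : G) (V W ψ ξ : G → ℂ) : Prop where
  aV : A u V 3
  aW : A u W 3
  aψ : A u ψ 5
  aξ : A u ξ 4
  reV : ∀ g, conj (V g) = V g
  reW : ∀ g, conj (W g) = W g
  ne : V ≠ W
  VV : V * V = 1 + V + ψ
  WW : W * W = 1 + W + ψ
  VW : V * W = ψ + ξ
  Vψ : V * ψ = V + ψ + W + ξ

/-- The square of an element of the kernel-value. -/
theorem sq_apply (H : Hyp G u) {V : G → ℂ} (hV : A u V 3) (g : G) :
    V (g * g) = V g ^ 2 - 2 * V g := by
  have h := apply_mul_self H.perf hV.char (A.one3 hV) g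
  rwa [real_apply (real_of_three H hV) g] at h

/-- The common `ψ`. -/
theorem psi_eq (H : Hyp G u) {V W : G → ℂ} (hV : A u V 3) (hW : A u W 3) :
    V * V - V - 1 = W * W - W - 1 := by
  by_cases hVW : V = W
  · rw [hVW]
  have hre := real_of_three H hV
  have hrW := real_of_three H hW
  have h5 := A_five H hV hre
  have h5' := A_five H hW hrW
  set ψ : G → ℂ := V * V - V - 1 with hψ
  set ψ' : G → ℂ := W * W - W - 1 with hψ'
  have e1 : V * V = 1 + V + ψ := by rw [hψ]; ring
  have e2 : W * W = 1 + W + ψ' := by rw [hψ']; ring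
  have hne : V ≠ cj W := by rw [← hrW]; exact hVW
  have h2 : classInner (V * V) (W * W) = 2 := by
    rw [← norm_prod_three H hV hW hne]
    exact ip_congr fun g => by
      simp only [Pi.mul_apply, map_mul, real_apply hre g, real_apply hrW g]; ring
  rw [e1, e2] at h2
  simp only [classInner_add_left, classInner_add_right] at h2
  rw [classInner_irr_self isIrr_one, hW.one_ip, h5'.one_ip, hV.ip_one, h5.ip_one,
    classInner_irr_ne hV.irr hW.irr hVW, hV.ip_ne h5' (by norm_num), h5.ip_ne hW (by norm_num)] at h2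
  by_contra hcon
  rw [classInner_irr_ne h5.irr h5'.irr hcon] at h2
  norm_num at h2

/-- Existence of the five characters. -/
theorem exists_five (H : Hyp G u) (hex : ∃ V : G → ℂ, A u V 3) :
    ∃ V W ψ ξ : G → ℂ, Five u V W ψ ξ := by
  obtain ⟨V₀, hV₀⟩ := hex
  have hψ := A_five H hV₀ (real_of_three H hV₀)
  set ψ : G → ℂ := V₀ * V₀ - V₀ - 1 with hψdef
  have hV₀re := real_apply (real_of_three H hV₀)
  have hψre : ∀ g, conj (ψ g) = ψ g := by
    intro g
    simp only [hψdef, Pi.sub_apply, Pi.mul_apply, Pi.one_apply, map_sub, map_mul, map_one, hV₀re g]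
  -- square of `u`
  have huu : u * u = 1 := by rw [← sq]; exact H.sq
  -- the alternating square of `ψ`
  obtain ⟨U, hU, hUψ⟩ : ∃ U : G → ℂ, A u U 3 ∧ classInner (ψ * ψ) U ≠ 0 := by
    have hLc := Cfsg.Agent.PermChar.SymAlt.isCharacter_altSq hψ.char
    have hSc := Cfsg.Agent.PermChar.SymAlt.isCharacter_symSq hψ.char
    set L : G → ℂ := fun g => (ψ g ^ 2 - ψ (g * g)) / 2 with hL
    set S : G → ℂ := fun g => (ψ g ^ 2 + ψ (g * g)) / 2 with hS
    have hLS : ψ * ψ = L + S := by
      funext g
      simp only [hL, hS, Pi.add_apply, Pi.mul_apply]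
      ring
    have hip : classInner (ψ * ψ) 1 = 1 := by
      rw [ip_one_le hψ.irr hψ.irr, if_pos]
      funext g
      exact (hψre g).symm
    obtain ⟨m, hm⟩ := classInner_isNat hLc isCharacter_one
    obtain ⟨m', hm'⟩ := classInner_isNat hSc isCharacter_one
    have hmle : m ≤ 1 := by
      rw [hLS, classInner_add_left, hm, hm'] at hip
      have : m + m' = 1 := by exact_mod_cast hip
      omega
    have hL1 : L 1 = 10 := by
      simp only [hL, mul_one]
      rw [hψ.one]; norm_num
    have hLu : L u = -2 := by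
      simp only [hL]
      rw [huu, hψ.one, hψ.val]; norm_num
    have key : ∃ U : G → ℂ, A u U 3 ∧ classInner L U ≠ 0 := by
      have hC : ∃ L' : G → ℂ, C u L' (10 - m) 3 ∧ L = L' + (m : ℂ) • (1 : G → ℂ) := by
        rcases Nat.le_one_iff_eq_zero_or_eq_one.1 hmle with rfl | rfl
        · refine ⟨L, ⟨hLc, by rw [hm]; simp, by rw [hL1]; norm_num, by rw [hLu]; norm_num⟩, by simp⟩
        · refine ⟨L - 1, ⟨isCharacter_sub hLc isIrr_one (by rw [hm]; norm_num), ?_, ?_, ?_⟩, ?_⟩
          · rw [classInner_sub_left, hm, classInner_irr_self isIrr_one]; norm_num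
          · rw [Pi.sub_apply, hL1, Pi.one_apply]; norm_num
          · rw [Pi.sub_apply, hLu, Pi.one_apply]; norm_num
          · simp
      obtain ⟨L', hL', hLL'⟩ := hC
      obtain ⟨α, β, γ, a, b, c, hα, hβ, hγ, hsum, habc⟩ := H.threeC hL' (by omega)
      have ha := hα.three
      have hb := hβ.three
      have hc := hγ.three
      have h3 : ∃ U X : G → ℂ, A u U 3 ∧ IsCharacter G X ∧ L' = U + X := by
        have : a = 3 ∨ b = 3 ∨ c = 3 := by omega
        rcases this with rfl | rfl | rfl
        · exact ⟨α, β + γ, hα, isCharacter_add hβ.char hγ.char, by rw [hsum]; ring⟩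
        · exact ⟨β, α + γ, hβ, isCharacter_add hα.char hγ.char, by rw [hsum]; ring⟩
        · exact ⟨γ, α + β, hγ, isCharacter_add hα.char hβ.char, by rw [hsum]; ring⟩
      obtain ⟨U, X, hU, hX, hUX⟩ := h3
      refine ⟨U, hU, ?_⟩
      obtain ⟨n, hn⟩ := classInner_isNat hX hU.char
      have : classInner L U = ((n + 1 : ℕ) : ℂ) := by
        rw [hLL', hUX, classInner_add_left, classInner_add_left, classInner_smul_left, hU.one_ip,
          hU.ip_self, hn]
        push_cast; ring
      rw [this]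
      exact Nat.cast_ne_zero.2 (Nat.succ_ne_zero n)
    obtain ⟨U, hU, hLU⟩ := key
    refine ⟨U, hU, ?_⟩
    obtain ⟨n, hn⟩ := classInner_isNat hLc hU.char
    obtain ⟨n', hn'⟩ := classInner_isNat hSc hU.char
    rw [hLS, classInner_add_left, hn, hn']
    rw [hn] at hLU
    have h1 : n ≠ 0 := by
      rintro rfl; simp at hLU
    have : ((n + n' : ℕ) : ℂ) ≠ 0 := Nat.cast_ne_zero.2 (by omega)
    exact_mod_cast this
  -- rename `V = U`
  have hVeq := psi_eq H hU hV₀
  rw [← hψdef] at hVeq
  have hUr := real_of_three H hU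
  have hUre := real_apply hUr
  have hVV : U * U = 1 + U + ψ := by rw [← hVeq]; ring
  have hUψc : IsCharacter G (U * ψ) := isCharacter_mul hU.char hψ.char
  have e1 : classInner (U * ψ) U = 1 := by
    have : classInner (U * ψ) U = classInner ψ (U * U) :=
      ip_congr fun g => by simp only [Pi.mul_apply, map_mul, hUre g]; ring
    rw [this, hVV, classInner_add_right, classInner_add_right, hψ.ip_one, hψ.ip_self,
      hψ.ip_ne hU (by norm_num)]
    norm_num
  have e2 : classInner (U * ψ) ψ = classInner (ψ * ψ) U :=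
    ip_congr fun g => by simp only [Pi.mul_apply, hψre g, hUre g]; ring
  have e2' : classInner (U * ψ) ψ ≠ 0 := by rw [e2]; exact hUψ
  have e3 : classInner (U * ψ) 1 = 0 := by
    rw [ip_one_le hU.irr hψ.irr, if_neg]
    intro h
    have := hψ.cj.one
    rw [← h, A.one3 hU] at this
    norm_num at this
  have hUψ0 : classInner U ψ = 0 := hU.ip_ne hψ (by norm_num)
  have hψU0 : classInner ψ U = 0 := hψ.ip_ne hU (by norm_num)
  have c1 : IsCharacter G (U * ψ - U) := isCharacter_sub hUψc hU.irr (by rw [e1]; norm_num)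
  have c2 : IsCharacter G (U * ψ - U - ψ) := isCharacter_sub c1 hψ.irr (by
    rw [classInner_sub_left, hUψ0, sub_zero]; exact e2')
  have hR : C u (U * ψ - U - ψ) 7 2 := by
    refine ⟨c2, ?_, ?_, ?_⟩
    · rw [classInner_sub_left, classInner_sub_left, e3, hU.ip_one, hψ.ip_one]; norm_num
    · rw [Pi.sub_apply, Pi.sub_apply, Pi.mul_apply, A.one3 hU, hψ.one]; norm_num
    · rw [Pi.sub_apply, Pi.sub_apply, Pi.mul_apply, A.val3 hU, hψ.val]; norm_num
  obtain ⟨W, ξ, hW, hξ, hWξ⟩ : ∃ W ξ : G → ℂ, A u W 3 ∧ A u ξ 4 ∧ U * ψ - U - ψ = W + ξ := by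
    rcases H.twoC hR with ⟨α, β, a, b, hα, hβ, h1, h2⟩ | ⟨_, h1, _⟩
    · have ha := hα.three
      have hb := hβ.three
      have : (a = 3 ∧ b = 4) ∨ (a = 4 ∧ b = 3) := by omega
      rcases this with ⟨rfl, rfl⟩ | ⟨rfl, rfl⟩
      · exact ⟨α, β, hα, hβ, h1⟩
      · exact ⟨β, α, hβ, hα, by rw [h1, add_comm]⟩
    · omega
  have hUψeq : U * ψ = U + ψ + W + ξ := by linear_combination hWξ
  have hUW : U ≠ W := by
    intro h
    rw [hUψeq, ← h] at e1
    simp only [classInner_add_left] at e1
    rw [hU.ip_self, hψU0, hξ.ip_ne hU (by norm_num)] at e1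
    norm_num at e1
  have hWr := real_of_three H hW
  have hWre := real_apply hWr
  have hWeq := psi_eq H hW hV₀
  rw [← hψdef] at hWeq
  have hWW : W * W = 1 + W + ψ := by rw [← hWeq]; ring
  have hUW0 : classInner U W = 0 := classInner_irr_ne hU.irr hW.irr hUW
  have hWU0 : classInner W U = 0 := classInner_irr_ne hW.irr hU.irr hUW.symm
  have hξψ0 : classInner ξ ψ = 0 := hξ.ip_ne hψ (by norm_num)
  have hψξ0 : classInner ψ ξ = 0 := hψ.ip_ne hξ (by norm_num)
  have hξU0 : classInner ξ U = 0 := hξ.ip_ne hU (by norm_num)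
  have hUξ0 : classInner U ξ = 0 := hU.ip_ne hξ (by norm_num)
  have hξW0 : classInner ξ W = 0 := hξ.ip_ne hW (by norm_num)
  have hWξ0 : classInner W ξ = 0 := hW.ip_ne hξ (by norm_num)
  have hψW0 : classInner ψ W = 0 := hψ.ip_ne hW (by norm_num)
  have hWψ0 : classInner W ψ = 0 := hW.ip_ne hψ (by norm_num)
  -- `U W = ψ + ξ'`
  have hneUW : U ≠ cj W := by rw [← hWr]; exact hUW
  obtain ⟨α, β, a, b, hα, hβ, hUWeq, hab, hlt⟩ := prod_three H hU hW hneUW
  have hUWψ : classInner (U * W) ψ = 1 := by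
    have : classInner (U * W) ψ = classInner (U * ψ) W :=
      ip_congr fun g => by simp only [Pi.mul_apply, hψre g, hWre g]; ring
    rw [this, hUψeq]
    simp only [classInner_add_left]
    rw [hUW0, hψW0, hW.ip_self, hξW0]
    norm_num
  obtain ⟨ξ', hξ', hUWeq'⟩ : ∃ ξ' : G → ℂ, A u ξ' 4 ∧ U * W = ψ + ξ' := by
    have ha := hα.three
    rw [hUWeq, classInner_add_left] at hUWψ
    have h3 : (a = 3 ∧ b = 6) ∨ (a = 4 ∧ b = 5) := by omega
    rcases h3 with ⟨rfl, rfl⟩ | ⟨rfl, rfl⟩
    · rw [hα.ip_ne hψ (by norm_num), hβ.ip_ne hψ (by norm_num)] at hUWψ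
      norm_num at hUWψ
    · rw [hα.ip_ne hψ (by norm_num), zero_add] at hUWψ
      have : β = ψ := by
        by_contra hne
        rw [classInner_irr_ne hβ.irr hψ.irr hne] at hUWψ
        norm_num at hUWψ
      subst this
      exact ⟨α, hα, by rw [hUWeq, add_comm]⟩
  -- norms
  have n1 : classInner (U * ψ) (U * ψ) = 4 := by
    rw [hUψeq]
    simp only [classInner_add_left, classInner_add_right]
    rw [hU.ip_self, hψ.ip_self, hW.ip_self, hξ.ip_self, hUψ0, hψU0, hUW0, hWU0, hUξ0, hξU0, hψW0,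
      hWψ0, hψξ0, hξψ0, hWξ0, hξW0]
    norm_num
  have hψψU : classInner (ψ * ψ) U = 1 := by
    rw [← e2, hUψeq]
    simp only [classInner_add_left]
    rw [hUψ0, hψ.ip_self, hWψ0, hξψ0]
    norm_num
  have hψψ1 : classInner (ψ * ψ) 1 = 1 := by
    rw [ip_one_le hψ.irr hψ.irr, if_pos]
    funext g
    exact (hψre g).symm
  have n2 : classInner (ψ * ψ) ψ = 2 := by
    have : classInner (U * ψ) (U * ψ) = classInner (ψ * ψ) (U * U) :=
      ip_congr fun g => by simp only [Pi.mul_apply, map_mul, hψre g, hUre g]; ring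
    rw [this, hVV, classInner_add_right, classInner_add_right, hψψ1, hψψU] at n1
    linear_combination n1
  -- `W ψ`
  have hWψc : IsCharacter G (W * ψ) := isCharacter_mul hW.char hψ.char
  have f1 : classInner (W * ψ) W = 1 := by
    have : classInner (W * ψ) W = classInner ψ (W * W) :=
      ip_congr fun g => by simp only [Pi.mul_apply, map_mul, hWre g]; ring
    rw [this, hWW, classInner_add_right, classInner_add_right, hψ.ip_one, hψ.ip_self, hψW0]
    norm_num
  have f2 : classInner (W * ψ) U = 1 := by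
    have : classInner (W * ψ) U = classInner (U * W) ψ :=
      ip_congr fun g => by simp only [Pi.mul_apply, hψre g, hUre g]; ring
    rw [this, hUWeq', classInner_add_left, hψ.ip_self, hξ'.ip_ne hψ (by norm_num)]
    norm_num
  have f3 : classInner (W * ψ) 1 = 0 := by
    rw [ip_one_le hW.irr hψ.irr, if_neg]
    intro h
    have := hψ.cj.one
    rw [← h, A.one3 hW] at this
    norm_num at this
  have c3 : IsCharacter G (W * ψ - W) := isCharacter_sub hWψc hW.irr (by rw [f1]; norm_num)
  have c4 : IsCharacter G (W * ψ - W - U) := isCharacter_sub c3 hU.irr (by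
    rw [classInner_sub_left, hWU0, sub_zero, f2]; norm_num)
  have hR' : C u (W * ψ - W - U) 9 2 := by
    refine ⟨c4, ?_, ?_, ?_⟩
    · rw [classInner_sub_left, classInner_sub_left, f3, hW.ip_one, hU.ip_one]; norm_num
    · rw [Pi.sub_apply, Pi.sub_apply, Pi.mul_apply, A.one3 hU, A.one3 hW, hψ.one]; norm_num
    · rw [Pi.sub_apply, Pi.sub_apply, Pi.mul_apply, A.val3 hU, A.val3 hW, hψ.val]; norm_num
  obtain ⟨α', β', a', b', hα', hβ', hR'eq, hab'⟩ :
      ∃ (α' β' : G → ℂ) (a' b' : ℕ), A u α' a' ∧ A u β' b' ∧ W * ψ - W - U = α' + β' ∧ a' + b' = 9 := by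
    rcases H.twoC hR' with h | ⟨_, h1, _⟩
    · exact h
    · omega
  have hWψeq : W * ψ = W + U + α' + β' := by linear_combination hR'eq
  have hcross : ∀ χ : G → ℂ, ∀ d : ℕ, A u χ d → ∃ n : ℕ, classInner χ U = n :=
    fun χ d h => classInner_isNat h.char hU.char
  have hα'U : classInner α' U = 0 ∧ classInner β' U = 0 := by
    obtain ⟨n, hn⟩ := classInner_isNat hα'.char hU.char
    obtain ⟨m, hm⟩ := classInner_isNat hβ'.char hU.char
    rw [hWψeq] at f2
    simp only [classInner_add_left] at f2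
    rw [hWU0, hU.ip_self, hn, hm] at f2
    have : n + m = 0 := by
      have : ((n + m : ℕ) : ℂ) = 0 := by push_cast; linear_combination f2
      exact_mod_cast this
    have hn0 : n = 0 := by omega
    have hm0 : m = 0 := by omega
    rw [hn, hm, hn0, hm0]; simp
  have hα'W : classInner α' W = 0 ∧ classInner β' W = 0 := by
    obtain ⟨n, hn⟩ := classInner_isNat hα'.char hW.char
    obtain ⟨m, hm⟩ := classInner_isNat hβ'.char hW.char
    rw [hWψeq] at f1
    simp only [classInner_add_left] at f1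
    rw [hUW0, hW.ip_self, hn, hm] at f1
    have : n + m = 0 := by
      have : ((n + m : ℕ) : ℂ) = 0 := by push_cast; linear_combination f1
      exact_mod_cast this
    have hn0 : n = 0 := by omega
    have hm0 : m = 0 := by omega
    rw [hn, hm, hn0, hm0]; simp
  have hα'β' : classInner α' β' = 0 ∧ classInner β' α' = 0 := by
    have : a' ≠ b' := by omega
    exact ⟨hα'.ip_ne hβ' this, hβ'.ip_ne hα' this.symm⟩
  have n3 : classInner (W * ψ) (W * ψ) = 4 := by
    rw [hWψeq]
    simp only [classInner_add_left, classInner_add_right]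
    rw [hW.ip_self, hU.ip_self, hα'.ip_self, hβ'.ip_self, hWU0, hUW0, hα'U.1, hα'U.2, hα'W.1, hα'W.2,
      hα'β'.1, hα'β'.2, ip_comm_real hW.char hα'.char, ip_comm_real hW.char hβ'.char,
      ip_comm_real hU.char hα'.char, ip_comm_real hU.char hβ'.char, hα'U.1, hα'U.2, hα'W.1, hα'W.2]
    norm_num
  have hψψW : classInner (ψ * ψ) W = 1 := by
    have : classInner (W * ψ) (W * ψ) = classInner (ψ * ψ) (W * W) :=
      ip_congr fun g => by simp only [Pi.mul_apply, map_mul, hψre g, hWre g]; ring
    rw [this, hWW, classInner_add_right, classInner_add_right, hψψ1, n2] at n3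
    linear_combination n3
  -- `ξ' = ξ`
  have hξξ : classInner ξ' ξ = 1 := by
    have h1 : classInner (U * W) (U * ψ) = classInner (W * ψ) (U * U) :=
      ip_congr fun g => by simp only [Pi.mul_apply, map_mul, hψre g, hUre g]; ring
    have h2 : classInner (W * ψ) ψ = classInner (ψ * ψ) W :=
      ip_congr fun g => by simp only [Pi.mul_apply, hψre g, hWre g]; ring
    rw [hVV, classInner_add_right, classInner_add_right, f3, f2, h2, hψψW, hUWeq', hUψeq] at h1
    simp only [classInner_add_left, classInner_add_right] at h1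
    rw [hψ.ip_self, hψU0, hψW0, hψξ0, hξ'.ip_ne hU (by norm_num), hξ'.ip_ne hψ (by norm_num),
      hξ'.ip_ne hW (by norm_num)] at h1
    linear_combination h1
  have hξeq : ξ' = ξ := by
    by_contra hne
    rw [classInner_irr_ne hξ'.irr hξ.irr hne] at hξξ
    norm_num at hξξ
  rw [hξeq] at hUWeq'
  exact ⟨U, W, ψ, ξ, hU, hW, hψ, hξ, hUre, hWre, hUW, hVV, hWW, hUWeq', hUψeq⟩

end Cfsg.Agent.H668.FourReal
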