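import Cfsg.Agent.H668.CharPeel
import Cfsg.Agent.PermChar.SymAlt

/-!
# The types of irreducible characters under `χ(1) - χ(u) = 4` or `χ(u) = 0`

`G` is perfect, `u ^ 2 = 1`, and every non-principal irreducible character `χ` has `χ(1) - χ(u) = 4` or
`χ(u) = 0`.
-/

set_option autoImplicit false
set_option linter.unusedSectionVars false
set_option linter.style.haveILetI false
open scoped ComplexConjugate
open Cfsg Cfsg.Agent.Characters.Core

namespace Cfsg.Agent.H668.FourTypes

open Cfsg.Agent.H668.CharPeel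

universe v
variable {G : Type v} [Group G] [Fintype G]

/-- The hypothesis, with `u ^ 2 = 1`. -/
structure Hyp (G : Type v) [Group G] (u : G) : Prop where
  perf : commutator G = ⊤
  sq : u ^ 2 = 1
  val : ∀ χ : G → ℂ, IsIrrCharacter G χ → χ ≠ 1 → χ 1 - χ u = 4 ∨ χ u = 0

/-- The small characters: `χ(1) = d`, `χ(u) = d - 4`. -/
structure A (u : G) (χ : G → ℂ) (d : ℕ) : Prop where
  irr : IsIrrCharacter G χ
  ne : χ ≠ 1
  one : χ 1 = d
  val : χ u = d - 4
  three : 3 ≤ d

variable {u : G}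

theorem A.char {χ : G → ℂ} {d : ℕ} (h : A u χ d) : IsCharacter G χ := isIrr_isCharacter h.irr

theorem A.cj {χ : G → ℂ} {d : ℕ} (h : A u χ d) : A u (cj χ) d where
  irr := isIrr_cj h.irr
  ne := by
    intro h1
    apply h.ne
    have := congrArg CharPeel.cj h1
    rw [cj_cj] at this
    rw [this]
    funext g
    simp [CharPeel.cj]
  one := by rw [cj_apply, h.one]; simp
  val := by
    rw [cj_apply, h.val, map_sub, Complex.conj_natCast]
    congr 1
    exact Complex.conj_ofNat 4
  three := h.three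

theorem A.ip_self {χ : G → ℂ} {d : ℕ} (h : A u χ d) : classInner χ χ = 1 := classInner_irr_self h.irr

theorem A.ip_one {χ : G → ℂ} {d : ℕ} (h : A u χ d) : classInner χ 1 = 0 :=
  classInner_irr_ne h.irr isIrr_one h.ne

theorem A.one_ip {χ : G → ℂ} {d : ℕ} (h : A u χ d) : classInner 1 χ = 0 :=
  classInner_irr_ne isIrr_one h.irr h.ne.symm

theorem A.ip_ne {χ ψ : G → ℂ} {d e : ℕ} (h : A u χ d) (h' : A u ψ e) (hde : d ≠ e) :
    classInner χ ψ = 0 := by
  apply classInner_irr_ne h.irr h'.irr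
  rintro rfl
  exact hde (by exact_mod_cast h.one.symm.trans h'.one)

/-- A nontrivial linear character does not exist. -/
theorem Hyp.deg_ne_one (H : Hyp G u) {χ : G → ℂ} (hχ : IsIrrCharacter G χ) (hne : χ ≠ 1) :
    χ 1 ≠ 1 := by
  intro h1
  obtain ⟨f, hf⟩ := Cfsg.Agent.Characters.Linear.exists_hom_of_isIrrCharacter hχ h1
  apply hne
  have h2 := Abelianization.commutator_subset_ker f
  rw [H.perf] at h2
  rw [hf]
  funext g
  have : g ∈ f.ker := h2 (Subgroup.mem_top g)
  rw [MonoidHom.mem_ker] at this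
  simp [this]

/-- The value at `u` is congruent to the degree modulo four. -/
theorem Hyp.four (H : Hyp G u) {χ : G → ℂ} (hχ : IsCharacter G χ) : ∃ k : ℕ, χ 1 = χ u + 4 * k :=
  Cfsg.Agent.MTwelve.SmallDegree.character_eq_add_four_mul H.perf hχ H.sq

/-- Degree minus value is at least four, or the degree is `4 e ≥ 8` and the value zero. Degree two is
excluded via the square of the character. -/
theorem Hyp.types (H : Hyp G u) {χ : G → ℂ} (hχ : IsIrrCharacter G χ) (hne : χ ≠ 1) :
    (∃ d : ℕ, A u χ d) ∨ ∃ e : ℕ, 2 ≤ e ∧ χ 1 = 4 * e ∧ χ u = 0 := by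
  obtain ⟨n, hn0, hn⟩ := isIrr_apply_one hχ
  have hn1 : n ≠ 1 := by
    rintro rfl
    exact H.deg_ne_one hχ hne (by rw [hn]; simp)
  have hpos : ∀ ψ : G → ℂ, IsIrrCharacter G ψ → ψ ≠ 1 → ∃ k : ℕ, 0 < k ∧ ψ 1 = ψ u + 4 * k := by
    intro ψ hψ hψ1
    obtain ⟨k, hk⟩ := H.four (isIrr_isCharacter hψ)
    refine ⟨k, ?_, hk⟩
    rcases Nat.eq_zero_or_pos k with h0 | h0
    · exfalso
      rw [h0] at hk
      have h1 : ψ 1 - ψ u = 0 := by rw [hk]; simp
      rcases H.val ψ hψ hψ1 with h2 | h2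
      · rw [h1] at h2; norm_num at h2
      · rw [h2, sub_zero] at h1
        exact isIrr_apply_one_ne_zero hψ h1
    · exact h0
  rcases H.val χ hχ hne with h1 | h1
  · left
    refine ⟨n, hχ, hne, hn, ?_, ?_⟩
    · rw [hn] at h1; linear_combination -h1
    · by_contra hlt
      have hn2 : n = 2 := by omega
      subst hn2
      have hu : χ u = -2 := by
        rw [hn] at h1; push_cast at h1; linear_combination -h1
      -- `χ ^ 2` is constant `4`
      have hc : IsCharacter G (χ * χ) := isCharacter_mul (isIrr_isCharacter hχ) (isIrr_isCharacter hχ)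
      -- every character with `φ 1 = φ u` has only trivial constituents
      have key : ∀ (k : ℕ) (φ : G → ℂ), IsCharacter G φ → φ 1 = k → φ u = φ 1 →
          classInner φ 1 = k := by
        intro k
        induction k with
        | zero =>
          intro φ hφ h0 _
          rw [eq_zero_of_apply_one hφ (by rw [h0]; simp)]
          simp [classInner_zero_left]
        | succ k ih =>
          intro φ hφ h0 h2
          have hφ0 : φ ≠ 0 := by
            rintro rfl
            rw [Pi.zero_apply] at h0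
            have : ((k + 1 : ℕ) : ℂ) ≠ 0 := Nat.cast_ne_zero.2 (Nat.succ_ne_zero k)
            exact this h0.symm
          obtain ⟨ψ, hψ, hψφ⟩ := exists_constituent hφ hφ0
          have hsub := isCharacter_sub hφ hψ hψφ
          by_cases hψ1 : ψ = 1
          · subst hψ1
            have := ih (φ - 1) hsub (by rw [Pi.sub_apply, Pi.one_apply, h0]; push_cast; ring)
              (by rw [Pi.sub_apply, Pi.sub_apply, h2]; rfl)
            rw [classInner_sub_left, classInner_irr_self isIrr_one] at this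
            push_cast
            linear_combination this
          · exfalso
            obtain ⟨k1, hk1, hk2⟩ := hpos ψ hψ hψ1
            obtain ⟨k3, hk3⟩ := H.four hsub
            rw [Pi.sub_apply, Pi.sub_apply, h2, hk2] at hk3
            have h5 : ((4 * (k3 + k1) : ℕ) : ℂ) = 0 := by
              push_cast; linear_combination -hk3
            have h6 : 4 * (k3 + k1) = 0 := by exact_mod_cast h5
            omega
      have h2 := key 4 (χ * χ) hc (by rw [Pi.mul_apply, hn]; norm_num)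
        (by rw [Pi.mul_apply, Pi.mul_apply, hn, hu]; norm_num)
      rw [ip_one_le hχ hχ] at h2
      split_ifs at h2 <;> norm_num at h2
  · obtain ⟨k, hk0, hk⟩ := hpos χ hχ hne
    rw [h1, zero_add] at hk
    by_cases hk1 : k = 1
    · left
      refine ⟨4, hχ, hne, ?_, ?_, by norm_num⟩
      · rw [hk, hk1]; norm_num
      · rw [h1]; norm_num
    · right
      exact ⟨k, by omega, hk, h1⟩

/-- Characters without trivial constituent, with given degree and value. -/
structure C (u : G) (φ : G → ℂ) (D E : ℕ) : Prop where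
  char : IsCharacter G φ
  ip : classInner φ 1 = 0
  one : φ 1 = D
  val : φ u = D - 4 * E

theorem Hyp.peel (H : Hyp G u) {φ : G → ℂ} {D E : ℕ} (h : C u φ D E) (h0 : φ ≠ 0) :
    (∃ (ψ : G → ℂ) (d : ℕ), A u ψ d ∧ d ≤ D ∧ 1 ≤ E ∧ C u (φ - ψ) (D - d) (E - 1)) ∨
    ∃ (ψ : G → ℂ) (e : ℕ), IsIrrCharacter G ψ ∧ 2 ≤ e ∧ ψ 1 = 4 * e ∧ ψ u = 0 ∧ 4 * e ≤ D ∧ e ≤ E ∧
      C u (φ - ψ) (D - 4 * e) (E - e) := by
  obtain ⟨ψ, hψ, hψφ⟩ := exists_constituent h.char h0
  have hψ1 : ψ ≠ 1 := by
    rintro rfl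
    exact hψφ h.ip
  have hsub := isCharacter_sub h.char hψ hψφ
  have hip : classInner (φ - ψ) 1 = 0 := by
    rw [classInner_sub_left, h.ip, classInner_irr_ne hψ isIrr_one hψ1, sub_zero]
  obtain ⟨n, hn⟩ := isCharacter_apply_one hsub
  obtain ⟨k, hk⟩ := H.four hsub
  rw [Pi.sub_apply, h.one] at hn
  rw [Pi.sub_apply, Pi.sub_apply, h.one, h.val] at hk
  rcases H.types hψ hψ1 with ⟨d, hd⟩ | ⟨e, he2, he1, heu⟩
  · left
    rw [hd.one] at hn
    rw [hd.one, hd.val] at hk
    have h1 : D = n + d := by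
      have : ((D : ℕ) : ℂ) = ((n + d : ℕ) : ℂ) := by push_cast; linear_combination hn
      exact_mod_cast this
    have h2 : E = k + 1 := by
      have : ((4 * E : ℕ) : ℂ) = ((4 * (k + 1) : ℕ) : ℂ) := by push_cast; linear_combination hk
      have : 4 * E = 4 * (k + 1) := by exact_mod_cast this
      omega
    refine ⟨ψ, d, hd, by omega, by omega, hsub, hip, ?_, ?_⟩
    · rw [Pi.sub_apply, h.one, hd.one, Nat.cast_sub (by omega)]
    · rw [Pi.sub_apply, h.val, hd.val, Nat.cast_sub (by omega), Nat.cast_sub (by omega)]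
      push_cast; ring
  · right
    rw [he1] at hn
    rw [he1, heu] at hk
    have h1 : D = n + 4 * e := by
      have : ((D : ℕ) : ℂ) = ((n + 4 * e : ℕ) : ℂ) := by push_cast; linear_combination hn
      exact_mod_cast this
    have h2 : E = k + e := by
      have : ((4 * E : ℕ) : ℂ) = ((4 * (k + e) : ℕ) : ℂ) := by push_cast; linear_combination hk
      have : 4 * E = 4 * (k + e) := by exact_mod_cast this
      omega
    refine ⟨ψ, e, hψ, he2, he1, heu, by omega, by omega, hsub, hip, ?_, ?_⟩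
    · rw [Pi.sub_apply, h.one, he1, Nat.cast_sub (by omega)]
      push_cast; ring
    · rw [Pi.sub_apply, h.val, heu, Nat.cast_sub (by omega), Nat.cast_sub (by omega)]
      push_cast; ring

theorem Hyp.zero (H : Hyp G u) {φ : G → ℂ} {D : ℕ} (h : C u φ D 0) : φ = 0 := by
  by_contra h0
  rcases H.peel h h0 with ⟨ψ, d, _, _, h1, _⟩ | ⟨ψ, e, _, h1, _, _, _, h2, _⟩
  · omega
  · omega

theorem C.ne_zero {φ : G → ℂ} {D E : ℕ} (h : C u φ D E) (hE : 1 ≤ E) : φ ≠ 0 := by
  rintro rfl
  have h1 := h.one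
  have h2 := h.val
  rw [Pi.zero_apply] at h1 h2
  have h3 : ((4 * E : ℕ) : ℂ) = 0 := by push_cast; linear_combination h2 - h1
  have h4 : 4 * E = 0 := by exact_mod_cast h3
  omega

/-- One constituent. -/
theorem Hyp.oneC (H : Hyp G u) {φ : G → ℂ} {D : ℕ} (h : C u φ D 1) : A u φ D := by
  rcases H.peel h (h.ne_zero le_rfl) with ⟨ψ, d, hd, h1, _, h2⟩ | ⟨ψ, e, _, h1, _, _, _, h2, _⟩
  · have h3 := H.zero h2
    rw [sub_eq_zero] at h3
    subst h3
    have : d = D := by
      have := hd.one.symm.trans h.one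
      exact_mod_cast this
    rwa [this] at hd
  · omega

/-- Two constituents. -/
theorem Hyp.twoC (H : Hyp G u) {φ : G → ℂ} {D : ℕ} (h : C u φ D 2) :
    (∃ (α β : G → ℂ) (a b : ℕ), A u α a ∧ A u β b ∧ φ = α + β ∧ a + b = D) ∨
      (IsIrrCharacter G φ ∧ D = 8 ∧ φ u = 0) := by
  rcases H.peel h (h.ne_zero (by norm_num)) with ⟨ψ, d, hd, h1, _, h2⟩ |
    ⟨ψ, e, hψ, h1, h1', hu, h3, h4, h2⟩
  · left
    have h3 := H.oneC h2
    exact ⟨ψ, φ - ψ, d, D - d, hd, h3, by ring, by omega⟩
  · right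
    have he : e = 2 := by omega
    subst he
    have h5 := H.zero h2
    rw [sub_eq_zero] at h5
    subst h5
    refine ⟨hψ, ?_, hu⟩
    have := h1'.symm.trans h.one
    push_cast at this
    have : ((8 : ℕ) : ℂ) = D := by push_cast; linear_combination this
    exact_mod_cast this.symm

/-- Three constituents. -/
theorem Hyp.threeC (H : Hyp G u) {φ : G → ℂ} {D : ℕ} (h : C u φ D 3) (hD : D ≤ 10) :
    ∃ (α β γ : G → ℂ) (a b c : ℕ), A u α a ∧ A u β b ∧ A u γ c ∧ φ = α + β + γ ∧ a + b + c = D := by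
  rcases H.peel h (h.ne_zero (by norm_num)) with ⟨ψ, d, hd, h1, _, h2⟩ |
    ⟨ψ, e, hψ, h1, h1', hu, h3, h4, h2⟩
  · rcases H.twoC h2 with ⟨α, β, a, b, hα, hβ, h3, h4⟩ | ⟨h3, h4, h5⟩
    · exact ⟨ψ, α, β, d, a, b, hd, hα, hβ, by rw [add_assoc, ← h3]; ring, by omega⟩
    · exfalso
      have := hd.three
      omega
  · exfalso
    have he : e = 2 ∨ e = 3 := by omega
    rcases he with rfl | rfl
    · have h5 := H.oneC h2
      have := h5.three
      omega
    · omega

end Cfsg.Agent.H668.FourTypes
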